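import Cfsg.Agent.H11.PSLn
import Cfsg.Agent.H24.LSsl

/-! Minimal degree of `G₂(q)`: the abstract system `Gm.Sy` (roots `6 = b, 7 = a, 8 = a+b, 9 = 2a+b, 10 = 3a+b,
11 = 3a+2b`), weight spaces `Gm.J`, the basic tools and the statements of the pieces `PB PC PS P3`. -/
set_option autoImplicit false
namespace H11.Gm
open H24 Module Matrix

/-- `⟨r, e^∨⟩` for `6 ≤ e, r < 12` -/
def pr (e r : ℕ) : ℤ := (([[2, -1, 1, 0, -1, 1], [-3, 2, -1, 1, 3, 0], [3, -1, 2, 1, 0, 3], [0, 1, 1, 2, 3, 3],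
  [-1, 1, 0, 1, 2, 1], [1, 0, 1, 1, 1, 2]] : List (List ℤ)).getD (e - 6) []).getD (r - 6) 0

structure Sy (F G : Type*) [Field F] [Group G] where
  x : ℕ → F → G
  h : ℕ → Fˣ → G
  n : ℕ → G
  θ : SpecialLinearGroup (Fin 3) F →* G
  add : ∀ r t u, x r (t + u) = x r t * x r u
  c67 : ∀ t u, x 7 u * x 6 t =
    x 6 t * x 7 u * (x 8 (-(t * u)) * x 9 (-(t * u ^ 2)) * x 10 (t * u ^ 3) * x 11 (-(2 * t ^ 2 * u ^ 3)))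
  c76 : ∀ t u, x 6 u * x 7 t =
    x 7 t * x 6 u * (x 8 (t * u) * x 9 (t ^ 2 * u) * x 10 (-(t ^ 3 * u)) * x 11 (-(t ^ 3 * u ^ 2)))
  c6A : ∀ t u, x 10 u * x 6 t = x 6 t * x 10 u * x 11 (-(t * u))
  c78 : ∀ t u, x 8 u * x 7 t = x 7 t * x 8 u * (x 9 (2 * t * u) * x 10 (-(3 * t ^ 2 * u)) * x 11 (-(3 * t * u ^ 2)))
  c87 : ∀ t u, x 7 u * x 8 t = x 8 t * x 7 u * (x 9 (-(2 * t * u)) * x 11 (3 * t ^ 2 * u) * x 10 (3 * t * u ^ 2))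
  c79 : ∀ t u, x 9 u * x 7 t = x 7 t * x 9 u * x 10 (-(3 * t * u))
  c89 : ∀ t u, x 9 u * x 8 t = x 8 t * x 9 u * x 11 (-(3 * t * u))
  cm : ∀ p ∈ [(6, 8), (6, 9), (6, 11), (7, 10), (7, 11), (8, 10), (8, 11), (9, 10), (9, 11), (10, 11)],
    ∀ t u, Commute (x p.1 t) (x p.2 u)
  tor : ∀ e ∈ [6, 7, 8, 9, 10, 11], ∀ r ∈ [6, 7, 8, 9, 10, 11], ∀ z t,
    h e z * x r t * (h e z)⁻¹ = x r ((z ^ pr e r : Fˣ) * t)
  wy : ∀ p ∈ [(6, 7, 8), (6, 8, 7), (6, 9, 9), (6, 10, 11), (6, 11, 10), (7, 6, 10), (7, 10, 6), (7, 8, 9), (7, 9, 8),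
    (7, 11, 11)], ∃ ε : F, ε ≠ 0 ∧ ∀ t, n p.1 * x p.2.1 t * (n p.1)⁻¹ = x p.2.2 (ε * t)
  θ01 : ∀ t, θ (trv 0 1 t) = x 10 t
  θ12 : ∀ t, θ (trv 1 2 t) = x 6 t
  θ02 : ∀ t, θ (trv 0 2 t) = x 11 (-t)
  zc : ∀ ω : Fˣ, ω ^ 3 = 1 → ∀ g, Commute (h 9 ω) (θ g)

variable {F G M : Type*} [Field F] [Group G] [AddCommGroup M] [Module ℂ M]

/-- weight space of the root subgroup `r` -/
noncomputable def J (S : Sy F G) (ρ : G →* End ℂ M) (ψ : AddChar F ℂ) (r : ℕ) (m : F) : Submodule ℂ M :=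
  jes (fun t => ρ (S.x r t)) fun t => ψ (t * m)

variable {S : Sy F G} {ρ : G →* End ℂ M} {ψ : AddChar F ℂ}

theorem mem_J {r : ℕ} {m : F} {v : M} : v ∈ J S ρ ψ r m ↔ ∀ t, ρ (S.x r t) v = ψ (t * m) • v := Iff.rfl
theorem mem_J0 {r : ℕ} {v : M} : v ∈ J S ρ ψ r 0 ↔ ∀ t, ρ (S.x r t) v = v := by simp [mem_J]
theorem app (g k : G) (v : M) : ρ (g * k) v = ρ g (ρ k v) := by rw [map_mul]; rfl
theorem inj (g : G) : Function.Injective (ρ g) := fun v w e => by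
  simpa [← app] using congrArg (ρ g⁻¹) e

/-- an element commuting with `X_r` preserves its weight spaces -/
theorem J_comm {r : ℕ} {m : F} {g : G} (hg : ∀ t, Commute (S.x r t) g) {v : M} (hv : v ∈ J S ρ ψ r m) :
    ρ g v ∈ J S ρ ψ r m := fun t => by
  change ρ _ _ = _
  rw [← app, (hg t).eq, app, mem_J.1 hv, map_smul]

/-- transport of weight spaces along a conjugation -/
theorem J_conj {r s : ℕ} {m ε : F} {g : G} (e0 : ε ≠ 0) (hg : ∀ t, g * S.x r t * g⁻¹ = S.x s (ε * t)) {v : M}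
    (hv : v ∈ J S ρ ψ r m) : ρ g v ∈ J S ρ ψ s (m / ε) := fun t => by
  change ρ _ _ = _
  have := hg (t / ε)
  rw [mul_div_cancel₀ _ e0, mul_inv_eq_iff_eq_mul] at this
  rw [← app, ← this, app, mem_J.1 hv, map_smul]
  congr 2; ring

variable [FiniteDimensional ℂ M]

theorem fr_le (g : G) {U U' : Submodule ℂ M} (h : ∀ v ∈ U, ρ g v ∈ U') : finrank ℂ U ≤ finrank ℂ U' :=
  Act.finrank_le_of_map (inj g) h

/-- an `X_r`-invariant subspace is the sum of its weight spaces -/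
theorem sum_fr [Fintype F] (hψ : ψ ≠ 1) {U : Submodule ℂ M} {r : ℕ} (hU : ∀ u, ∀ v ∈ U, ρ (S.x r u) v ∈ U) :
    ∑ m, finrank ℂ ↥(U ⊓ J S ρ ψ r m) = finrank ℂ U := by
  let π : Act F ℂ U := ⟨fun t => (ρ (S.x r t)).restrict (hU t), by
    have : S.x r 0 = 1 := by simpa using S.add r 0 0
    ext v; simp [this], fun a b => by ext v; simp [S.add]⟩
  let E : Pairing F F ℂ := Pairing.ofBilin ψ (fun a b => a * b) add_mul mul_add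
    (fun a h => eq_zero_of_forall_addChar_mul hψ fun c => by rw [mul_comm]; exact h c)
    fun b h => eq_zero_of_forall_addChar_mul hψ h
  rw [← π.sum_finrank_W E (by simp)]
  refine Finset.sum_congr rfl fun m _ => ?_
  rw [← Submodule.finrank_map_subtype_eq U (π.W E m)]
  refine congrArg (fun p : Submodule ℂ M => finrank ℂ p) ?_
  ext v
  exact ⟨fun h => ⟨⟨v, h.1⟩, fun t => Subtype.ext (h.2 t), rfl⟩,
    by rintro ⟨w, hw, rfl⟩; exact ⟨w.2, fun t => congrArg Subtype.val (hw t)⟩⟩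

universe u v w

/-- counting in an `SL₃(q)`-invariant subspace -/
def PB : Prop := ∀ {F : Type u} {G : Type v} {M : Type w} [Field F] [Fintype F] [Group G] [AddCommGroup M] [Module ℂ M]
  [FiniteDimensional ℂ M] (S : Sy F G) (ρ : G →* End ℂ M) (ψ : AddChar F ℂ), ψ ≠ 1 → ∀ U : Submodule ℂ M,
  (∀ g, ∀ v ∈ U, ρ (S.θ g) v ∈ U) →
  finrank ℂ U = finrank ℂ ↥(U ⊓ J S ρ ψ 10 0 ⊓ J S ρ ψ 11 0) +
    (Fintype.card F ^ 2 - 1) * finrank ℂ ↥(U ⊓ J S ρ ψ 10 1 ⊓ J S ρ ψ 11 0) ∧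
  (Fintype.card F - 1) * finrank ℂ ↥(U ⊓ J S ρ ψ 10 1 ⊓ J S ρ ψ 11 0 ⊓ J S ρ ψ 6 0) ≤
    finrank ℂ ↥(U ⊓ J S ρ ψ 10 0 ⊓ J S ρ ψ 11 0) ∧
  ∀ β c : F, c ≠ 0 → finrank ℂ ↥(U ⊓ J S ρ ψ 10 1 ⊓ J S ρ ψ 11 0 ⊓ J S ρ ψ 6 β) =
    finrank ℂ ↥(U ⊓ J S ρ ψ 10 1 ⊓ J S ρ ψ 11 0 ⊓ J S ρ ψ 6 (c ^ 3 * β))

/-- the vacuum vector of a small representation, `p ≠ 3` -/
def PC : Prop := ∀ {F : Type u} {G : Type v} {M : Type w} [Field F] [Fintype F] [Group G] [AddCommGroup M] [Module ℂ M]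
  [FiniteDimensional ℂ M] (S : Sy F G) (ρ : G →* End ℂ M) (ψ : AddChar F ℂ), ψ ≠ 1 → (3 : F) ≠ 0 →
  Fintype.card F ≠ 2 → Fintype.card F ≠ 4 → ρ (S.x 10 1) ≠ 1 → finrank ℂ M ≤ Fintype.card F ^ 3 →
  finrank ℂ ↥(J S ρ ψ 10 1 ⊓ J S ρ ψ 11 0) = Fintype.card F ∧
  finrank ℂ ↥(J S ρ ψ 10 1 ⊓ J S ρ ψ 11 0 ⊓ J S ρ ψ 9 0) = 1 ∧
  ∃ v ≠ 0, v ∈ J S ρ ψ 10 1 ∧ v ∈ J S ρ ψ 11 0 ∧ v ∈ J S ρ ψ 9 0 ∧ v ∈ J S ρ ψ 8 0 ∧ v ∈ J S ρ ψ 6 0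

/-- `q ≡ 1 (mod 3)`: an irreducible `SL₃(q)`-constituent -/
def PS : Prop := ∀ {F : Type u} {G : Type v} {M : Type w} [Field F] [Fintype F] [Group G] [AddCommGroup M] [Module ℂ M]
  [FiniteDimensional ℂ M] (S : Sy F G) (ρ : G →* End ℂ M), Fintype.card F % 3 = 1 → 4 < Fintype.card F →
  ρ (S.x 10 1) ≠ 1 → finrank ℂ M ≤ Fintype.card F ^ 3 →
  ∃ d w, d ∣ Nat.card (SpecialLinearGroup (Fin 3) F) ∧ Fintype.card F - 1 ≤ w ∧ w ≤ Fintype.card F ∧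
    3 * d = 3 * w + (Fintype.card F ^ 2 - 1) * (Fintype.card F + 2)

/-- characteristic three -/
def P3 : Prop := ∀ {F : Type u} {G : Type v} {M : Type w} [Field F] [Fintype F] [Group G] [AddCommGroup M] [Module ℂ M]
  [FiniteDimensional ℂ M] (S : Sy F G) (ρ : G →* End ℂ M), (3 : F) = 0 → 9 ≤ Fintype.card F →
  ρ (S.x 11 1) ≠ 1 → ρ (S.x 9 1) ≠ 1 → Fintype.card F ^ 4 + Fintype.card F ^ 2 ≤ finrank ℂ M + 2

end H11.Gm
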