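import Cfsg.Agent.H11.Gm0
import Cfsg.Agent.H12.GoodG2
import Cfsg.Agent.H12.Mono
import Cfsg.Agent.H12.Coll

/-! Minimal degree of `G₂(q)`: a Steinberg system of type `G₂` carries the abstract system `Gm.Sy` (`Gm.exists_sy`). -/
set_option autoImplicit false
namespace H11.Gm
open H12 H12.StSys Cfsg.Lie Matrix

variable {F G : Type*} [Field F] [Group G] (S : StSys chevG2 F G)

theorem cN (r s : ℕ) (l : List (ℕ × ℤ × ℕ × ℕ))
    (h : r < 12 ∧ s < 12 ∧ s ≠ r ∧ r + s + 1 ≠ 12 ∧ chevG2.commTerms r s = l ∧ ∀ c ∈ l, c.1 < 12) (t u : F) :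
    S.xN s u * S.xN r t = S.xN r t * S.xN s u *
      (l.map fun c => S.xN c.1 ((c.2.1 : F) * (-t) ^ c.2.2.1 * u ^ c.2.2.2)).prod := by
  obtain ⟨hr, hs, h1, h2, h3, h4⟩ := h
  rw [xN_lt _ (show r < chevG2.nroots from hr), xN_lt _ (show s < chevG2.nroots from hs),
    S.comm (r := ⟨r, hr⟩) (s := ⟨s, hs⟩) (fun e' => h1 (congrArg Fin.val e')) (fun e' => h2 (by
      have := ng_add (⟨r, hr⟩ : Φ chevG2); rw [← e'] at this; exact (by rw [add_comm r s]; exact this))), cword, cterms,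
    show chevG2.commTerms _ _ = l from h3]
  congr 1
  clear h3
  induction l with
  | nil => simp
  | cons c l ih =>
    obtain ⟨k, c⟩ := c
    rw [toΦ_cons_lt (show k < chevG2.nroots from h4 _ List.mem_cons_self)]
    simp only [List.map_cons, List.prod_cons, wprod_cons]
    rw [ih fun c hc => h4 c (List.mem_cons_of_mem _ hc), xN_lt _ (show k < chevG2.nroots from h4 _ List.mem_cons_self)]

theorem c0 (r s : ℕ) (h : r < 12 ∧ s < 12 ∧ s ≠ r ∧ r + s + 1 ≠ 12 ∧ chevG2.commTerms r s = []) (t u : F) :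
    Commute (S.xN r t) (S.xN s u) := by
  have := cN S r s [] ⟨h.1, h.2.1, h.2.2.1, h.2.2.2.1, h.2.2.2.2, by simp⟩ t u
  exact (by simpa using this.symm : _ * _ = _ * _)

theorem torN (e r : ℕ) (he : e < 12) (hr : r < 12) (z : Fˣ) (t : F) :
    S.h ⟨e, he⟩ z * S.xN r t * (S.h ⟨e, he⟩ z)⁻¹ = S.xN r ((z ^ (tab chevG2).pr e r : Fˣ) * t) := by
  rw [xN_lt _ (show r < chevG2.nroots from hr), xN_lt _ (show r < chevG2.nroots from hr), S.h_conj_x, ← pr_tab]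

theorem wyN (e r s : ℕ) (he : e < 12) (hr : r < 12) (hs : s < 12)
    (h : ∀ i : Fin 2, chevG2.cartan i s = chevG2.cartan i r - (tab chevG2).pr e r * chevG2.cartan i e) :
    ∃ ε : F, ε ≠ 0 ∧ ∀ t, S.n ⟨e, he⟩ 1 * S.xN r t * (S.n ⟨e, he⟩ 1)⁻¹ = S.xN s (ε * t) := by
  have e1 : rf (D := chevG2) ⟨e, he⟩ ⟨r, hr⟩ = ⟨s, hs⟩ := wt_injective (by
    rw [wt_rf, ← pr_tab]; funext i; exact (h i).symm)
  refine ⟨_, (ηu F (⟨e, he⟩ : Φ chevG2) ⟨r, hr⟩ * 1 ^ (-H12.pr (⟨e, he⟩ : Φ chevG2) ⟨r, hr⟩) : Fˣ).ne_zero, fun t => ?_⟩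
  rw [xN_lt _ (show r < chevG2.nroots from hr), xN_lt _ (show s < chevG2.nroots from hs), S.n_conj_x', e1]

def rt (i j : Fin 3) : ℕ := ![![0, 10, 11], ![1, 0, 6], ![0, 5, 0]] i j
def sg (i j : Fin 3) : ℤ := ![![0, 1, -1], ![1, 0, 1], ![-1, 1, 0]] i j

theorem t1 : ∀ i j k l : Fin 3, i ≠ j → k ≠ l → i ≠ l → j ≠ k → rt k l = rt i j ∨ (rt i j < 12 ∧ rt k l < 12 ∧
    rt k l ≠ rt i j ∧ rt i j + rt k l + 1 ≠ 12 ∧ chevG2.commTerms (rt i j) (rt k l) = []) := by decide +kernel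
theorem t2 : ∀ i j l : Fin 3, i ≠ j → j ≠ l → i ≠ l → (sg i j * sg i j = 1 ∧ sg j l * sg j l = 1) ∧ (rt j l < 12 ∧
    rt i j < 12 ∧ rt i j ≠ rt j l ∧ rt j l + rt i j + 1 ≠ 12 ∧
    chevG2.commTerms (rt j l) (rt i j) = [(rt i l, -(sg i j * sg j l * sg i l), 1, 1)] ∧
    ∀ c ∈ [(rt i l, -(sg i j * sg j l * sg i l), 1, 1)], c.1 < 12) := by decide +kernel
theorem t3 : ∀ i j : Fin 3, i ≠ j → rt i j < 12 ∧ (3 : ℤ) ∣ (tab chevG2).pr 9 (rt i j) := by decide +kernel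
theorem t4 : ∀ e ∈ [6, 7, 8, 9, 10, 11], ∀ r ∈ [6, 7, 8, 9, 10, 11], e < 12 ∧ r < 12 ∧
    (tab chevG2).pr e r = H11.Gm.pr e r := by decide +kernel

theorem xcomm (r : ℕ) (t u : F) : Commute (S.xN r t) (S.xN r u) := by
  rw [Commute, SemiconjBy, ← S.xN_add, ← S.xN_add, add_comm]

theorem exists_θ [Finite F] : ∃ θ : SpecialLinearGroup (Fin 3) F →* G,
    ∀ i j, i ≠ j → ∀ a, θ (trv i j a) = S.xN (rt i j) (sg i j * a) := by
  have cm : ∀ i j k l, i ≠ j → k ≠ l → i ≠ l → j ≠ k → ∀ a b, Commute (S.xN (rt i j) a) (S.xN (rt k l) b) :=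
    fun i j k l h1 h2 h3 h4 a b => (t1 i j k l h1 h2 h3 h4).elim (fun e => e ▸ xcomm S _ _ _) fun e => c0 S _ _ e a b
  refine sl_hom (n := 3) (F := F) le_rfl (fun i j a => S.xN (rt i j) (sg i j * a))
    (fun i j _ => ⟨fun a b => by rw [mul_add, S.xN_add]⟩) (fun i j k l h1 h2 h3 h4 a b => cm i j k l h1 h2 h3 h4 _ _)
    fun i j l h1 h2 h3 a b => ?_
  obtain ⟨⟨b1, b2⟩, b3⟩ := t2 i j l h1 h2 h3
  have := cN S _ _ _ b3 (sg j l * b) (sg i j * a)
  have e : ((-(sg i j * sg j l * sg i l) : ℤ) : F) * (-(sg j l * b)) ^ 1 * (sg i j * a) ^ 1 = sg i l * (a * b) := by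
    have c1 := congrArg (Int.cast : ℤ → F) b1
    have c2 := congrArg (Int.cast : ℤ → F) b2
    push_cast at c1 c2 ⊢
    linear_combination (sg j l * sg j l * sg i l * a * b : F) * c1 + (sg i l * a * b : F) * c2
  simp only [List.map_cons, List.map_nil, List.prod_cons, List.prod_nil, mul_one] at this
  rw [e] at this
  rw [this, mul_assoc, mul_assoc, mul_assoc, ← mul_assoc (S.xN (rt i l) _), (cm i l i j h3 h1 h1 h3.symm _ _).inv_right.eq,
    mul_assoc, mul_inv_cancel_left, (cm i l j l h3 h2 h3 h2.symm _ _).inv_right.eq, mul_inv_cancel_left]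

theorem exists_sy [Finite F] : ∃ T : Sy F G, T.x = S.xN := by
  obtain ⟨θ, hθ⟩ := exists_θ S
  refine ⟨{
    x := S.xN
    h := fun e z => if h : e < 12 then S.h ⟨e, h⟩ z else 1
    n := fun e => if h : e < 12 then S.n ⟨e, h⟩ 1 else 1
    θ := θ
    add := S.xN_add
    c67 := fun t u => ?_
    c76 := fun t u => ?_
    c6A := fun t u => ?_
    c78 := fun t u => ?_
    c87 := fun t u => ?_
    c79 := fun t u => ?_
    c89 := fun t u => ?_
    cm := fun p hp => c0 S _ _ (by revert p; decide +kernel)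
    tor := fun e he r hr z t => ?_
    wy := fun p hp => ?_
    θ01 := fun t => by simpa [rt, sg] using hθ 0 1 (by decide) t
    θ12 := fun t => by simpa [rt, sg] using hθ 1 2 (by decide) t
    θ02 := fun t => by simpa [rt, sg] using hθ 0 2 (by decide) t
    zc := fun ω hω g => ?_ }, rfl⟩
  · rw [cN S 6 7 [(8, 1, 1, 1), (9, 1, 1, 2), (10, -1, 1, 3), (11, -2, 2, 3)] (by decide +kernel)]
    simp [mul_assoc]
  · rw [cN S 7 6 [(8, -1, 1, 1), (9, 1, 2, 1), (10, 1, 3, 1), (11, 1, 3, 2)] (by decide +kernel)]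
    simp [mul_assoc, Odd.neg_pow (show Odd 3 by decide)]
  · rw [cN S 6 10 [(11, 1, 1, 1)] (by decide +kernel)]
    simp [mul_assoc]
  · rw [cN S 7 8 [(9, -2, 1, 1), (10, -3, 2, 1), (11, 3, 1, 2)] (by decide +kernel)]
    simp [mul_assoc]
  · rw [cN S 8 7 [(9, 2, 1, 1), (11, 3, 2, 1), (10, -3, 1, 2)] (by decide +kernel)]
    simp [mul_assoc]
  · rw [cN S 7 9 [(10, 3, 1, 1)] (by decide +kernel)]
    simp [mul_assoc]
  · rw [cN S 8 9 [(11, 3, 1, 1)] (by decide +kernel)]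
    simp [mul_assoc]
  · obtain ⟨a, b, c⟩ := t4 e he r hr
    rw [dif_pos a, torN S e r a b, c]
  · have : p.1 < 12 ∧ p.2.1 < 12 ∧ p.2.2 < 12 ∧ ∀ i : Fin 2, chevG2.cartan i p.2.2 =
        chevG2.cartan i p.2.1 - (tab chevG2).pr p.1 p.2.1 * chevG2.cartan i p.1 := by revert p; decide +kernel
    rw [dif_pos this.1]
    exact wyN S _ _ _ this.1 this.2.1 this.2.2.1 this.2.2.2
  · rw [dif_pos (by norm_num)]
    refine H10.SL_transvection_induction (fun g => Commute (S.h ⟨9, by decide⟩ ω) (θ g)) (fun i j h a => ?_)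
      (fun a b ha hb => by rw [map_mul]; exact ha.mul_right hb) g
    have := hθ i j h a
    rw [trv, dif_pos h] at this
    obtain ⟨b, c, e⟩ := t3 i j h
    have k := torN S 9 _ (by decide) b ω (sg i j * a)
    rw [e, _root_.zpow_mul, show ω ^ (3 : ℤ) = 1 from hω, _root_.one_zpow, Units.val_one, one_mul, mul_inv_eq_iff_eq_mul] at k
    rw [this]
    exact k

end H11.Gm
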