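import Cfsg.Agent.H11.Gm1
import Cfsg.Agent.H10.SL
import Cfsg.Agent.H12.Graph
import Cfsg.Agent.H5.Central
import Cfsg.Agent.S1055
import Cfsg.Agent.S1059

/-! Minimal degree of `G₂(q)`: the arithmetic (`ar1`, `ar3`) and the assembly `Gm.final` from the pieces `PB PC PS P3`. -/
set_option autoImplicit false
namespace H11.Gm
open H24 H12 H12.StSys Cfsg Cfsg.Lie H5 Module Matrix

theorem sm1 : ∀ q < 600, 4 < q → q % 3 = 1 → q ≠ 10 →
    3 * (q ^ 3 * (q ^ 2 - 1) * (q ^ 3 - 1)) % (3 * (q - 1) + (q ^ 2 - 1) * (q + 2)) ≠ 0 ∧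
    3 * (q ^ 3 * (q ^ 2 - 1) * (q ^ 3 - 1)) % (3 * q + (q ^ 2 - 1) * (q + 2)) ≠ 0 := by decide +kernel

theorem rem {f N r : ℤ} (Q : ℤ) (h : f ∣ N) (e : r = f * Q - N) : f ∣ r := e ▸ (Dvd.intro Q rfl).sub h

theorem ar1 {q d w : ℕ} (h4 : 4 < q) (h3 : q % 3 = 1) (h10 : q ≠ 10) (hd : d ∣ q ^ 3 * (q ^ 2 - 1) * (q ^ 3 - 1))
    (w1 : q - 1 ≤ w) (w2 : w ≤ q) (e : 3 * d = 3 * w + (q ^ 2 - 1) * (q + 2)) : False := by
  replace hd := mul_dvd_mul_left 3 hd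
  rw [e] at hd
  by_cases hq : q < 600
  · obtain ⟨a, b⟩ := sm1 q hq h4 h3 h10
    obtain rfl | rfl : w = q - 1 ∨ w = q := by omega
    exacts [a (Nat.mod_eq_zero_of_dvd hd), b (Nat.mod_eq_zero_of_dvd hd)]
  have q1 : 1 ≤ q := by omega
  have q2 : 1 ≤ q ^ 2 := Nat.one_le_pow _ _ q1
  have q3 : 1 ≤ q ^ 3 := Nat.one_le_pow _ _ q1
  have hq' : (600 : ℤ) ≤ q := by exact_mod_cast not_lt.1 hq
  obtain h | h : w = q - 1 ∨ w = q := by omega
  · rw [h] at hd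
    zify [q1, q2, q3] at hd
    generalize (q : ℤ) = y at hd hq'
    have b : y ^ 2 + 3 * y + 5 ∣ 3 * (y - 1) + (y ^ 2 - 1) * (y + 2) := ⟨y - 1, by ring⟩
    have a : y ^ 2 + 3 * y + 5 ∣ 558 * y - 720 :=
      rem (-144 + 198 * y - 90 * y ^ 2 + 15 * y ^ 3 + 9 * y ^ 4 - 9 * y ^ 5 + 3 * y ^ 6) (b.trans hd) (by ring)
    have := Int.le_of_dvd (by omega) a
    nlinarith
  · rw [h] at hd
    zify [q1, q2, q3] at hd
    generalize (q : ℤ) = y at hd hq'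
    have a : 3 * y + (y ^ 2 - 1) * (y + 2) ∣ 36 * y ^ 2 + 198 * y - 126 :=
      rem (63 - 36 * y + 9 * y ^ 2 + 3 * y ^ 3 - 6 * y ^ 4 + 3 * y ^ 5) hd (by ring)
    have := Int.le_of_dvd (by nlinarith) a
    nlinarith [mul_le_mul_of_nonneg_right hq' (sq_nonneg y)]

theorem ar3 {q k : ℕ} (h9 : 9 ≤ q) (h3 : q % 3 = 0) (hd : k ∣ q ^ 6 * (q ^ 2 - 1) * (q ^ 6 - 1))
    (lo : q ^ 4 + q ^ 2 ≤ k + 2) : q ^ 4 + q ^ 2 + 1 ≤ k := by
  by_contra hlt
  have q1 : 1 ≤ q := by omega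
  have q2 : 1 ≤ q ^ 2 := Nat.one_le_pow _ _ q1
  have q6 : 1 ≤ q ^ 6 := Nat.one_le_pow _ _ q1
  have y81 : (81 : ℤ) ≤ (q : ℤ) ^ 2 := by exact_mod_cast Nat.pow_le_pow_left h9 2
  zify [q2, q6] at hd
  have e4 : (q : ℤ) ^ 4 = (q ^ 2) ^ 2 := by ring
  have e6 : (q : ℤ) ^ 6 = (q ^ 2) ^ 3 := by ring
  have hk : (k : ℤ) = (q ^ 2) ^ 2 + q ^ 2 - 2 ∨ (k : ℤ) = (q ^ 2) ^ 2 + q ^ 2 - 1 ∨ (k : ℤ) = (q ^ 2) ^ 2 + q ^ 2 := by
    rw [← e4]
    zify at lo hlt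
    omega
  rw [e6] at hd
  rcases hk with hk | hk | hk <;> rw [hk] at hd
  · have a : (q : ℤ) ^ 2 + 2 ∣ 216 := by
      generalize (q : ℤ) ^ 2 = y at hd
      have b : y + 2 ∣ y ^ 2 + y - 2 := ⟨y - 1, by ring⟩
      exact rem (108 - 54 * y + 27 * y ^ 2 - 13 * y ^ 3 + 6 * y ^ 4 - 3 * y ^ 5 + y ^ 6) (b.trans hd) (by ring)
    have b := Int.le_of_dvd (by omega) a
    have : q < 15 := by
      by_contra h
      have : (15 : ℤ) ≤ q := by exact_mod_cast not_lt.1 h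
      nlinarith
    interval_cases q <;> first | omega | norm_num at a
  · generalize (q : ℤ) ^ 2 = y at hd y81
    have a : y ^ 2 + y - 1 ∣ 26 * y - 16 :=
      rem (16 - 10 * y + 6 * y ^ 2 - 3 * y ^ 3 + 2 * y ^ 4 - y ^ 5) hd.neg_right (by ring)
    have := Int.le_of_dvd (by omega) a
    nlinarith
  · generalize (q : ℤ) ^ 2 = y at hd y81
    have a : y + 1 ∣ 4 := by
      have b : y + 1 ∣ y ^ 2 + y := ⟨y, by ring⟩
      exact rem (4 - 4 * y + 4 * y ^ 2 - 3 * y ^ 3 + 2 * y ^ 4 - 2 * y ^ 5 + y ^ 6) (b.trans hd) (by ring)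
    have := Int.le_of_dvd (by omega) a
    omega

theorem card_SL3 {F : Type*} [Field F] [Fintype F] : Nat.card (SpecialLinearGroup (Fin 3) F) =
    Fintype.card F ^ 3 * (Fintype.card F ^ 2 - 1) * (Fintype.card F ^ 3 - 1) := by
  have h := H10.card_SL (F := F) 3 (by norm_num)
  have q2 : 2 ≤ Fintype.card F := Fintype.one_lt_card
  rw [Fin.prod_univ_three] at h
  generalize Fintype.card F = q at *
  have q1 : 1 ≤ q := by omega
  have a : ∀ i, i ≤ 3 → q ^ i ≤ q ^ 3 := fun i hi => Nat.pow_le_pow_right q1 hi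
  have a0 := a 0 (by omega)
  have a1 := a 1 (by omega)
  have a2 := a 2 (by omega)
  have a3 : 1 ≤ q ^ 2 := Nat.one_le_pow _ _ q1
  refine Nat.eq_of_mul_eq_mul_left (show 0 < q - 1 by omega) (h.trans ?_)
  simp only [Fin.val_zero, Fin.val_one, Fin.val_two, pow_zero, pow_one] at *
  zify [a0, a1, a2, a3, q1]
  ring

universe u

theorem setup {F : Type u} [Field F] [Fintype F] {k : ℕ} (ρ : Representation ℂ (chevG2.group F) (Fin k → ℂ))
    (hρ : ρ.IsIrreducible) (hk : 2 ≤ k) (hq : 2 < Fintype.card F) :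
    (∀ g, ρ g = 1 → g = 1) ∧ (∀ a < 12, ρ ((grS chevG2 F).xN a 1) ≠ 1) ∧
      k ∣ Fintype.card F ^ 6 * (Fintype.card F ^ 2 - 1) * (Fintype.card F ^ 6 - 1) := by
  classical
  obtain ⟨a, a0, a1⟩ : ∃ a : F, a ≠ 0 ∧ a ≠ 1 := by
    by_contra h
    push Not at h
    have : (Finset.univ : Finset F) ⊆ {0, 1} := fun x _ => by
      by_cases e : x = 0 <;> simp [e, h x]
    have := (Finset.card_le_card this).trans Finset.card_le_two
    rw [Finset.card_univ] at this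
    omega
  have hs := (Cfsg.Agent.S1055.result (F := F) ⟨a, a0, a1⟩).1
  have hinj : ∀ g, ρ g = 1 → g = 1 := fun g hg => by
    rcases hs.eq_bot_or_eq_top_of_normal (MonoidHom.ker ρ) (MonoidHom.normal_ker _) with h | h
    · exact (Subgroup.eq_bot_iff_forall _).1 h g hg
    · obtain ⟨x, hx⟩ := exists_ne_one_of_two_le ρ (by simpa using hk)
      exact absurd ((Subgroup.eq_top_iff' _).1 h x) hx
  refine ⟨hinj, fun a ha h => ?_, ?_⟩
  · have := congrArg (fun g : chevG2.group F => (g : GL chevG2.Idx F).1) ((xN_lt _ ha 1).symm.trans (hinj _ h))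
    exact one_ne_zero (xR_eq_one.1 this)
  · have h5 := (isIrrCharacter_character ρ).degree_dvd_card (n := k) (by simp)
    rwa [Cfsg.Agent.S1059.result rfl] at h5

theorem three_ne {F : Type u} [Field F] [Fintype F] : (3 : F) = 0 ↔ Fintype.card F % 3 = 0 := by
  haveI : Fact (Nat.Prime 3) := ⟨Nat.prime_three⟩
  rw [← Nat.dvd_iff_mod_eq_zero, ← prime_dvd_char_iff_dvd_card (R := F) 3]
  constructor
  · intro h
    have := (ringChar.spec F 3).1 (by exact_mod_cast h)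
    rcases (Nat.dvd_prime Nat.prime_three).1 this with e | e
    · exact absurd e CharP.ringChar_ne_one
    · rw [e]
  · intro h
    obtain ⟨f, pp, -⟩ := FiniteField.card F (ringChar F)
    have e := (Nat.prime_dvd_prime_iff_eq Nat.prime_three pp).1 h
    exact_mod_cast (ringChar.spec F 3).2 (e ▸ dvd_rfl)

variable {F : Type u} [Field F] [Fintype F] {k : ℕ} (ρ : Representation ℂ (chevG2.group F) (Fin k → ℂ))
    (hρ : ρ.IsIrreducible) (hk : 2 ≤ k)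
include hρ hk

theorem fin1 (hS : PS.{u, u, 0}) (h3 : Fintype.card F % 3 = 1) (h4 : 4 < Fintype.card F) : Fintype.card F ^ 3 + 1 ≤ k := by
  by_contra hlt
  obtain ⟨-, hx, -⟩ := setup ρ hρ hk (by omega)
  obtain ⟨T, hT⟩ := exists_sy (grS chevG2 F)
  obtain ⟨d, w, hd, w1, w2, e⟩ := hS T ρ h3 h4 (by rw [hT]; exact hx 10 (by norm_num))
    (by rw [finrank_fintype_fun_eq_card, Fintype.card_fin]; omega)
  rw [card_SL3] at hd
  refine ar1 h4 h3 (fun h => ?_) hd w1 w2 e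
  obtain ⟨p, hp⟩ := CharP.exists F
  obtain ⟨f, pp, hf⟩ := FiniteField.card F p
  rw [h] at hf
  have a2 := (Nat.prime_dvd_prime_iff_eq Nat.prime_two pp).1 (Nat.prime_two.dvd_of_dvd_pow (hf ▸ (by norm_num : 2 ∣ 10)))
  have a5 := (Nat.prime_dvd_prime_iff_eq Nat.prime_five pp).1 (Nat.prime_five.dvd_of_dvd_pow (hf ▸ (by norm_num : 5 ∣ 10)))
  omega

theorem fin2 (hB : PB.{u, u, 0}) (hC : PC.{u, u, 0}) (h3 : Fintype.card F % 3 = 2) (h2 : 2 < Fintype.card F) :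
    Fintype.card F ^ 3 - 1 ≤ k := by
  by_contra hlt
  obtain ⟨-, hx, -⟩ := setup ρ hρ hk h2
  obtain ⟨T, hT⟩ := exists_sy (grS chevG2 F)
  obtain ⟨ψ, hψ⟩ := exists_addChar_complex F
  obtain ⟨c1, -, v, v0, v1, v2, -, -, v3⟩ := hC T ρ ψ hψ (by rw [Ne, three_ne]; omega) (by omega) (by omega)
    (by rw [hT]; exact hx 10 (by norm_num)) (by rw [finrank_fintype_fun_eq_card, Fintype.card_fin]; omega)
  obtain ⟨b1, b2, -⟩ := hB T ρ ψ hψ ⊤ (fun _ _ _ => trivial)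
  rw [finrank_top, finrank_fintype_fun_eq_card, Fintype.card_fin, top_inf_eq, top_inf_eq, c1] at b1
  rw [top_inf_eq, top_inf_eq] at b2
  have b3 : 1 ≤ finrank ℂ ↥(J T ρ ψ 10 1 ⊓ J T ρ ψ 11 0 ⊓ J T ρ ψ 6 0) :=
    Submodule.one_le_finrank_iff.2 (Submodule.ne_bot_iff _ |>.2 ⟨v, ⟨⟨v1, v2⟩, v3⟩, v0⟩)
  have b4 := (Nat.le_mul_of_pos_right _ b3).trans b2
  generalize Fintype.card F = q at *
  have : (q ^ 2 - 1) * q + q = q ^ 3 := by
    rw [← add_one_mul, Nat.sub_add_cancel (Nat.one_le_pow _ _ (by omega))]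
    ring
  omega

theorem fin3 (h3 : Fintype.card F % 3 = 0) (h2 : 3 < Fintype.card F)
    (h : (3 : F) = 0 → 9 ≤ Fintype.card F → (∀ g, ρ g = 1 → g = 1) → (∀ a < 12, ρ ((grS chevG2 F).xN a 1) ≠ 1) →
      k < Fintype.card F ^ 4 + Fintype.card F ^ 2 + 1 → Fintype.card F ^ 4 + Fintype.card F ^ 2 ≤ k + 2) :
    Fintype.card F ^ 4 + Fintype.card F ^ 2 + 1 ≤ k := by
  by_contra hlt
  obtain ⟨hi, hx, hd⟩ := setup ρ hρ hk (by omega)
  have h9 : 9 ≤ Fintype.card F := by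
    by_contra h
    obtain ⟨p, hp⟩ := CharP.exists F
    obtain ⟨f, pp, hf⟩ := FiniteField.card F p
    rw [show Fintype.card F = 6 by omega] at hf
    have a2 := (Nat.prime_dvd_prime_iff_eq Nat.prime_two pp).1 (Nat.prime_two.dvd_of_dvd_pow (hf ▸ (by norm_num : 2 ∣ 6)))
    have a5 := (Nat.prime_dvd_prime_iff_eq Nat.prime_three pp).1 (Nat.prime_three.dvd_of_dvd_pow (hf ▸ (by norm_num : 3 ∣ 6)))
    omega
  exact hlt (ar3 h9 h3 hd (h (three_ne.2 h3) h9 hi hx (by omega)))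

theorem final (hB : PB.{u, u, 0}) (hC : PC.{u, u, 0}) (hS : PS.{u, u, 0}) (hP : P3.{u, u, 0}) :
    (Fintype.card F % 3 = 1 → 4 < Fintype.card F → Fintype.card F ^ 3 + 1 ≤ k) ∧
    (Fintype.card F % 3 = 2 → 2 < Fintype.card F → Fintype.card F ^ 3 - 1 ≤ k) ∧
    (Fintype.card F % 3 = 0 → 3 < Fintype.card F → Fintype.card F ^ 4 + Fintype.card F ^ 2 + 1 ≤ k) := by
  refine ⟨fin1 ρ hρ hk hS, fin2 ρ hρ hk hB hC, fun h3 h2 => fin3 ρ hρ hk h3 h2 fun a b _ hx _ => ?_⟩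
  obtain ⟨T, hT⟩ := exists_sy (grS chevG2 F)
  have := hP T ρ a b (by rw [hT]; exact hx 11 (by norm_num)) (by rw [hT]; exact hx 9 (by norm_num))
  rwa [finrank_fintype_fun_eq_card, Fintype.card_fin] at this

end H11.Gm
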