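import Cfsg.Agent.H11.Zas
/-! Class numbers of subgroups of index two (`two_classes_ker`) and of `Ω_{2n+1}(q)`, `q` odd (`omega_odd_classes`). -/
namespace H11
open Module Polynomial Finset
open PForm hiding X

section Grp
variable {G : Type*} [Group G]

open Classical in
theorem sum_comm_eq [Fintype G] (p : G → Prop) (hp : ∀ a b, IsConj a b → p a → p b) :
    ∑ a with p a, #{b | b * a = a * b} =
      Nat.card {C : ConjClasses G // ∃ g, ConjClasses.mk g = C ∧ p g} * Fintype.card G := by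
  rw [← sum_fiberwise_of_maps_to (t := {C | ∃ g, ConjClasses.mk g = C ∧ p g}) (g := ConjClasses.mk)
    fun a ha => by simpa using ⟨a, rfl, (mem_filter.1 ha).2⟩, Nat.card_eq_fintype_card, Fintype.card_subtype,
    ← smul_eq_mul, ← sum_const]
  refine sum_congr rfl fun C hC => ?_
  obtain ⟨g, rfl, hg⟩ := (mem_filter.1 hC).2
  rw [← card_univ]
  refine (sum_congr rfl fun a ha => ?_).trans (card_eq_sum_card_fiberwise (f := fun x => x * g * x⁻¹) fun x _ => by
    have := (isConj_iff (a := g)).2 ⟨x, rfl⟩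
    simpa using ⟨hp _ _ this hg, ConjClasses.mk_eq_mk_iff_isConj.2 this.symm⟩).symm
  obtain ⟨x, rfl⟩ := isConj_iff.1 (ConjClasses.mk_eq_mk_iff_isConj.1 (mem_filter.1 ha).2).symm
  exact card_equiv (.mulRight x) fun b => by
    simp only [mem_filter_univ, Equiv.coe_mulRight]; rw [← mul_inv_eq_iff_eq_mul]; simp [mul_assoc]

theorem two_classes_ker [Finite G] (φ : G →* ℤˣ) {z : G} (hz : φ z = -1) :
    2 * Nat.card (ConjClasses φ.ker) = Nat.card (ConjClasses G) +
      3 * Nat.card {C : ConjClasses G // ∃ g, ConjClasses.mk g = C ∧ ∀ c, c * g = g * c → φ c = 1} := by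
  classical
  have := Fintype.ofFinite G
  have h1 := sum_comm_eq (fun _ : G => True) (by simp)
  have h2 := sum_comm_eq (fun g : G => ∀ c, c * g = g * c → φ c = 1) fun a b h h' c e => by
    obtain ⟨x, rfl⟩ := isConj_iff.1 h
    simpa [mul_right_comm (φ x) (φ c)] using h' (x⁻¹ * c * x) (by simpa [mul_assoc] using congrArg (x⁻¹ * · * x) e)
  have h3 := sum_comm_eq (fun _ : φ.ker => True) (by simp)
  have h4 : Fintype.card G = Fintype.card φ.ker * 2 := by
    rw [← Nat.card_eq_fintype_card, ← Nat.card_eq_fintype_card, ← φ.ker.card_mul_index, Subgroup.index_ker,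
      MonoidHom.range_eq_top.2 fun s => (Int.units_eq_one_or s).elim (⟨1, by simp [·]⟩) (⟨z, by simp [·, hz]⟩)]
    simp
  rw [card_classes_true] at h1 h3
  let σ : G → ℤ := fun a => ∑ b with b * a = a * b, φ b
  have h5 : ∀ a, σ a = if ∀ c, c * a = a * c → φ c = 1 then (#{b | b * a = a * b} : ℤ) else 0 := fun a => by
    split_ifs with h
    · rw [card_eq_sum_ones, Nat.cast_sum]; exact sum_congr rfl fun b hb => by simp [h b (mem_filter.1 hb).2]
    · simp only [not_forall] at h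
      obtain ⟨c, h, h'⟩ := h
      have : σ a = -σ a := by
        rw [← sum_neg_distrib]
        exact sum_equiv (.mulLeft c) (fun b => by simp [mul_assoc c, ← h, ← mul_assoc a])
          fun b _ => by simp [(Int.units_eq_one_or _).resolve_left h']
      omega
  have h6 : ∀ a, φ a * σ a = σ a := fun a => by
    rw [h5]; split_ifs with h <;> simp [*]
  have h7 : ∀ f : G → ℤ, ∑ a, (1 + φ a) * f a = 2 * ∑ a : φ.ker, f a := fun f => by
    rw [← sum_subtype (p := (· ∈ φ.ker)) {a | φ a = 1} (by simp), sum_filter, mul_sum]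
    exact sum_congr rfl fun a _ => by rcases Int.units_eq_one_or (φ a) with h | h <;> simp [h]
  have h8 : ∑ a, (1 + φ a) * (∑ b, (1 + φ b) * (if b * a = a * b then 1 else 0) : ℤ) =
      ∑ a : G, (#{b | b * a = a * b} : ℤ) + 3 * ∑ a, σ a := by
    have : ∑ a, φ a * (#{b | b * a = a * b} : ℤ) = ∑ a, σ a := by
      simp only [σ, card_filter, sum_filter, Nat.cast_sum, mul_sum]
      exact sum_comm.trans (by simp [eq_comm])
    simp only [add_mul, one_mul, mul_ite, mul_one, mul_zero, sum_add_distrib, ← sum_filter, sum_const, nsmul_one,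
      mul_add, this]
    simp only [σ] at h6
    simp only [h6, σ]; ring
  simp only [h7, h5, ← mul_sum] at h8
  simp only [filter_true, card_filter, sum_filter, Subtype.ext_iff, Subgroup.coe_mul] at h1 h2 h3 h8
  zify at h1 h2 h3 h4 ⊢
  push_cast at h8
  rw [h1, h2, h3, h4] at h8
  exact mul_right_cancel₀ (b := 2 * (Fintype.card φ.ker : ℤ)) (by positivity) (by linear_combination h8)

theorem two_classes_ker' [Finite G] (φ : G →* ℤˣ) {z : G} (hz : φ z = -1) (h : ∀ g, z * g = g * z) :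
    2 * Nat.card (ConjClasses φ.ker) = Nat.card (ConjClasses G) := by
  have : IsEmpty {C : ConjClasses G // ∃ g, ConjClasses.mk g = C ∧ ∀ c, c * g = g * c → φ c = 1} :=
    ⟨fun ⟨_, g, _, e⟩ => absurd (e z (h g)) (by simp [hz])⟩
  simp [two_classes_ker φ hz]
end Grp

universe u
section Comb
variable {K : Type*} [Field K] {J : Multiset (K × ℕ)} {t : ℤ} {l e : ℕ} {w : K}

/-- an orbit together with its inverse -/
def pc (t : ℤ) (l : ℕ) (w : K) (e : ℕ) : Multiset (K × ℕ) := orb t l w e + orb t l w⁻¹ e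

theorem orb_add (a b : ℕ) : orb t (a + b) w e = orb t a w e + orb t b (w ^ t ^ a) e := by
  simp [orb, Multiset.range_add, pow_add, zpow_mul]

theorem pc_map (s : ℤ) : (pc t l w e).map (Prod.map (· ^ s) id) = pc t l (w ^ s) e := by
  rw [pc, Multiset.map_add, orb_map, orb_map, inv_zpow, pc]

theorem st_pc' : St (-1) (pc t l w e) := (pc_map _).trans (by simp [pc, add_comm])

theorem adm_pc (h : w ^ t ^ l = w ∨ w ^ t ^ l = w⁻¹) (hw : w ≠ 0) (he : 0 < e) : Adm t (pc t l w e) := by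
  rcases h with h | h
  · exact (adm_orb h hw he).add (adm_orb (by rw [inv_zpow, h]) (inv_ne_zero hw) he)
  · rw [pc, ← h, ← orb_add]
    exact adm_orb (by rw [pow_add, zpow_mul, h, inv_zpow, h, inv_inv]) hw he

theorem exists_pc (h : Adm t J) (h' : St (-1) J) {x : K × ℕ} (hx : x ∈ J) (h1 : x.1 ^ 2 ≠ 1) :
    ∃ J' l, J = pc t l x.1 x.2 + J' ∧ 0 < l ∧ (x.1 ^ t ^ l = x.1 ∨ x.1 ^ t ^ l = x.1⁻¹) := by
  obtain ⟨z0, e0⟩ := h.ne x hx
  obtain ⟨d, d0, d1, d2, J', rfl, a1⟩ := h.exists_orb hx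
  rcases Multiset.mem_add.1 (h'.mem hx 1) with m | m
  · obtain ⟨i, i1, i2⟩ := mem_orb.1 m
    replace i2 : x.1 ^ t ^ i = x.1⁻¹ := by simpa using i2
    have i0 : 0 < i := Nat.pos_of_ne_zero (by
      rintro rfl; exact h1 (by rw [sq]; nth_rw 2 [show x.1 = x.1⁻¹ by simpa using i2]; simp [z0]))
    have i3 : x.1 ^ t ^ (i + i) = x.1 := by rw [pow_add, zpow_mul, i2, inv_zpow, i2, inv_inv]
    obtain rfl : d = i + i := by
      by_contra n
      rcases lt_or_gt_of_ne n with n | n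
      · refine d2 (i + i - d) (by omega) (by omega) ?_
        rwa [← Nat.add_sub_of_le n.le, pow_add, zpow_mul, d1] at i3
      · exact d2 _ (by omega) n i3
    exact ⟨J', i, by rw [orb_add, i2, pc], i0, .inr i2⟩
  · obtain ⟨d', d3, d4, d5, J'', rfl, a2⟩ := a1.exists_orb m
    simp only [pow_one, zpow_neg_one, inv_zpow, inv_inj, ne_eq] at d4 d5
    obtain rfl : d' = d := le_antisymm (not_lt.1 fun n => d5 _ d0 n d1) (not_lt.1 fun n => d2 _ d3 n d4)
    exact ⟨J'', d', by simp [pc, add_assoc], d0, .inl d1⟩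
end Comb

variable {F : Type u} [Field F] [Finite F] {θ : ℤˣ} {x y : Mo (orthP F)}

theorem aeval_frob (w : AC F) (r : F[X]) (i : ℕ) :
    aeval (w ^ (Nat.card F : ℤ) ^ i) r = aeval w r ^ (Nat.card F : ℤ) ^ i := by
  have := Fintype.ofFinite F
  induction i with
  | zero => simp
  | succ i ih =>
    rw [pow_succ, zpow_mul, zpow_mul, ← ih]
    simpa [FiniteField.frobeniusAlgHom_apply] using aeval_algHom_apply (FiniteField.frobeniusAlgHom F (AC F)) _ r

theorem Mo.eq_of_JD {P : FParam (RingHom.id F)} {x y : Mo P} (h : x.JD = y.JD) (h' : ∀ z ∈ x.JD, z.1 ^ 2 ≠ 1) :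
    x = y := by
  obtain ⟨⟨x⟩, ⟨y⟩⟩ := x, y
  exact Quotient.sound (isim_of_isUnit x.nd y.nd (sim_iff_JD.2 h) (isUnit_sq_iff_JD.2 h'))

section
variable {V W : Type u} [AddCommGroup V] [Module F V] [FiniteDimensional F V] {S : PForm (orthP F) V}
  [AddCommGroup W] [Module F W] [FiniteDimensional F W] {T : PForm (orthP F) W} (hS : S.Nondeg) (hT : T.Nondeg)

/-- the character of the orthogonal group attached to `θ` -/
noncomputable def PForm.Nondeg.sg (θ : ℤˣ) : S.Isom →* ℤˣ :=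
  hS.spin * (if θ = 1 then 1 else .id _ : ℤˣ →* ℤˣ).comp hS.dick

theorem PForm.Nondeg.sg_one {g : S.Isom} (h : hS.dick g = 1) : hS.sg θ g = hS.spin g := by simp [Nondeg.sg, h]

theorem PForm.Nondeg.sg_neg {g : S.Isom} (h : hS.dick g = -1) : hS.sg θ g = hS.spin g * θ := by
  rcases Int.units_eq_one_or θ with rfl | rfl <;> simp [Nondeg.sg, h]

/-- the centraliser lies in the kernel of `sg θ` -/
def Qt (θ : ℤˣ) (x : Mo (orthP F)) : Prop :=
  ∀ o : Ob (orthP F), ⟦o⟧ = x → ∀ c, c * o.g = o.g * c → o.nd.sg θ c = 1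

theorem qt_cls {g : S.Isom} (h : ∀ c, c * g = g * c → hS.sg θ c = 1) : Qt θ (cls hS g) := fun o e c hc => by
  obtain ⟨f, hf, rfl⟩ := ISim.exists_eq (k := g) (Quotient.exact e)
  simpa [Nondeg.sg, o.nd.spin_isomCongr hS, o.nd.dick_isomCongr hS] using
    h (isomCongr f hf c) (by rw [← map_mul, hc, map_mul])
end

theorem Qt.left (h : Qt θ (x + y)) : Qt θ x := by
  rintro o rfl c hc
  obtain ⟨y⟩ := y
  simpa [Nondeg.sg, Spl.dick_spin (a := c) (b := 1) (ISim.refl _) (o.nd.prod y.nd) o.nd y.nd] using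
    h ⟨_, _, o.nd.prod y.nd, prodI _ _ (o.g, y.g)⟩ rfl (prodI _ _ (c, 1)) (by simp [← map_mul, hc])

theorem Qt.of_add (h : Qt θ (x + y)) : Qt θ x ∧ Qt θ y := ⟨h.left, (add_comm x y ▸ h).left⟩

theorem Qt.ng (h : Qt θ x) : Qt θ x.ng := fun o e c hc =>
  h ⟨_, _, o.nd, o.S.neg1 * o.g⟩ ((congrArg Mo.ng e).trans x.ng_ng) c (isom_ext fun v => by
    simpa using congrArg (·.1 v) hc)

variable (h2 : (2 : F) ≠ 0)
include h2

theorem Qt.rs {d : ℕ} (hd : gd (orthP F) (d + 1)) {t : F} (h : Qt θ x) (hx : x ∈ Rs _ d t) : x.disc = θ := by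
  obtain ⟨S, hS, k, rfl, -⟩ := hx
  have := h ⟨_, S, hS, k⟩ rfl S.negOne (isom_ext (by simp))
  rw [hS.sg_neg ((hS.dick_negOne h2).trans (by simpa using ((gd_orth h2).1 hd).add_one.neg_one_pow)),
    mul_eq_one_iff_eq_inv, Int.units_inv_eq_self] at this
  exact this

theorem Qt.count_UJ {μ : Multiset ℕ} {i : ℕ} (hi : gd (orthP F) i) (h : x ∈ UJ _ μ) (hQ : Qt θ x) :
    μ.count i ≤ 1 := by
  induction μ using Multiset.strongInductionOn generalizing x with | _ μ ih =>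
  rcases eq_or_ne μ 0 with rfl | h0
  · simp
  obtain ⟨d, ν, rfl, hν⟩ := exists_max_cons h0 fun k hk =>
    (x.adm.1.ne (1, k) (h ▸ Multiset.mem_map_of_mem _ hk)).2
  by_cases hd : gd (orthP F) (d + 1)
  · obtain ⟨δ, h0, hδ⟩ := exists_not_isSquare h2
    by_cases h3 : d + 1 ∈ ν
    · obtain ⟨r, hr, y, -, rfl⟩ := peel_one h2 hν hd h h3 one_ne_zero
      obtain ⟨r', hr', y', -, e⟩ := peel_one h2 hν hd h h3 h0
      exact absurd ((hQ.left.rs h2 hd hr).trans ((show Qt θ (r' + y') from (congrArg _ e).mpr hQ).left.rs h2 hd hr').symm)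
        (Rs.disc_ne h2 hδ hd _ hr _ hr')
    obtain ⟨r, -, y, hy, rfl⟩ := peel_two h2 hν hd h hδ
    have := ih _ (Multiset.lt_cons_self _ _) hy hQ.of_add.2
    by_cases e : i = d + 1 <;> simp_all
  obtain ⟨r, hr, y, hy, rfl⟩ := peelB h2 hν hd h
  have h3 : i ≠ d + 1 := by rintro rfl; exact hd hi
  simpa [h3, Multiset.count_erase_of_ne] using
    ih _ ((Multiset.erase_le _ _).trans_lt (Multiset.lt_cons_self _ _)) hy hQ.of_add.2

open Classical in
theorem Qt.count {i : ℕ} (hi : gd (orthP F) i) (hQ : Qt θ x) :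
    x.JD.count (1, i) ≤ 1 ∧ x.JD.count (-1, i) ≤ 1 := by
  have h : ∀ x : Mo (orthP F), Qt θ x → x.JD.count (1, i) ≤ 1 := fun x hQ => by
    obtain ⟨μ, u, hu, y, rfl, hy⟩ := exists_UJ x
    rw [Mo.JD_add, Multiset.count_add, Multiset.count_eq_zero.2 fun h => hy _ h rfl, show u.JD = _ from hu,
      Multiset.count_map_eq_count' _ _ (Prod.mk_right_injective _)]
    exact hQ.left.count_UJ h2 hi hu
  refine ⟨h x hQ, ?_⟩
  rw [← Multiset.count_map_eq_count' (Prod.map (-1 * ·) id) _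
    ((mul_right_injective₀ (by simp)).prodMap Function.injective_id)]
  simpa [Mo.JD_ng, scl] using h x.ng hQ.ng

theorem Qt.sub (θ : ℤˣ) (J : Multiset (AC F × ℕ)) : {x : Mo (orthP F) | x.JD = J ∧ Qt θ x}.encard ≤ 1 := by
  obtain ⟨δ, -, hδ⟩ := exists_not_isSquare h2
  refine (hb_JD h2 (χ := 1) (c := False) (by simp) (fun _ _ => Qt.of_add) (k := 0) (fun d A n hd h =>
    h.one (by simp) fun r hr r' hr' => ?_) hδ (by simp) (fun _ => Qt.ng) J).1.trans (by simp)
  have := fun {r} (hr : r ∈ {r ∈ Rs (orthP F) d 1 ∪ Rs _ d δ | Qt θ r}) => hr.1.elim (hr.2.rs h2 hd) (hr.2.rs h2 hd)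
  have e := (this hr).trans (this hr').symm
  rcases hr.1 with h3 | h3 <;> rcases hr'.1 with h4 | h4
  exacts [Tp.sub h2 hg_shf _ h3 h4, absurd e (Rs.disc_ne h2 hδ hd _ h3 _ h4),
    absurd e.symm (Rs.disc_ne h2 hδ hd _ h4 _ h3), Tp.sub h2 hg_shf _ h3 h4]

theorem Qt.not_mem (hQ : Qt θ x) (h1 : ∀ z ∈ x.JD, z.1 ^ 2 ≠ 1) (z : AC F) : (z, 1) ∉ x.JD := fun hz => by
  obtain ⟨J, l, e, hl, h3⟩ := exists_pc x.adm.1 x.adm.2 hz (h1 _ hz)
  have z0 : z ≠ 0 := (x.adm.1.ne _ hz).1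
  have hq := odd_card h2
  obtain ⟨A, ε, hε, hA, hp', h4⟩ : ∃ (A : ℕ) (ε : ℤ), (ε = 1 ∨ ε = -1) ∧ (Nat.card F : ℤ) ^ l = A + ε ∧
      (A : F) ≠ 0 ∧ z ^ A = 1 := by
    have h5 : (Nat.card F : F) = 0 := by have := Fintype.ofFinite F; simp
    have h6 := pow_pos (Nat.card_pos (α := F)) l
    rcases h3 with h3 | h3
    · exact ⟨Nat.card F ^ l - 1, 1, .inl rfl, by simp [h6], by simp [h6, h5, hl.ne'], by
        rw [← zpow_natCast, Nat.cast_pred h6, Nat.cast_pow]; exact (pow_fix z0).1 h3⟩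
    · exact ⟨Nat.card F ^ l + 1, -1, .inr rfl, by simp, by simp [h5, hl.ne'], by
        rw [pow_succ, ← zpow_natCast, Nat.cast_pow, h3]; simp [z0]⟩
  have : NeZero ((2 * A : ℕ) : AC F) := ⟨by
    rw [← map_natCast (algebraMap F _), _root_.map_ne_zero]; simp [h2, hp']⟩
  have := NeZero.of_neZero_natCast (AC F) (n := 2 * A)
  obtain ⟨η, hη⟩ := HasEnoughRootsOfUnity.exists_primitiveRoot (AC F) (2 * A)
  have h5 := hη.pow (NeZero.pos _) rfl
  have h6 := (hη.pow (NeZero.pos _) (mul_comm _ _)).eq_neg_one_of_two_right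
  have η0 := hη.ne_zero (NeZero.ne _)
  have : NeZero A := ⟨by rintro rfl; simp at hp'⟩
  obtain ⟨k, rfl, hk⟩ : ∃ k : ℕ, (η ^ 2) ^ k = z ∧ (k : F) ≠ 0 := by
    obtain ⟨k, -, rfl⟩ := h5.eq_pow_of_pow_eq_one h4
    by_cases h : (k : F) = 0
    exacts [⟨k + A, by rw [pow_add, h5.pow_eq_one, mul_one], by simpa [h]⟩, ⟨k, rfl, h⟩]
  have h7 : η ^ (Nat.card F : ℤ) ^ l = -η ^ ε := by rw [hA, zpow_add₀ η0, zpow_natCast, h6, neg_one_mul]
  have h8 : (η ^ 2) ^ (Nat.card F : ℤ) ^ l = (η ^ 2) ^ ε := by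
    rw [hA, zpow_add₀ (by simpa), zpow_natCast, h5.pow_eq_one, one_mul]
  have h9 : (pc (Nat.card F) l (η ^ 2) 1).map (Prod.map (· ^ k) id) = pc (Nat.card F) l ((η ^ 2) ^ k) 1 := by
    simpa using pc_map (s := k)
  have h10 : ∀ y ∈ pc (Nat.card F) l (η ^ 2) 1, y.1 ^ 2 ≠ 1 := fun y hy e' =>
    h1 (y.1 ^ k, y.2) (e ▸ Multiset.mem_add.2 (.inl (h9 ▸ Multiset.mem_map_of_mem _ hy)))
      (by rw [pow_right_comm, e', one_pow])
  obtain ⟨⟨o⟩, ho⟩ := exists_Mo₀ (orthP F) (adm_pc (by rcases hε with rfl | rfl <;> simp [h8]) (by simpa) one_pos)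
    st_pc' h10
  replace ho : JD (iE o.g) = _ := ho
  obtain ⟨w, rfl⟩ := exists_Mo₀ (orthP F) (J := J) ⟨(e ▸ x.adm.1.st).of_add (adm_pc h3 z0 one_pos).st,
    fun y hy => x.adm.1.ne y (by simp [e, hy])⟩ ((e ▸ x.adm.2).of_add st_pc') fun y hy => h1 y (by simp [e, hy])
  obtain rfl : x = cls o.nd (o.g ^ k) + w := Mo.eq_of_JD (by
    rw [Mo.JD_add, e, ← h9, ← ho, ← JD_pow (isUnit_iE _) hk, ← iE_pow]; rfl) h1
  have h11 := hQ.left ⟨_, _, o.nd, o.g ^ k⟩ rfl o.g (Commute.self_pow _ _)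
  have h12 : IsUnit ((iE o.g - 1) * (iE o.g + 1)) := by
    convert isUnit_sq_iff_JD.2 (ho ▸ h10) using 1; noncomm_ring
  obtain ⟨h12, h13⟩ := (Commute.isUnit_mul_iff (by simp)).1 h12
  rw [o.nd.sg_one (by rw [o.nd.dick_of_isUnit h12, ← dm_JD (iE o.g), ho]; simp [pc, ← two_mul]),
    o.nd.spin_eq_det h2 h13, sqSign_eq_one_iff] at h11
  obtain ⟨b, hb⟩ := h11
  let r : F[X] := C 2⁻¹ * (X + 1)
  have h14 := pr_JD (aeval (iE o.g) r)
  have h15 : ∀ w : AC F, (orb (Nat.card F) l w 1).map (Prod.map (aeval · r) id) = orb (Nat.card F) l (aeval w r) 1 :=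
    fun w => by simp only [orb, Multiset.map_map, Function.comp_def, Prod.map, aeval_frob, id]
  have h16 : ∀ w : AC F, aeval w r = (w + 1) / 2 := fun w => by simp [r, div_eq_inv_mul, map_ofNat]
  have h17 : (2 : AC F) ≠ 0 := fun e => neg_one_ne h2 (by linear_combination -e)
  have h18 : aeval (η ^ 2) r ≠ 0 := fun e => h10 (η ^ 2, 1) (Multiset.mem_add.2 (.inl (mem_orb.2 ⟨0, hl, by simp⟩)))
    (by rw [show η ^ 2 = -1 by simpa [h16, h17, add_eq_zero_iff_eq_neg] using e]; simp)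
  let u := aeval (η ^ 2) r / η
  have u0 : u ≠ 0 := div_ne_zero h18 η0
  have h19 : u ^ (Nat.card F : ℤ) ^ l = -u := by
    rw [div_zpow, ← aeval_frob, h7, h8, h16]
    rcases hε with rfl | rfl <;> simp only [u, h16, zpow_one, zpow_neg_one] <;> field_simp <;> ring
  rw [JD_aeval _ (by rw [natDegree_C_mul (inv_ne_zero h2), ← C_1, natDegree_X_add_C]; simp) (by simp [r, h2]),
    ho, pc, Multiset.map_add, h15, h15,
    pr_add, show aeval (η ^ 2)⁻¹ r = u / η by simp only [u, h16]; field_simp; ring, pr_orb _ _ h18,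
    pr_orb _ _ (div_ne_zero u0 η0), ← mul_pow, ← mul_zpow, pow_one, show aeval (η ^ 2) r * (u / η) = u * u by
      simp only [u]; ring, mul_zpow, show aeval (iE o.g) r = (2 : F)⁻¹ • (iE o.g + 1) by simp [r, Algebra.smul_def],
    hb, map_mul] at h14
  have h20 := (pow_fix (t := Nat.card F) (zpow_ne_zero (∑ i ∈ range l, (Nat.card F : ℤ) ^ i) u0)).1 (by
    rcases mul_self_eq_mul_self_iff.1 h14 with h | h <;> simp [h, hq.neg_pow, -Nat.card_eq_fintype_card, pow_card_algebraMap])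
  rw [← zpow_mul, geom_sum_mul, ← pow_fix u0, h19, neg_eq_iff_add_eq_zero, ← two_mul] at h20
  exact mul_ne_zero h17 u0 h20

theorem Qt.sq (hQ : Qt θ x) {z : AC F} (hz : (z, 1) ∈ x.JD) : z ^ 2 = 1 := by
  by_contra h
  obtain ⟨μ, u, hu, y, rfl, hy⟩ := exists_UJ x
  obtain ⟨ν, v, hv, w, e, hw⟩ := exists_UJ y.ng
  have h1 : ∀ {μ u y z}, u ∈ UJ (orthP F) μ → z ^ 2 ≠ 1 → (z, 1) ∈ (u + y).JD → (z, 1) ∈ y.JD := fun hu h hz => by
    rw [Mo.JD_add, show Mo.JD _ = _ from hu] at hz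
    simp_all [eq_comm]
  refine (e ▸ hQ.of_add.2.ng : Qt θ (v + w)).of_add.2.not_mem h2 (fun a ha => ?_) (-z) (h1 hv (by rwa [neg_sq]) (by
    rw [e, Mo.JD_ng]; exact Multiset.mem_map.2 ⟨_, h1 hu h hz, by simp⟩))
  have := (forall_mem_scl (c := -1) (P := fun x => x.1 ≠ -1)).2 (fun x hx => by simpa using hy x hx) a (by
    rw [← Mo.JD_ng, ← e, Mo.JD_add]; simp [ha])
  simp [hw a ha, this]

variable {V : Type u} [AddCommGroup V] [Module F V] [FiniteDimensional F V] {S : PForm (orthP F) V} (hS : S.Nondeg)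

open Classical in
/-- the level series -/
noncomputable def Aq (F : Type u) [Field F] (i : ℕ) : PowerSeries ℝ := if i = 1 then (1 + .X) ^ 2 else
  if gd (orthP F) i then Pe (Nat.card F) * (1 + .X) ^ 2 else Pe (Nat.card F)

open Classical in
theorem qt_classes_le : (Nat.card {C : ConjClasses S.Isom // ∃ g, ConjClasses.mk g = C ∧
    ∀ c, c * g = g * c → hS.sg θ c = 1} : ℝ) ≤ 12 / 5 * ww (Nat.card F) (finrank F V) := by
  have := finite_isom (S := S)
  obtain ⟨T, h1, h3⟩ := exists_img (fun g : S.Isom => JD (iE g)) fun g => ∀ c, c * g = g * c → hS.sg θ c = 1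
  have h4 := classes_le_sum hS _ T h1 (fun g => qt_cls hS) (w := fun _ => 1) (Qt.sub h2 θ)
  have h5 := bw_qt (three_le_card h2) (finrank F V) (A := Aq F) (by simp [Aq])
    (fun j => by simp [Aq, gd_orth h2 (d := 2 * j + 2), parity_simps])
    (fun j => by simp [Aq, gd_orth h2 (d := 2 * j + 1)]) (finrank F V)
  refine (Nat.cast_le.2 h4).trans (le_trans (by simp) <| (sum_LB T (by omega)
      (ω := fun _ _ => 1) (by simp) (h3 fun g _ => JD_mem_Pt _) (E := fun i M => if i = 1 then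
        (∀ z ∈ M, z ^ 2 = 1) ∧ M.count 1 ≤ 1 ∧ M.count (-1) ≤ 1 else El M ∧
          (¬ gd (orthP F) i → Even (M.count 1) ∧ Even (M.count (-1)))) (h3 fun g hg i => ?_) (A := Aq F)
      (fun i => ?_) fun i => by rw [Aq]; split_ifs <;> simp [Pe]).trans h5)
  · have hQ := qt_cls hS hg
    split_ifs with h
    · simp only [h, count_lev, mem_lev]
      exact ⟨fun z => hQ.sq h2, hQ.count h2 ((gd_orth h2).2 Even.zero)⟩
    · simp only [count_lev]
      exact ⟨(cls hS g).el i, fun hi => (cls hS g).even h2 hi⟩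
  · rw [Aq]
    split_ifs with h h'
    · exact lb_one h2
    · exact (lb_two h2).mono fun M h => ⟨h.1, le_rfl⟩
    · exact (lb_pe h2).mono fun M h => ⟨h.1, by simp [h.2 h']⟩

include hS in
theorem omega_odd_classes {n : ℕ} (hn : 1 ≤ n) (hV : finrank F V = 2 * n + 1) :
    Nat.card F ^ n ≤ 2 * Nat.card (ConjClasses (commutator S.Isom)) ∧
      10 * Nat.card (ConjClasses (commutator S.Isom)) ≤ 73 * Nat.card F ^ n := by
  have := finite_isom (S := S)
  have h1 : hS.dick S.negOne = -1 := by simp [hS.dick_negOne h2, hV, pow_succ]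
  obtain ⟨z, h3, h4⟩ := hS.exists_dick_spin_eq h2 (by omega) 1 (-1)
  have h5 := two_classes_ker (hS.sg hS.disc) ((hS.sg_one h3).trans h4)
  have h6 := two_classes_ker' (hS.dick.comp (hS.sg hS.disc).ker.subtype)
    (z := ⟨S.negOne, (hS.sg_neg h1).trans (Int.units_mul_self _)⟩) h1 fun g => Subtype.ext (isom_ext (by simp))
  rw [← card_classes_true, card_classes_equiv
      ((MulEquiv.subgroupCongr (K := (commutator S.Isom).subgroupOf _) (Subgroup.ext fun g => ?_)).trans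
        (Subgroup.subgroupOfEquivOfLe (Abelianization.commutator_subset_ker _))) (q := fun _ => True) (by simp),
    card_classes_true] at h6
  · have h7 := orth_odd_le h2 hS hV
    have h8 := orth_classes_le h2 hS
    have h9 := qt_classes_le h2 hS (θ := hS.disc)
    refine ⟨by omega, Nat.cast_le (α := ℝ).1 ?_⟩
    have h10 := congrArg (Nat.cast (R := ℝ)) h5
    have h11 := congrArg (Nat.cast (R := ℝ)) h6
    simp only [ww, hV, Nat.not_even_iff_odd.2 (odd_two_mul_add_one n), if_false,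
      show (2 * n + 1) / 2 = n by omega] at h8 h9
    push_cast at h10 h11 ⊢
    have : (0 : ℝ) ≤ (Nat.card F : ℝ) ^ n := by positivity
    linarith
  · rw [Subgroup.mem_subgroupOf, hS.mem_commutator_iff (notO4_of_two_ne h2)]
    exact ⟨fun h => ⟨h, (hS.sg_one h).symm.trans g.2⟩, And.left⟩

end H11
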