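import Cfsg.Agent.H11.PSp1
import Cfsg.Agent.H11.PSLn
import Cfsg.Agent.S2284
import Cfsg.Agent.S0246
import Cfsg.Agent.S0247

/-! Bounded presentations of `Sp_{2l}(q)` built on `SL₂(q) ≀ S_l`: `PrG.of_iso`, `perm_gen2`, `perm_stab_gen`, `sp_core`,
`pres_Sp`. -/

set_option autoImplicit false

namespace H11
open Subgroup H24 PForm Equiv Equiv.Perm
open FreeGroup (of lift)
open scoped commutatorElement MatrixGroups

variable {H G : Type*} [Group H] [Group G] {F : Type*} [Field F] {l : ℕ}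

theorem PrG.of_iso {κ : Type} {r : ℕ} (h : ∃ rels : Finset (FreeGroup κ), rels.card ≤ r ∧
    Nonempty (PresentedGroup (↑rels : Set (FreeGroup κ)) ≃* G)) : ∃ g : κ → G, PrG g r ∧ closure (Set.range g) = ⊤ := by
  obtain ⟨R, h1, ⟨e⟩⟩ := h
  refine ⟨e.toMonoidHom ∘ PresentedGroup.of, (PrG.comp_iff _ e.injective).2 (PrG_iff.2 ⟨R.toList, by simpa, ?_⟩),
    closure_range_comp (PresentedGroup.closure_range_of _) _ e.surjective⟩
  rw [show lift PresentedGroup.of = PresentedGroup.mk (R : Set (FreeGroup κ)) from FreeGroup.ext_hom _ _ fun _ => by simp; rfl]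
  simp only [Finset.mem_toList]; exact QuotientGroup.ker_mk' _

theorem PrG.equiv {κ : Type} {r : ℕ} (e : G ≃* H) (h : ∃ g : κ → G, PrG g r ∧ closure (Set.range g) = ⊤) :
    ∃ g : κ → H, PrG g r ∧ closure (Set.range g) = ⊤ :=
  let ⟨_, h1, h2⟩ := h; ⟨_, (PrG.comp_iff e.toMonoidHom e.injective).2 h1, closure_range_comp h2 _ e.surjective⟩

theorem perm_gen2 (α : Type*) [Finite α] : ∃ g : Fin 2 → Perm α, PrG g 8 ∧ closure (Set.range g) = ⊤ :=
  PrG.equiv (Finite.equivFin α).symm.permCongrHom (PrG.of_iso (Cfsg.Agent.S2284.result _).1)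

theorem perm_stab_gen (p : Fin l → Prop) : ∃ S : List (Perm (Fin l)), S.length = 2 ∧ (∀ s ∈ S, ∀ x, ¬ p x → s x = x) ∧
    ∀ k : Perm (Fin l), (∀ x, ¬ p x → k x = x) → k ∈ closure {s | s ∈ S} := by
  classical
  obtain ⟨g, -, h⟩ := perm_gen2 {x // p x}
  refine ⟨[ofSubtype (g 0), ofSubtype (g 1)], rfl, by simp +contextual [ofSubtype_apply_of_not_mem], fun k hk => ?_⟩
  have h1 : ∀ x, p (k x) ↔ p x := fun x => not_iff_not.1 ⟨fun e => k.injective (hk _ e) ▸ e, fun e => (hk _ e).symm ▸ e⟩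
  rw [← ofSubtype_subtypePerm h1 fun x e => not_not.1 (mt (hk x) e)]
  refine (closure_le (K := (Subgroup.closure _).comap ofSubtype)).2 ?_ (h.ge trivial)
  rintro _ ⟨i, rfl⟩; fin_cases i <;> exact subset_closure (by simp)

theorem sym_orb (m : ℕ) : ∃ L : List (Fin m ↪ Fin l), L.length = (if m ≤ l then 1 else 0) ∧
    ∀ e : Fin m ↪ Fin l, ∃ t ∈ L, ∃ k : Perm (Fin l), ∀ i, k (t i) = e i := by
  split_ifs with h
  · have := Equiv.Perm.isMultiplyPretransitive (Fin l) m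
    refine ⟨[Fin.castLEEmb h], rfl, fun e => ⟨_, List.mem_singleton_self _, ?_⟩⟩
    obtain ⟨k, rfl⟩ := MulAction.exists_smul_eq (Perm (Fin l)) (Fin.castLEEmb h) e
    exact ⟨k, fun _ => rfl⟩
  · exact ⟨[], rfl, fun e => (h (by simpa using Fintype.card_le_of_embedding e)).elim⟩

theorem comm_of_closure {K κ : Type*} [Group K] {g : κ → K} (top : closure (Set.range g) = ⊤) (f : K →* H) {y : H}
    (h : ∀ i, Commute (f (g i)) y) (x : K) : Commute (f x) y :=
  mem_centralizer_singleton_iff.1 ((closure_le (K := (centralizer {y}).comap f)).2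
    (by rintro _ ⟨i, rfl⟩; exact mem_centralizer_singleton_iff.2 (h i)) (top.ge trivial))

/-- conjugates of a copy of `SL₂` -/
def sψ (P : Perm (Fin l) → H) (m : SL(2, F) → H) (a i : Fin l) (g : SL(2, F)) : H := P (swap a i) * m g * (P (swap a i))⁻¹

open Classical in
/-- short root elements -/
noncomputable def sE (ψ : Fin l → SL(2, F) → H) (V : Fin l → Fin l → H) (γ : (Fin 2 → F) → SL(2, F)) (i j : Fin l)
    (x y : Fin 2 → F) : H := if x = 0 ∨ y = 0 then 1 else ψ i (γ x) * ψ j (γ y) * V i j * (ψ i (γ x) * ψ j (γ y))⁻¹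

theorem map_sE (φ : G →* H) {ψ : Fin l → SL(2, F) → G} {ψ' : Fin l → SL(2, F) → H} {V : Fin l → Fin l → G}
    {V' : Fin l → Fin l → H} {i j i' j' : Fin l} (h1 : ∀ g, φ (ψ i g) = ψ' i' g) (h2 : ∀ g, φ (ψ j g) = ψ' j' g)
    (h3 : φ (V i j) = V' i' j') (γ : (Fin 2 → F) → SL(2, F)) (x y : Fin 2 → F) :
    φ (sE ψ V γ i j x y) = sE ψ' V' γ i' j' x y := by
  unfold sE; split_ifs <;> simp [*]

/-- the block of a basis vector -/
def blk : Fin l ⊕ Fin l → Fin l := Sum.elim id id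
/-- a basis vector inside its block -/
def bvec : Fin l ⊕ Fin l → Fin 2 → F := Sum.elim (fun _ => ![1, 0]) fun _ => ![0, 1]

theorem blk_eq {a b : Fin l ⊕ Fin l} : blk a = blk b ↔ b = a ∨ b = a.swap := by
  rcases a with a | a <;> rcases b with b | b <;> simp [blk, eq_comm]

theorem blk_swap (a : Fin l ⊕ Fin l) : blk a.swap = blk a := by rcases a with a | a <;> rfl

theorem spι_bvec (a : Fin l ⊕ Fin l) : spι F (blk a) (bvec a) = Pi.single a 1 := by
  rcases a with a | a <;> simp [spι, blk, bvec]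

theorem ω2_bvec (a : Fin l ⊕ Fin l) : ω2 (bvec a : Fin 2 → F) (bvec a.swap) ≠ 0 := by
  rcases a with a | a <;> simp [ω2, bvec]

theorem sp_core [Finite F] {ζ : Fˣ} (z1 : orderOf ζ = Nat.card F - 1) (z2 : ∀ a : Fˣ, ∃ i : ℕ, ζ ^ i = a)
    {ψ : Fin l → SL(2, F) →* H} {V : Fin l → Fin l → H} {γ : (Fin 2 → F) → SL(2, F)} {D : SL(2, F)}
    (hγ : ∀ x, x ≠ 0 → γ x • (![1, 0] : Fin 2 → F) = x) (hD : D • (![1, 0] : Fin 2 → F) = (ζ : F) • ![1, 0])
    (cψ : ∀ i j, i ≠ j → ∀ g g', Commute (ψ i g) (ψ j g')) (sV : ∀ i j, i ≠ j → V i j = V j i)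
    (h5 : ∀ i j, i ≠ j → Commute (ψ i (τ2 ![1, 0] 1)) (V i j)) (h6 : ∀ i j, i ≠ j → Commute (ψ i D * ψ j D⁻¹) (V i j))
    (h7 : ∀ i j k, i ≠ j → j ≠ k → i ≠ k → ∀ g, Commute (ψ k g) (V i j))
    (h8 : ∀ i j, i ≠ j → ∀ c ∈ [(1 : F), ζ], ∃ w, sE (ψ · ·) V γ i j ![1, 0] (![1, 0] + ![0, c]) =
      sE (ψ · ·) V γ i j ![1, 0] ![1, 0] * sE (ψ · ·) V γ i j ![1, 0] ![0, c] * ψ i (τ2 ![1, 0] w))
    (h9 : ∀ i j k, i ≠ j → j ≠ k → i ≠ k → Commute (V i j) (V i k))
    (h10 : ∀ i j k, i ≠ j → j ≠ k → i ≠ k → ⁅V i j, sE (ψ · ·) V γ i k ![0, -1] ![1, 0]⁆ = V j k)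
    (h11 : ∀ e : Fin 4 ↪ Fin l, Commute (V (e 0) (e 1)) (V (e 2) (e 3))) (Y : Fin l ⊕ Fin l → Fin l ⊕ Fin l → F → H)
    (hY : ∀ a b t, Y a b t = if a = b then ψ (blk a) (τ2 (bvec a) t) else
      sE (ψ · ·) V γ (blk a) (blk b) (bvec a) (t • bvec b)) :
    (∀ i j, i ≠ j → sE (ψ · ·) V γ i j ![1, 0] ![1, 0] = V i j) ∧ (∀ a b, b ≠ a → b ≠ a.swap → ∀ t u, ∃ w,
      Y a b (t + u) = Y a b t * Y a b u * ψ (blk a) (τ2 (bvec a) w)) ∧ (∀ a b, b ≠ a.swap → Y a b = Y b a) ∧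
    (∀ a b c d, b ≠ a.swap → d ≠ c.swap → c ≠ a.swap → c ≠ b.swap → d ≠ a.swap → d ≠ b.swap → (∀ a b, b ≠ a.swap → Add1 (Y a b)) →
      ∀ t u, Commute (Y a b t) (Y c d u)) ∧
    (∀ a d, d ≠ a → d ≠ a.swap → ∀ t u, ∃ v w, ⁅Y a a t, Y a.swap d u⁆ = Y a d v * Y d d w) ∧
    ∀ a b d, b ≠ a → b ≠ a.swap → d ≠ a → d ≠ a.swap → d ≠ b.swap → ∀ t u, ∃ v, ⁅Y a b t, Y a.swap d u⁆ = Y b d v := by
  set E := sE (ψ · ·) V γ with hE
  set e : Fin 2 → F := ![1, 0] with he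
  have e0 : e ≠ 0 := by simp [he]
  have E0 : ∀ i j x y, x = 0 ∨ y = 0 → E i j x y = 1 := fun i j x y h => if_pos h
  have E1 : ∀ i j x y, x ≠ 0 → y ≠ 0 → E i j x y = ψ i (γ x) * ψ j (γ y) * V i j * (ψ i (γ x) * ψ j (γ y))⁻¹ :=
    fun i j x y h h' => if_neg (not_or.2 ⟨h, h'⟩)
  have u1 : ∀ i j, i ≠ j → ∀ g : SL(2, F), g • e = e → Commute (ψ i g) (V i j) := fun i j h g hg => by
    obtain ⟨t, rfl⟩ := eq_τ2 hg
    refine comm_of_gen (X := fun t => ψ i (τ2 e t)) (gen_pow z1 (m := 2) (by simp))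
      ⟨fun a b => by rw [(τ2_add e).add, map_mul]⟩ (fun a => ?_) (h6 i j h) (h5 i j h) t
    rw [mul_assoc (ψ i D), ← (cψ i j h _ _).eq, ← τ2_scal, ← hD, ← conj_τ2]; simp [mul_assoc]
  have wd : ∀ i j, i ≠ j → ∀ g g' : SL(2, F), ψ i g * ψ j g' * V i j * (ψ i g * ψ j g')⁻¹ = E i j (g • e) (g' • e) :=
    fun i j h g g' => by
      have a1 := u1 i j h ((γ (g • e))⁻¹ * g) (by rw [mul_smul, inv_smul_eq_iff, hγ _ (by simpa [smul_eq_zero_iff_eq])])
      have a2 := sV i j h ▸ u1 j i h.symm ((γ (g' • e))⁻¹ * g') (by rw [mul_smul, inv_smul_eq_iff, hγ _ (by simpa [smul_eq_zero_iff_eq])])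
      rw [E1 _ _ _ _ (by simpa [smul_eq_zero_iff_eq]) (by simpa [smul_eq_zero_iff_eq]),
        ← mul_inv_cancel_left (γ (g • e)) g, ← mul_inv_cancel_left (γ (g' • e)) g',
        map_mul (ψ i), map_mul (ψ j), (cψ i j h _ _).mul_mul_mul_comm, mul_assoc _ _ (V i j), (a1.mul_left a2).eq]
      simp [mul_assoc]
  have V1 : ∀ i j, i ≠ j → E i j e e = V i j := fun i j h => by simpa using (wd i j h 1 1).symm
  have act : ∀ i j, i ≠ j → ∀ (g g' : SL(2, F)) x y, ψ i g * ψ j g' * E i j x y * (ψ i g * ψ j g')⁻¹ = E i j (g • x) (g' • y) :=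
    fun i j h g g' x y => by
      by_cases h0 : x = 0 ∨ y = 0
      · rw [E0 _ _ _ _ h0, E0 _ _ _ _ (by simpa only [smul_eq_zero_iff_eq])]; simp
      rw [not_or] at h0
      have := wd i j h (g * γ x) (g' * γ y)
      rw [mul_smul, mul_smul, hγ _ h0.1, hγ _ h0.2, map_mul, map_mul, (cψ i j h _ _).mul_mul_mul_comm] at this
      rw [E1 _ _ _ _ h0.1 h0.2, ← this]; group
  have act3 : ∀ i j k, i ≠ j → j ≠ k → i ≠ k → ∀ g x y, Commute (ψ k g) (E i j x y) := fun i j k h1 h2 h3 g x y => by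
    have := (cψ k i h3.symm g (γ x)).mul_right (cψ k j h2.symm g (γ y))
    simp only [hE, sE]; split_ifs
    exacts [Commute.one_right _, (this.mul_right (h7 i j k h1 h2 h3 g)).mul_right this.inv_right]
  have symm : ∀ i j, i ≠ j → ∀ x y, E i j x y = E j i y x := fun i j h x y => by
    simp only [hE, sE, sV i j h, (cψ i j h _ _).eq]; congr 1; exact propext or_comm
  have scal : ∀ i j, i ≠ j → ∀ (c : F) x y, E i j (c • x) y = E i j x (c • y) := fun i j h c x y => by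
    by_cases h0 : c = 0 ∨ x = 0 ∨ y = 0
    · rw [E0, E0] <;> simp only [smul_eq_zero] <;> tauto
    simp only [not_or] at h0
    obtain ⟨n, hn⟩ := z2 (Units.mk0 c h0.1)
    obtain rfl : (ζ : F) ^ n = c := by simpa using congrArg Units.val hn
    have b1 : ∀ x y, E i j ((ζ : F) • x) y = E i j x ((ζ : F) • y) := fun x y => by
      by_cases h0 : x = 0 ∨ y = 0
      · rw [E0, E0] <;> simp only [smul_eq_zero] <;> tauto
      rw [not_or] at h0
      have a1 := wd i j h D D⁻¹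
      rw [(h6 i j h).eq, mul_inv_cancel_right, ← V1 i j h, hD] at a1
      have a2 := act i j h (γ x) (γ ((ζ : F) • y)) e e
      rw [a1, act i j h, smul_comm, hγ _ h0.1, hγ _ (by simp [h0.2]), show D⁻¹ • e = (ζ : F)⁻¹ • e by
        rw [inv_smul_eq_iff, smul_comm, hD]; simp, smul_comm, hγ _ (by simp [h0.2])] at a2
      simpa using a2
    clear hn h0
    induction n generalizing y with
    | zero => simp
    | succ n ih => rw [pow_succ', mul_smul, b1, ih, smul_smul, mul_comm]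
  have cτ : ∀ i j, i ≠ j → ∀ x w y, Commute (ψ i (τ2 x w)) (E i j x y) := fun i j h x w y =>
    mul_inv_eq_iff_eq_mul.1 (by simpa [τ2_smul, ω2, mul_comm (x 0)] using act i j h (τ2 x w) 1 x y)
  have tri : ∀ i j k, i ≠ j → j ≠ k → i ≠ k → ∀ g g' g'' : SL(2, F), ∃ f : H →* H,
      (∀ x y, f (E i j x y) = E i j (g • x) (g' • y)) ∧ (∀ x y, f (E i k x y) = E i k (g • x) (g'' • y)) ∧
      ∀ x y, f (E j k x y) = E j k (g' • x) (g'' • y) := fun i j k h1 h2 h3 g g' g'' => by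
    refine ⟨(MulAut.conj (ψ i g * ψ j g' * ψ k g'')).toMonoidHom, fun x y => ?_, fun x y => ?_, fun x y => ?_⟩ <;>
      rw [MulEquiv.coe_toMonoidHom, MulAut.conj_apply]
    · rw [← act i j h1, mul_assoc _ (ψ k _), (act3 i j k h1 h2 h3 _ _ _).eq]; group
    · rw [← act i k h3, (cψ j k h2 _ _).right_comm, mul_assoc _ (ψ j _), (act3 i k j h3 h2.symm h1 _ _ _).eq]; group
    · rw [← mul_inv_cancel_right (E j k (g' • x) _) (ψ i g), ← (act3 j k i h2 h3.symm h1.symm _ _ _).eq, ← act j k h2]; group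
  have Hs : ∀ i j, i ≠ j → ∀ x y y', ∃ w, E i j x (y + y') = E i j x y * E i j x y' * ψ i (τ2 x w) := fun i j h x =>
    heis ⟨fun a b => by rw [(τ2_add x).add, map_mul]⟩ (E0 _ _ _ _ (.inr rfl)) (fun y w => (cτ i j h x w y).symm) fun y y' hy => by
      by_cases x0 : x = 0
      · exact ⟨0, by simp [E0, x0, (τ2_add _).zero]⟩
      obtain ⟨n, hn⟩ := z2 (Units.mk0 _ (neg_ne_zero.2 hy))
      obtain ⟨c, hc, μ, hμ⟩ : ∃ c ∈ [(1 : F), ζ], ∃ μ : Fˣ, ω2 y y' = -(c * μ ^ 2) := by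
        replace hn : ω2 y y' = -(ζ : F) ^ n := by simpa [neg_eq_iff_eq_neg] using (congrArg Units.val hn).symm
        rcases n.even_or_odd' with ⟨k, rfl | rfl⟩
        exacts [⟨1, by simp, ζ ^ k, by simp [hn, ← pow_mul, mul_comm]⟩, ⟨ζ, by simp, ζ ^ k, by simp [hn]; ring⟩]
      obtain ⟨g', g1, g2⟩ := exists_sl2 (x := (μ : F)⁻¹ • y) (y := (μ : F)⁻¹ • y') (c := c) (by rintro rfl; exact hy (by simpa using hμ)) (by
        simp only [ω2, Pi.smul_apply, smul_eq_mul] at *; field_simp; linear_combination hμ)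
      obtain ⟨w, hw⟩ := h8 i j h c hc
      have := congrArg (fun z => ψ i (γ ((μ : F) • x)) * ψ j g' * z * (ψ i (γ ((μ : F) • x)) * ψ j g')⁻¹) hw
      simp only [← conj_mul, act i j h, smul_add g', show g' • e = _ from g1, g2,
        hγ _ (show (μ : F) • x ≠ 0 by simp [x0]), scal i j h, smul_add (μ : F), smul_smul, Units.ne_zero, ne_eq, not_false_eq_true, mul_inv_cancel₀, one_smul] at this
      rw [this, mul_assoc (ψ i _), ← (cψ i j h _ _).eq]
      refine ⟨μ ^ 2 * w, ?_⟩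
      rw [← τ2_scal, ← hγ ((μ : F) • x) (by simp [x0]), ← conj_τ2, hγ _ (by simp [x0])]; simp [mul_assoc]
  have c7 : ∀ i j k, i ≠ j → j ≠ k → i ≠ k → ∀ x y z, Commute (E i j x y) (E i k x z) := fun i j k h1 h2 h3 x y z => by
    by_cases h0 : x = 0 ∨ y = 0 ∨ z = 0
    · rcases h0 with h | h | h <;> simp [E0, h]
    simp only [not_or] at h0
    obtain ⟨f, f1, f2, -⟩ := tri i j k h1 h2 h3 (γ x) (γ y) (γ z)
    simpa only [← V1 i j h1, ← V1 i k h3, f1, f2, hγ _ h0.1, hγ _ h0.2.1, hγ _ h0.2.2] using (h9 i j k h1 h2 h3).map f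
  have c8 : ∀ i j k, i ≠ j → j ≠ k → i ≠ k → ∀ x x' y z, ω2 x x' ≠ 0 → ∃ c : F, ⁅E i j x y, E i k x' z⁆ = E j k y (c • z) :=
    fun i j k h1 h2 h3 x x' y z hx => by
      by_cases h0 : y = 0 ∨ z = 0
      · exact ⟨0, by rcases h0 with h | h <;> simp [E0, h]⟩
      simp only [not_or] at h0
      obtain ⟨g, g1, g2⟩ := exists_sl2 (x := (ω2 x x')⁻¹ • x) (y := x') (c := -1) (by simp) (by
        simp only [ω2, Pi.smul_apply, smul_eq_mul] at *; field_simp)
      have y0 : ω2 x x' • y ≠ 0 := by simp [hx, h0.1]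
      obtain ⟨f, f1, f2, f3⟩ := tri i j k h1 h2 h3 g (γ (ω2 x x' • y)) (γ z)
      exact ⟨ω2 x x', by simpa only [map_commutatorElement, ← V1 i j h1, ← V1 j k h2, f1, f2, f3, hγ _ y0, hγ _ h0.2,
        show g • e = _ from g1, g2, scal i j h1, scal j k h2, inv_smul_smul₀ hx] using congrArg f (h10 i j k h1 h2 h3)⟩
  have c9 : ∀ t : Fin 4 ↪ Fin l, ∀ x y z w, Commute (E (t 0) (t 1) x y) (E (t 2) (t 3) z w) := fun t x y z w => by
    have a : ∀ i j x y {v}, (∀ g, Commute (ψ i g) v) → (∀ g, Commute (ψ j g) v) →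
        Commute (V i j) v → Commute (E i j x y) v := fun i j x y v a1 a2 a3 => by
      simp only [hE, sE]; split_ifs
      exacts [Commute.one_left _, (((a1 _).mul_left (a2 _)).mul_left a3).mul_left ((a1 _).mul_left (a2 _)).inv_left]
    exact a _ _ x y (fun g => act3 _ _ _ (by simp) (by simp) (by simp) _ _ _)
      (fun g => act3 _ _ _ (by simp) (by simp) (by simp) _ _ _) (a _ _ z w (fun g => h7 _ _ _ (by simp) (by simp) (by simp) _)
      (fun g => h7 _ _ _ (by simp) (by simp) (by simp) _) (h11 t).symm).symm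
  have nb : ∀ {a b : Fin l ⊕ Fin l}, b ≠ a → b ≠ a.swap → blk a ≠ blk b := fun h h' => by simp [blk_eq, h, h']
  have Y1 : ∀ a t, Y a a t = ψ (blk a) (τ2 (bvec a) t) := fun a t => by simp [hY]
  have Y2 : ∀ {a b}, b ≠ a → ∀ t, Y a b t = E (blk a) (blk b) (bvec a) (t • bvec b) := fun h t => by rw [hY, if_neg h.symm]
  have sY : ∀ a b, b ≠ a.swap → Y a b = Y b a := fun a b h => funext fun t => by
    by_cases e : b = a; · rw [e]
    rw [Y2 e, Y2 (Ne.symm e), symm _ _ (nb e h), scal _ _ (nb e h).symm]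
  have sw : ∀ {a b : Fin l ⊕ Fin l}, b ≠ a.swap → a ≠ b.swap := fun e e' => e (by simp [e'])
  refine ⟨V1, fun a b h1 h2 t u => by simpa only [Y2 h1, add_smul] using Hs _ _ (nb h1 h2) _ _ _, sY,
    fun a b c d h1 h2 h3 h4 h5 h6 add => ?_, fun a d h1 h2 t u => ?_, fun a b d h1 h2 h3 h4 h5 t u => ?_⟩
  · have p1 : ∀ a c d, d ≠ c.swap → c ≠ a.swap → d ≠ a.swap → ∀ t u, Commute (Y a a t) (Y c d u) := fun a c d h2 h3 h5 t u => by
      have p0 : ∀ d, d ≠ a → d ≠ a.swap → Commute (Y a a t) (Y a d u) := fun d h h' => by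
        rw [Y1, Y2 h]; exact cτ _ _ (nb h h') _ _ _
      by_cases q : d = c
      · subst q
        by_cases q' : d = a
        · subst q'; exact (add _ _ h2).comm _ _
        · rw [Y1, Y1]; exact cψ _ _ (nb q' h3) _ _
      by_cases q1 : c = a; · subst q1; exact p0 d q h5
      by_cases q2 : d = a; · subst q2; rw [sY c d h2]; exact p0 c q1 h3
      rw [Y1, Y2 q]; exact act3 _ _ _ (nb q h2) (nb q2 h5).symm (nb q1 h3).symm _ _ _
    have p2 : ∀ a b d, b ≠ a → d ≠ a → b ≠ a.swap → d ≠ a.swap → d ≠ b.swap → ∀ t u, Commute (Y a b t) (Y a d u) :=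
      fun a b d h1 h2 h3 h4 h5 t u => by
        by_cases q : d = b
        · subst q; exact (add _ _ h3).comm _ _
        · rw [Y2 h1, Y2 h2]; exact c7 _ _ _ (nb h1 h3) (nb q h5) (nb h2 h4) _ _ _
    intro t u
    by_cases q1 : b = a; · subst q1; exact p1 _ _ _ h2 h3 h5 t u
    by_cases q2 : d = c; · subst q2; exact (p1 _ _ _ h1 (sw h3) (sw h4) u t).symm
    by_cases q3 : c = a; · subst q3; exact p2 _ _ _ q1 q2 h1 h2 h6 t u
    by_cases q4 : d = a; · subst q4; rw [sY c d h2]; exact p2 _ _ _ q1 q3 h1 h3 h4 t u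
    by_cases q5 : c = b; · subst q5; rw [sY a c h1]; exact p2 _ _ _ (Ne.symm q1) q2 (sw h1) h2 h5 t u
    by_cases q6 : d = b
    · subst q6; rw [sY a d h1, sY c d h2]; exact p2 _ _ _ (Ne.symm q1) q5 (sw h1) h4 h3 t u
    rw [Y2 q1, Y2 q2]
    exact c9 (emb4 (nb q1 h1) (nb q3 h3) (nb q4 h5) (nb q5 h4) (nb q6 h6) (nb q2 h2)) _ _ _ _
  · have n := nb h1 h2
    have := act _ _ n (τ2 (bvec a) t) 1 (bvec a.swap) (u • bvec d)
    obtain ⟨w, hw⟩ := Hs _ _ n.symm (u • bvec d) ((t * ω2 (bvec a) (bvec a.swap)) • bvec a) (bvec a.swap)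
    rw [map_one, mul_one, one_smul, τ2_smul, add_comm, symm _ _ n (_ + _), hw] at this
    refine ⟨t * ω2 (bvec a) (bvec a.swap) * u, u ^ 2 * w, ?_⟩
    rw [Y1, Y1, Y2 h1, Y2 h2, blk_swap, commutatorElement_def, this, symm _ _ n (bvec a.swap), mul_smul _ u, ← scal _ _ n,
      symm _ _ n (_ • _), ← τ2_scal, mul_assoc, mul_assoc, mul_right_inj, ← mul_assoc, mul_inv_eq_iff_eq_mul]
    exact (cτ _ _ n.symm _ _ _).symm
  · rw [Y2 h1, Y2 h4, blk_swap]
    by_cases q : d = b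
    · subst q
      have n := nb h1 h2
      obtain ⟨w, hw⟩ := Hs _ _ n.symm (bvec d) (t • bvec a) (u • bvec a.swap)
      obtain ⟨w', hw'⟩ := Hs _ _ n.symm (bvec d) (u • bvec a.swap) (t • bvec a)
      refine ⟨w' + -w, ?_⟩
      rw [← scal _ _ n, ← scal _ _ n, symm _ _ n, symm _ _ n, Y1, commutatorElement_def, mul_assoc, ← mul_inv_rev,
        mul_inv_eq_iff_eq_mul, ((cτ _ _ n.symm _ _ _).mul_right (cτ _ _ n.symm _ _ _)).eq, (τ2_add _).add, (τ2_add _).neg, map_mul, map_inv, ← mul_assoc,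
        ← hw', add_comm, hw, mul_inv_cancel_right]
    · obtain ⟨c, hc⟩ := c8 _ _ _ (nb h1 h2) (nb q h5) (nb h3 h4) _ _ (t • bvec b) (u • bvec d) (ω2_bvec a)
      exact ⟨t * (c * u), by rw [hc, Y2 q, scal _ _ (nb q h5), smul_smul, smul_smul, mul_assoc]⟩

set_option maxHeartbeats 1600000 in
theorem pres_Sp [Finite F] (hl : 2 ≤ l) (h3 : 3 ≤ l ∨ ∃ x : F, x ≠ 0 ∧ x ≠ 1) {ι : Type} {kg : ι → Perm (Fin l)} {r : ℕ}
    (hr : PrG kg r) (top : closure (Set.range kg) = ⊤) : ∃ g : (ι ⊕ Fin 3) ⊕ Unit → (stdSymp l F).Isom,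
      PrG g (r + 31 + 5 * (if 3 ≤ l then 1 else 0) + if 4 ≤ l then 1 else 0) ∧ closure (Set.range g) = ⊤ := by
  classical
  obtain ⟨ζ, z1, z2⟩ := exists_prim F
  obtain ⟨mg, m1, m2⟩ := exists_pres_sl2 (F := F)
  obtain ⟨ρ, hρ⟩ := exists_spρ F l
  obtain ⟨P, hP⟩ := exists_spP F l
  have := Fin.nontrivial_iff_two_le.2 hl
  obtain ⟨a, b, ab⟩ := exists_pair_ne (Fin l)
  obtain ⟨S0, a0, b0, c0⟩ := perm_stab_gen (· ≠ a)
  obtain ⟨S1, a1, b1, c1⟩ := perm_stab_gen fun x => x ≠ a ∧ x ≠ b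
  obtain ⟨L3, a3, b3⟩ := sym_orb (l := l) 3
  obtain ⟨L4, a4, b4⟩ := sym_orb (l := l) 4
  have := Equiv.Perm.isMultiplyPretransitive (Fin l) 2
  choose! κ hκ using fun i j : Fin l => fun e : i ≠ j =>
    (MulAction.is_two_pretransitive_iff (G := Perm (Fin l))).1 this ab e
  simp only [Perm.smul_def] at hκ
  choose! γ hγ using fun x : Fin 2 → F => exists_sl2' (x := x)
  obtain ⟨D, hD, -⟩ := exists_sl2 (x := (ζ : F) • ![1, 0]) (y := ![0, (ζ : F)⁻¹]) one_ne_zero (by simp [ω2])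
  set e : Fin 2 → F := ![1, 0] with he
  let EG : Fin l → Fin l → (Fin 2 → F) → (Fin 2 → F) → (stdSymp l F).Isom := fun i j x y => (stdSymp l F).eich (spι F i x) (spι F j y) 0
  let g : (ι ⊕ Fin 3) ⊕ Unit → (stdSymp l F).Isom := Sum.elim (Sum.elim (P ∘ kg) (ρ a ∘ mg)) fun _ => EG a b e e
  obtain ⟨w, w1, E0⟩ := hr.hom top P (g := g) (fun i => of (.inl (.inl i))) (by simp [g])
  obtain ⟨m, w2, E1⟩ := m1.hom m2 (ρ a) (g := g) (fun i => of (.inl (.inr i))) (by simp [g])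
  let v : FreeGroup ((ι ⊕ Fin 3) ⊕ Unit) := of (.inr ())
  have gv : lift g v = EG a b e e := by simp [g, v]
  have Pρ : ∀ k i x, P k * ρ i x * (P k)⁻¹ = ρ (k i) x := fun k i x => mul_inv_eq_iff_eq_mul.2 (sp_ext fun j y => by
    simp [hP, hρ])
  have PE : ∀ k i j x y, P k * EG i j x y * (P k)⁻¹ = EG (k i) (k j) x y := fun k i j x y => by simp [EG, conj_eich, hP]
  have ρE : ∀ k z i j x y, ρ k z * EG i j x y * (ρ k z)⁻¹ = EG i j (if k = i then z • x else x) (if k = j then z • y else y) :=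
    fun k z i j x y => by simp only [EG, conj_eich, hρ]
  have ρc : ∀ i j, i ≠ j → ∀ x y, ρ i x * ρ j y = ρ j y * ρ i x := fun i j e x y => sp_ext fun k z => by
    simp only [Subgroup.coe_mul, LinearEquiv.mul_apply, hρ]; split_ifs <;> simp_all
  have ρτ : ∀ i x t, ρ i (τ2 x t) = (stdSymp l F).eich (spι F i x) 0 t := fun i x t => sp_ext fun j y => by
    by_cases e : i = j <;> simp [hρ, symp_transv_apply, h_spι, sppr_ι, e, τ2_smul, ω2]
  have gψ : ∀ i x, lift g (sψ w m a i x) = ρ i x := fun i x => by simp [sψ, w1, w2, Pρ]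
  have gV : ∀ {i j}, i ≠ j → lift g (cj w κ v i j) = EG i j e e := fun h => by rw [map_cj _ w1, gv, cj, PE, (hκ _ _ h).1, (hκ _ _ h).2]
  have GE : ∀ {i j}, i ≠ j → ∀ x y, sE (ρ · ·) (fun i j => EG i j e e) γ i j x y = EG i j x y := fun {i j} h x y => by
    unfold sE; split_ifs with h0
    · exact isom_ext fun z => by rcases h0 with rfl | rfl <;> simp [EG, sp_eich_apply (h_spι_ne h _ _), sp_eich_apply]
    · rw [not_or] at h0
      rw [mul_inv_rev, mul_assoc (ρ i _), ← mul_assoc, mul_assoc (ρ i _), ρE, ρE]; simp [h, h.symm, hγ, h0]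
  let E := sE (sψ w m a) (cj w κ v) γ
  have gE : ∀ {i j}, i ≠ j → ∀ x y, lift g (E i j x y) = EG i j x y := fun h x y =>
    (map_sE (ψ' := (ρ · ·)) (V' := fun i j => EG i j e e) _ (gψ _) (gψ _) (gV h) γ x y).trans (GE h x y)
  let Y := fun a' b' (t : F) => if a' = b' then sψ w m a (blk a') (τ2 (bvec a') t) else E (blk a') (blk b') (bvec a') (t • bvec b')
  have gY : ∀ a b, b ≠ a.swap → ∀ t, lift g (Y a b t) = spY a b t := fun a b h t => by
    simp only [Y, spY]; split_ifs with h'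
    · rw [gψ, ρτ, spι_bvec]
    · rw [gE (by simp [blk_eq, h, Ne.symm h'])]; simp only [EG, map_smul, spι_bvec]
  have tp : ∀ K : Subgroup (stdSymp l F).Isom, (∀ a b, b ≠ a.swap → ∀ t, spY a b t ∈ K) → K = ⊤ := fun K h =>
    sp_eq_top (fun a t => by simpa [spY] using h a a (ne_swap a) t) fun a b t h1 h2 => by simpa [spY, h1.symm] using h a b h2 t
  obtain ⟨u, u1, u2⟩ : P (swap a b) ∈ (closure {y | ∃ a b t, b ≠ a.swap ∧ y = Y a b t}).map (lift g) :=
    (tp _ fun a b h t => gY a b h t ▸ mem_map_of_mem _ (subset_closure ⟨a, b, t, h, rfl⟩)).ge trivial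
  have t3 : ∀ t : Fin 3 ↪ Fin l, t 0 ≠ t 1 ∧ t 1 ≠ t 2 ∧ t 0 ≠ t 2 := by simp
  have t4 : ∀ t : Fin 4 ↪ Fin l, t 0 ≠ t 1 ∧ t 2 ≠ t 3 := by simp
  let R := List.finRange 3
  refine ⟨g, (((((((((((((E0.and E1).and
    (Enf.list (S0 ×ˢ R) (fun s => w s.1 * m (mg s.2) * (w s.1)⁻¹) (fun s => m (mg s.2)) fun s hs => ?_)).and
    (Enf.list (R ×ˢ R) (fun s => m (mg s.1) * sψ w m a b (mg s.2)) (fun s => sψ w m a b (mg s.2) * m (mg s.1)) fun s _ => ?_)).and
    (Enf.list S1 (fun s => w s * v * (w s)⁻¹) (fun _ => v) fun s hs => ?_)).and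
    (Enf.rel (w (swap a b) * v * (w (swap a b))⁻¹) v ?_)).and (Enf.rel (m (τ2 e 1) * v) (v * m (τ2 e 1)) ?_)).and
    (Enf.rel (m D * sψ w m a b D⁻¹ * v) (v * (m D * sψ w m a b D⁻¹)) ?_)).and
    (Enf.list (L3 ×ˢ R) (fun s => sψ w m a (s.1 2) (mg s.2) * cj w κ v (s.1 0) (s.1 1))
      (fun s => cj w κ v (s.1 0) (s.1 1) * sψ w m a (s.1 2) (mg s.2)) fun s _ => ?_)).and
    (Enf.list [(1 : F), ζ] (fun c => E a b e (e + ![0, c])) (fun c => E a b e e * E a b e ![0, c] * m (τ2 e c)) fun c _ => ?_)).and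
    (Enf.list L3 (fun t => cj w κ v (t 0) (t 1) * cj w κ v (t 0) (t 2))
      (fun t => cj w κ v (t 0) (t 2) * cj w κ v (t 0) (t 1)) fun t _ => ?_)).and
    (Enf.list L3 (fun t => ⁅cj w κ v (t 0) (t 1), E (t 0) (t 2) ![0, -1] e⁆) (fun t => cj w κ v (t 1) (t 2)) fun t _ => ?_)).and
    (Enf.list L4 (fun t => cj w κ v (t 0) (t 1) * cj w κ v (t 2) (t 3))
      (fun t => cj w κ v (t 2) (t 3) * cj w κ v (t 0) (t 1)) fun t _ => ?_)).and
    (Enf.rel (w (swap a b)) u (by simp [w1, u2]))).mono (by simp [List.length_product, R, a0, a1, a3, a4]; split_ifs <;> omega)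
      fun C ⟨⟨⟨⟨⟨⟨⟨⟨⟨⟨⟨⟨⟨⟨Q, p1, p2⟩, ⟨μ, p3, p4⟩⟩, e2⟩, e3⟩, e4⟩, e5⟩, e6⟩, e7⟩, e8⟩, e9⟩, e10⟩, e11⟩, e12⟩, e13⟩ => ?_,
    tp _ fun a b h t => mem_closure_lift.2 ⟨_, gY a b h t⟩⟩
  · simp [w1, w2, Pρ, b0 _ (List.mem_product.1 hs).1]
  · simp [w2, gψ, ρc a b ab]
  · simp [w1, gv, PE, b1 s hs]
  · simp [w1, gv, PE, EG, sp_eich_symm (h_spι_ne ab _ _)]
  · simp [w2, gv, ← mul_inv_eq_iff_eq_mul, ρE, ab, τ2_smul, ω2, he]
  · simp only [map_mul, w2, gψ, gv, ← mul_inv_eq_iff_eq_mul]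
    rw [mul_inv_rev, mul_assoc (ρ a _), ← mul_assoc, mul_assoc (ρ a _), ρE, ρE]
    simp only [ab, ab.symm, if_true, if_false, hD, EG, map_smul, sp_eich_smul (h_spι_ne ab _ _)]
    rw [← map_smul, ← smul_comm, ← hD, inv_smul_smul]
  · simp [gψ, gV (t3 _).1, ← mul_inv_eq_iff_eq_mul, ρE]
  · have := fun y c => sp_econd (h_spι_ne ab e y) c
    simp only [map_mul, gE ab, w2, ρτ, EG]
    rw [eich_mul (this _ _) (this _ _), eich_mul (map_add (spι F b) _ _ ▸ this _ _) (sp_econd (by simp) _)]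
    rw [map_add, add_zero, h_spι, sppr_ι, map_zero]; simp [ω2, he]
  · simp only [map_mul, gV (t3 t).1, gV (t3 t).2.2]
    exact sp_eich_comm (symp_h_self _ _) (h_spι_ne (by simp) _ _) (h_spι_ne (by simp) _ _) (h_spι_ne (by simp) _ _)
  · simp only [map_commutatorElement, gV (t3 t).1, gV (t3 t).2.1, gE (t3 t).2.2, EG]
    rw [sp_eich_chain] <;> simp [h_spι, sppr_ι, ω2, he]
  · simp only [map_mul, gV (t4 t).1, gV (t4 t).2]
    exact sp_eich_comm (h_spι_ne (by simp) _ _) (h_spι_ne (by simp) _ _) (h_spι_ne (by simp) _ _) (h_spι_ne (by simp) _ _)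
  let ψ : Fin l → SL(2, F) →* C.H := fun i => (MulAut.conj (Q (swap a i))).toMonoidHom.comp μ
  have φψ : ∀ i x, C.φ (sψ w m a i x) = ψ i x := fun i x => by simp [sψ, ψ, p1, p3]
  have ψa : ∀ x, μ x = ψ a x := fun x => by simp [ψ, ← Perm.one_def]
  obtain ⟨U, hU⟩ : ∃ U, C.φ v = U := ⟨_, rfl⟩
  let E' := sE (ψ · ·) (cj Q κ U) γ
  have φE : ∀ i j x y, C.φ (E i j x y) = E' i j x y := fun i j x y => map_sE _ (φψ _) (φψ _) (hU ▸ map_cj _ p1 _ _ _ _) γ x y
  simp only [map_mul, map_inv, map_commutatorElement, map_cj _ p1, p1, p3, φψ, φE, ψa, hU] at e2 e3 e4 e5 e6 e7 e8 e9 e10 e11 e12 e13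
  have qψ : ∀ k i x, MulAut.conj (Q k) (ψ i x) = ψ (k i) x := fun k i x => by
    have := fix_of_closure Q (S := S0) (y := ψ a x) (fun s hs => mul_inv_eq_iff_eq_mul.2 (comm_of_closure m2 (ψ a) (y := Q s) (fun j =>
      (mul_inv_eq_iff_eq_mul.1 (e2 (s, j) (by simp [hs, R]))).symm) x).symm) (c0 ((swap a (k i))⁻¹ * k * swap a i) (by simp))
    rw [← ψa] at this
    change Q k * (Q _ * μ x * _) * _ = Q _ * μ x * _
    nth_rw 2 [← this]; simp only [map_mul, map_inv]; group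
  have fU : ∀ k, k a = a → k b = b → Q k * U * (Q k)⁻¹ = U := fun k h1 h2 => fix_of_closure Q e4 (c1 k fun x hx => by
    by_cases e : x = a <;> simp_all)
  have qV : ∀ k {i j}, i ≠ j → MulAut.conj (Q k) (cj Q κ U i j) = cj Q κ U (k i) (k j) := fun k i j h =>
    cj_equi (K := ⊤) (Q.comp (Subgroup.subtype _)) (κ := fun i j => ⟨κ i j, trivial⟩) hκ (fun k => fU k) ⟨k, trivial⟩ h
  have qE : ∀ k {i j}, i ≠ j → ∀ x y, MulAut.conj (Q k) (E' i j x y) = E' (k i) (k j) x y := fun k i j h x y =>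
    map_sE (MulAut.conj (Q k)).toMonoidHom (qψ k i) (qψ k j) (qV k h) γ x y
  have bU : U = cj Q κ U a b := (fU _ (hκ a b ab).1 (hκ a b ab).2).symm
  rw [bU] at e5 e6 e7
  let Y' := fun a' b' (t : F) => if a' = b' then ψ (blk a') (τ2 (bvec a') t) else E' (blk a') (blk b') (bvec a') (t • bvec b')
  have φY : ∀ a b t, C.φ (Y a b t) = Y' a b t := fun a b t => by simp only [Y, Y']; split_ifs <;> simp only [φψ, φE]
  obtain ⟨s1, s2, s3, s4, s5, s6⟩ := sp_core z1 z2 (ψ := ψ) (V := cj Q κ U) hγ hD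
    (fun i j h x y => by
      simpa only [MulEquiv.coe_toMonoidHom, qψ, hκ i j h] using (comm_of_closure m2 (ψ a) (fun j =>
        (comm_of_closure m2 (ψ b) (y := ψ a (mg j)) (fun i => (e3 (j, i) (by simp [R])).symm) y).symm) x).map (MulAut.conj (Q (κ i j))).toMonoidHom)
    (fun i j h => by
      have := qV (swap a b) ab
      rw [MulAut.conj_apply, e5] at this
      simpa only [swap_apply_left, swap_apply_right, qV _ ab, qV _ ab.symm, hκ i j h] using congrArg (MulAut.conj (Q (κ i j))) this)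
    (fun i j h => by
      have := congrArg (MulAut.conj (Q (κ i j))) e6
      simp only [map_mul (MulAut.conj _), qψ, qV _ ab, hκ i j h] at this; exact this)
    (fun i j h => by
      have := congrArg (MulAut.conj (Q (κ i j))) ((map_inv (ψ b) D).symm ▸ e7)
      simp only [map_mul (MulAut.conj _), qψ, qV _ ab, hκ i j h] at this; exact this)
    (fun i j k h1 h2 h3 => comm_of_closure m2 _ fun n => by
      obtain ⟨t, ht, s, hs⟩ := b3 (emb3 h1 h2 h3)
      have := congrArg (MulAut.conj (Q s)) (e8 (t, n) (by simp [ht, R]))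
      simp only [map_mul, qψ, qV _ (t3 t).1, hs] at this; exact this)
    (fun i j h c hc => ⟨c, by simpa only [map_mul, qψ, qE _ ab, hκ i j h] using congrArg (MulAut.conj (Q (κ i j))) (e9 c hc)⟩)
    (fun i j k h1 h2 h3 => by
      obtain ⟨t, ht, s, hs⟩ := b3 (emb3 h1 h2 h3)
      have := congrArg (MulAut.conj (Q s)) (e10 t ht)
      simp only [map_mul, qV _ (t3 t).1, qV _ (t3 t).2.2, hs] at this; exact this)
    (fun i j k h1 h2 h3 => by
      obtain ⟨t, ht, s, hs⟩ := b3 (emb3 h1 h2 h3)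
      have := congrArg (MulAut.conj (Q s)) (e11 t ht)
      simp only [map_commutatorElement, qV _ (t3 t).1, qV _ (t3 t).2.1, qE _ (t3 t).2.2, hs] at this; exact this)
    (fun f => by
      obtain ⟨t, ht, s, hs⟩ := b4 f
      have := congrArg (MulAut.conj (Q s)) (e12 t ht)
      simp only [map_mul, qV _ (t4 t).1, qV _ (t4 t).2, hs] at this; exact this) Y' fun _ _ _ => rfl
  have πY : ∀ a b, b ≠ a.swap → ∀ t, C.π (Y' a b t) = spY a b t := fun a b h t => by rw [← φY, C.comp, gY a b h]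
  have add : ∀ a b, b ≠ a.swap → Add1 (Y' a b) := fun a b h => ⟨fun t u => by
    by_cases h' : b = a
    · simp only [Y', h', if_true, (τ2_add _).add, map_mul]
    obtain ⟨x, hx⟩ := s2 a b h' h t u
    have := congrArg C.π hx
    simp only [map_mul, πY a b h, spY, if_neg (Ne.symm h'), ← φψ, C.comp, gψ] at this
    have c := fun t : F => sp_econd (m := l) (F := F) (u := Pi.single a 1) (v := t • Pi.single b 1) (by simp [sp_h_single, Ne.symm h]) 0
    rw [eich_mul (c t) (c u), ← add_smul] at this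
    simp only [map_smul, LinearMap.smul_apply, symp_h_self, smul_zero, add_zero, left_eq_mul] at this
    rw [hx, show τ2 (bvec a) x = 1 from sl2_ext fun z => by
      simpa [this, sppr_ι] using (congrArg (sppr (blk a)) (hρ (blk a) (τ2 (bvec a) x) (blk a) z)).symm, map_one, mul_one]⟩
  obtain ⟨θ, θ1, θ2⟩ := sp_hom hl h3 C.π Y' πY add s3 (fun a b c d h1 h2 h3 h4 h5 h6 => s4 a b c d h1 h2 h3 h4 h5 h6 add) s5 s6
  let N := closure {y | ∃ a b t, b ≠ a.swap ∧ y = Y' a b t}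
  have yN : ∀ {a b}, b ≠ a.swap → ∀ t, Y' a b t ∈ N := fun h t => subset_closure ⟨_, _, t, h, rfl⟩
  have nN : ∀ k, ∀ y ∈ N, Q k * y * (Q k)⁻¹ ∈ N := fun k => conj_mem_closure (by
    rintro _ ⟨a, b, t, h, rfl⟩
    have hb : ∀ a, blk (Sum.map k k a) = k (blk a) ∧ bvec (F := F) (Sum.map k k a) = bvec a := by rintro (a | a) <;> exact ⟨rfl, rfl⟩
    have hi : Function.Injective (Sum.map k k) := k.injective.sumMap k.injective
    convert yN (a := Sum.map k k a) (b := Sum.map k k b) (by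
      rw [show (Sum.map k k a).swap = Sum.map k k a.swap by cases a <;> rfl]; exact hi.ne h) t
    simp only [Y', hi.eq_iff, hb, ← MulAut.conj_apply]; split_ifs with h'
    exacts [qψ .., qE _ (by simp [blk_eq, h, Ne.symm h']) _ _])
  have μN : ∀ x, μ x ∈ N := fun x => (closure_le (K := N.comap μ)).2 (by
    rintro _ (⟨t, rfl⟩ | ⟨t, rfl⟩)
    · refine Set.mem_of_eq_of_mem (s := (N : Set C.H)) (show μ _ = _ from ?_) (yN (ne_swap (.inl a)) (-t))
      simp only [Y', if_true, ψa, blk, bvec, Sum.elim_inl, id]; congr 1; ext i j; fin_cases i <;> fin_cases j <;> simp [τ2, sl2R]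
    · refine Set.mem_of_eq_of_mem (s := (N : Set C.H)) (show μ _ = _ from ?_) (yN (ne_swap (.inr a)) t)
      simp only [Y', if_true, ψa, blk, bvec, Sum.elim_inr, id]; congr 1; ext i j; fin_cases i <;> fin_cases j <;> simp [τ2, sl2R])
    ((sl2R_T F).ge trivial)
  have UN : U ∈ N := by simpa [Y', ab, blk, bvec, E', s1 a b ab, ← bU] using yN (a := .inl a) (b := .inl b) (by simp) 1
  have : N.Normal := normalizer_eq_top_iff.1 (eq_top_iff.2 fun y _ => C.top (fun j => by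
    rcases j with (j | j) | j
    · rw [p2]; exact mem_normalizer_of (nN _) (by simpa using nN (kg j)⁻¹)
    · rw [p4]; exact le_normalizer (μN _)
    · exact le_normalizer (hU.symm ▸ UN)) y)
  have QN : ∀ k, Q k ∈ N := eq_top_of_normalClosure (k := swap a b) (M := N.comap Q)
    (eq_top_iff.2 (closure_isSwap.ge.trans ((closure_le _).2 fun s hs =>
      conjugatesOfSet_subset_normalClosure (Group.mem_conjugatesOfSet_iff.2 ⟨_, rfl, by
        obtain ⟨x, y, h, rfl⟩ := hs; exact isConj_swap ab h⟩)))) (by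
      rw [mem_comap, e13]
      refine (closure_le (K := N.comap C.φ)).2 ?_ u1
      rintro _ ⟨a, b, t, h, rfl⟩
      exact Set.mem_of_eq_of_mem (s := (N : Set C.H)) (φY a b t) (yN h t))
  intro y hy
  obtain ⟨z, rfl⟩ : y ∈ θ.range := (closure_le _).2 (by rintro _ ⟨a, b, t, h, rfl⟩; exact θ2 a b h t) (C.top (K := N) (fun j => by
    rcases j with (j | j) | j
    exacts [p2 j ▸ QN _, p4 j ▸ μN _, hU.symm ▸ UN]) y)
  rw [θ1] at hy
  rw [hy, map_one]

instance isCyclic_center_Sp [Finite F] [NeZero l] : IsCyclic (center (Matrix.symplecticGroup (Fin l) F)) :=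
  have := Fintype.ofFinite F
  isCyclic_of_card_dvd_prime (p := 2) (Cfsg.Agent.S0246.result (F := F) rfl l NeZero.one_le ▸ Nat.gcd_dvd_left _ _)

theorem exists_pres_sp [Finite F] (hl : 2 ≤ l) : ∃ g : Fin 6 → Matrix.symplecticGroup (Fin l) F,
    PrG g (if l = 2 then 33 else 45) ∧ closure (Set.range g) = ⊤ := by
  have := Fintype.ofFinite F
  split_ifs with h
  · subst h
    by_cases h2 : Fintype.card F = 2
    · obtain ⟨g, h1, h2⟩ := PrG.equiv (Cfsg.Agent.S0247.result h2).some.symm (perm_gen2 (Fin 6))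
      exact (h1.pad h2 (m := 6) (by simp)).imp fun g h => ⟨h.1.mono (by simp), h.2⟩
    obtain ⟨g, h1, h2⟩ := pres_Sp (F := F) le_rfl (.inr (exists_ne_zero_ne_one (by
      have := Fintype.one_lt_card (α := F); simp; omega))) (PrG.cyc (swap 0 1)) (eq_top_iff.2 fun k _ => by
        obtain rfl | rfl : k = 1 ∨ k = swap 0 1 := by clear * -; revert k; decide
        exacts [one_mem _, subset_closure ⟨(), rfl⟩])
    exact PrG.equiv (spEquiv 2 F).symm (h1.pad h2 (m := 6) (by simp))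
  · obtain ⟨k, h1, h2⟩ := perm_gen2 (Fin l)
    obtain ⟨g, h1, h2⟩ := pres_Sp (F := F) hl (.inl (by omega)) h1 h2
    exact PrG.equiv (spEquiv l F).symm ((h1.pad h2 (m := 6) (by simp)).imp fun g h => ⟨h.1.mono (by split_ifs <;> simp), h.2⟩)
end H11
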