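import Cfsg.Agent.H11.McL
import Cfsg.Agent.H11.PSLn
import Cfsg.Agent.S0801

/-! Transvections in a subgroup of `SL(n, F)`: `Tv`, `RK`, Dickson's lemma for a pair (`Tv.dickson`), criteria for `K = ⊤`. -/

set_option autoImplicit false

namespace H11
open Subgroup Matrix
open scoped MatrixGroups

variable {F : Type*} [Field F] {n : ℕ} {K : Subgroup SL(n, F)} {x y φ ψ : Fin n → F}

def Tv (K : Subgroup SL(n, F)) (x φ : Fin n → F) : Prop := ∃ g ∈ K, g.1 = 1 + vecMulVec x φ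

def RK (K : Subgroup SL(n, F)) (x φ : Fin n → F) : Prop := φ ⬝ᵥ x = 0 ∧ ∀ c : F, Tv K (c • x) φ

theorem Tv.conj_iff {g : SL(n, F)} (hg : g ∈ K) : Tv K (g.1 *ᵥ x) ψ ↔ Tv K x (ψ ᵥ* g.1) := by
  have e : g.1 * (g⁻¹).1 = 1 := congrArg Subtype.val (mul_inv_cancel g)
  have e' : (g⁻¹).1 * g.1 = 1 := congrArg Subtype.val (inv_mul_cancel g)
  constructor
  · rintro ⟨t, a, b⟩
    refine ⟨g⁻¹ * t * g, mul_mem (mul_mem (inv_mem hg) a) hg, ?_⟩
    change (g⁻¹).1 * t.1 * g.1 = _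
    rw [b, mul_add, add_mul, mul_one, e', mul_vecMulVec, vecMulVec_mul, mulVec_mulVec, e', one_mulVec]
  · rintro ⟨t, a, b⟩
    refine ⟨g * t * g⁻¹, mul_mem (mul_mem hg a) (inv_mem hg), ?_⟩
    change g.1 * t.1 * (g⁻¹).1 = _
    rw [b, mul_add, add_mul, mul_one, e, mul_vecMulVec, vecMulVec_mul, vecMul_vecMul, e, vecMul_one]

theorem Tv.smul_iff {c : F} : Tv K (c • x) φ ↔ Tv K x (c • φ) := by simp [Tv]

theorem Tv.zero : Tv K x 0 := ⟨1, one_mem _, by simp⟩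

theorem Tv.addr (a : Tv K x φ) (b : Tv K x ψ) (h : φ ⬝ᵥ x = 0) : Tv K x (φ + ψ) := by
  obtain ⟨s, a, a'⟩ := a
  obtain ⟨t, b, b'⟩ := b
  refine ⟨s * t, mul_mem a b, ?_⟩
  change s.1 * t.1 = _
  simp [a', b', mul_add, add_mul, vecMulVec_mul_vecMulVec, h, vecMulVec_add, add_assoc]

theorem Tv.addl (a : Tv K x φ) (b : Tv K y φ) (h : φ ⬝ᵥ y = 0) : Tv K (x + y) φ := by
  obtain ⟨s, a, a'⟩ := a
  obtain ⟨t, b, b'⟩ := b
  refine ⟨s * t, mul_mem a b, ?_⟩
  change s.1 * t.1 = _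
  simp [a', b', mul_add, add_mul, vecMulVec_mul_vecMulVec, h, add_vecMulVec, add_assoc]

theorem Tv.neg (a : Tv K x φ) (h : φ ⬝ᵥ x = 0) : Tv K x (-φ) := by
  obtain ⟨s, a, a'⟩ := a
  refine ⟨s⁻¹, inv_mem a, ?_⟩
  have e' : (s⁻¹).1 * s.1 = 1 := congrArg Subtype.val (inv_mul_cancel s)
  refine Matrix.left_inv_eq_left_inv e' ?_
  simp [a', mul_add, add_mul, vecMulVec_mul_vecMulVec, h]

theorem Tv.conj (a : Tv K x φ) (b : Tv K y ψ) (h : φ ⬝ᵥ x = 0) : Tv K (y + (φ ⬝ᵥ y) • x) (ψ - (ψ ⬝ᵥ x) • φ) := by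
  obtain ⟨s, a, a'⟩ := a
  have := (Tv.conj_iff (x := y) (ψ := ψ - (ψ ⬝ᵥ x) • φ) a).2 (by
    convert b using 1
    simp [a', vecMul_add, vecMul_vecMulVec, h])
  simpa [a', add_mulVec, vecMulVec_mulVec] using this

theorem Tv.comm (a : Tv K x φ) (b : Tv K y ψ) (h : φ ⬝ᵥ x = 0) (h' : ψ ⬝ᵥ y = 0) (e : ψ ⬝ᵥ x = 0) :
    Tv K x ((φ ⬝ᵥ y) • ψ) := by
  have c : Tv K (-y) ψ := by simpa using Tv.smul_iff.2 (show Tv K y ((-1 : F) • ψ) by simpa using b.neg h')
  have := c.addl (by simpa [e] using a.conj b h) (by simp [h', e])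
  rwa [neg_add_cancel_left, Tv.smul_iff] at this

theorem RK.conj_iff {g : SL(n, F)} (hg : g ∈ K) : RK K (g.1 *ᵥ x) ψ ↔ RK K x (ψ ᵥ* g.1) := by
  simp only [RK, ← mulVec_smul, Tv.conj_iff hg, dotProduct_mulVec]

theorem ts_RK (K : Subgroup SL(n, F)) : TvS (dotProductBilin F F) (RK K) where
  orth h := h.1
  zl φ := ⟨by simp, fun c => ⟨1, one_mem _, by simp⟩⟩
  zr x := ⟨by simp, fun c => Tv.zero⟩
  sl c h := ⟨by simp [h.1], fun d => by simpa [smul_smul] using h.2 (d * c)⟩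
  sr c h := ⟨by simp [h.1], fun d => by simpa [← Tv.smul_iff, smul_smul] using h.2 (c * d)⟩
  al a b := ⟨by simp [a.1, b.1], fun d => by simpa using (a.2 d).addl (b.2 d) (by simp [b.1])⟩
  ar a b := ⟨by simp [a.1, b.1], fun d => (a.2 d).addr (b.2 d) (by simp [a.1])⟩
  conj {x φ y ψ} a b := ⟨by simp [a.1, b.1, mul_comm], fun d => by
    simpa [smul_smul] using (a.2 1).conj (b.2 d) (by simp [a.1])⟩

theorem top_of_blk (hn : 2 ≤ n) (h : TBlk (dotProductBilin F F) (RK K) ⊤ ⊤) : K = ⊤ :=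
  eq_top_iff.2 fun g _ => trv_top hn (fun i j e a => by
    obtain ⟨t, b, c⟩ := (h (Pi.single i 1) trivial (Pi.single j 1) trivial (by simp [e.symm])).2 a
    rwa [show trv i j a = t from Subtype.ext (by
      rw [c, coe_trv e]; congr 1; ext p q; simp [vecMulVec, Pi.single_apply, single_apply]; grind)]) g

def Good (l : F) : Prop := l ≠ 0 ∧ Gen l ∧ ¬ (Nat.card F = 9 ∧ l ^ 2 = -1)

theorem Tv.dickson [Finite F] (h2 : (2 : F) ≠ 0) (a : Tv K x φ) (b : Tv K y ψ) (h : φ ⬝ᵥ x = 0) (h' : ψ ⬝ᵥ y = 0)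
    (hl : Good (φ ⬝ᵥ y * ψ ⬝ᵥ x)) : RK K x φ := by
  have := Fintype.ofFinite F
  obtain ⟨l1, l2, l3⟩ := hl
  obtain ⟨l4, l5⟩ := mul_ne_zero_iff.1 l1
  let X : Matrix (Fin n) (Fin 2) F := (of ![x, (ψ ⬝ᵥ x) • y])ᵀ
  let Y : Matrix (Fin 2) (Fin n) F := of ![(ψ ⬝ᵥ x)⁻¹ • ψ, (φ ⬝ᵥ y * ψ ⬝ᵥ x)⁻¹ • φ]
  have e : Y * X = 1 := by
    ext i j; change ![(ψ ⬝ᵥ x)⁻¹ • ψ, (φ ⬝ᵥ y * ψ ⬝ᵥ x)⁻¹ • φ] i ⬝ᵥ ![x, (ψ ⬝ᵥ x) • y] j = _
    fin_cases i <;> fin_cases j <;> simp [h, h', l5]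
    field_simp
  let θ : SL(2, F) →* SL(n, F) := MonoidHom.mk' (fun A => ⟨1 + X * ((A.1 - 1) * Y), by
    rw [det_one_add_mul_comm, Matrix.mul_assoc, e]; simp⟩) fun A B => Subtype.ext (by
      change 1 + X * ((A.1 * B.1 - 1) * Y) = (1 + X * ((A.1 - 1) * Y)) * (1 + X * ((B.1 - 1) * Y))
      simp only [mul_add, add_mul, mul_one, one_mul, Matrix.mul_assoc, ← Matrix.mul_assoc Y, e, Matrix.one_mul,
        Matrix.sub_mul, Matrix.mul_sub]
      abel)
  have u : ∀ A : SL(2, F), ∀ c, A.1 = !![1, c * (φ ⬝ᵥ y * ψ ⬝ᵥ x); 0, 1] → (θ A).1 = 1 + vecMulVec (c • x) φ := fun A c hA => by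
    change 1 + X * ((A.1 - 1) * Y) = _
    rw [hA]; congr 1; ext i j
    simp [X, Y, mul_apply, Fin.sum_univ_two, vecMulVec_apply]; field_simp
  have top := ((Cfsg.Agent.S0801.result h2 _ l1 (eq_top_iff.2 fun z _ => by
    have : z ∈ Subring.closure {φ ⬝ᵥ y * ψ ⬝ᵥ x} := by rw [l2]; trivial
    exact (Subring.closure_le (t := (Subfield.closure _).toSubring)).2 Subfield.subset_closure this)).resolve_right
      fun c => l3 ⟨by simp [c.1], c.2.1⟩).1
  have le : K.comap θ = ⊤ := eq_top_iff.2 (top ▸ (closure_le _).2 fun A hA => by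
    obtain ⟨s, a, a'⟩ := a
    obtain ⟨t, b, b'⟩ := b
    change θ A ∈ K
    rcases hA with hA | hA
    · refine (show t = θ A from Subtype.ext ?_) ▸ b
      change _ = 1 + X * ((A.1 - 1) * Y)
      rw [hA, b']; congr 1; ext i j
      simp [X, Y, mul_apply, Fin.sum_univ_two, vecMulVec_apply]; field_simp
    · exact (show s = θ A from Subtype.ext (by rw [u A 1 (by simpa), a', one_smul])) ▸ a)
  exact ⟨h, fun c => ⟨θ ⟨!![1, c * (φ ⬝ᵥ y * ψ ⬝ᵥ x); 0, 1], by simp⟩, show _ ∈ K.comap θ by rw [le]; trivial, u _ c rfl⟩⟩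

theorem top_of_det {W : Submodule F (Fin n → F)} {H : Matrix (Fin n) (Fin n) F} (hd : H.det ≠ 0) (h : ∀ j, Hᵀ j ∈ W) : W = ⊤ :=
  eq_top_iff.2 fun w _ => by
    obtain ⟨s, rfl⟩ := (mulVec_surjective_iff_isUnit.2 ((isUnit_iff_isUnit_det _).2 (Ne.isUnit hd))) w
    rw [mulVec_eq_sum]; exact W.sum_mem fun j _ => by simpa using W.smul_mem (s j) (h j)

theorem top_three {K : Subgroup SL(3, F)} {x φ : Fin 3 → Fin 3 → F} (a : ∀ i, RK K (x i) (φ i))
    (hd : (of fun i j => φ i ⬝ᵥ x j).det ≠ 0) : K = ⊤ := by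
  obtain ⟨W, Φ, h1, h2, h3, -⟩ := (ts_RK K).exists_blk a hd
  rw [show (of fun i j => φ i ⬝ᵥ x j) = of φ * (of x)ᵀ from rfl, det_mul, mul_ne_zero_iff] at hd
  obtain rfl := top_of_det hd.2 h1
  obtain rfl := top_of_det (H := (of φ)ᵀ) (by simpa using hd.1) h2
  exact top_of_blk (by omega) h3

theorem top_of_tri (hn : 2 ≤ n) {u : SL(n, F)} (hu : u ∈ K) {x φ : Fin 3 → Fin n → F} (a : ∀ i, RK K (x i) (φ i))
    (hd : (of fun i j => φ i ⬝ᵥ x j).det ≠ 0) {i j : Fin 3} (b : RK K (u.1 *ᵥ x i) ψ) (b' : ψ ⬝ᵥ x i ≠ 0)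
    (c : RK K y (φ j ᵥ* u.1)) (c' : φ j ⬝ᵥ y ≠ 0) (h : ∀ W : Submodule F (Fin n → F), (∀ k, u.1 ^ k *ᵥ x i ∈ W) → W = ⊤)
    (h' : ∀ Φ : Submodule F (Fin n → F), (∀ i, φ i ∈ Φ) → (∀ k, φ j ᵥ* u.1 ^ k ∈ Φ) → Φ = ⊤) : K = ⊤ := by
  obtain ⟨W, Φ, h1, h2, h3, h4, h5⟩ := (ts_RK K).exists_blk a hd
  obtain ⟨z, e, e'⟩ : ∃ z : ℕ → Matrix (Fin n) (Fin n) F, (∀ k, u.1 ^ k * z k = 1) ∧ ∀ k, z k * u.1 ^ k = 1 :=
    ⟨fun k => ((u ^ k)⁻¹).1, fun k => congrArg Subtype.val (mul_inv_cancel (u ^ k)),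
      fun k => congrArg Subtype.val (inv_mul_cancel (u ^ k))⟩
  obtain rfl := h W fun k => by
    induction k with
    | zero => simpa using h1 i
    | succ k ih =>
      refine h4 _ (ψ ᵥ* z k) ?_ _ ih (by simpa [← dotProduct_mulVec, e'])
      rw [pow_succ, ← mulVec_mulVec]
      exact (RK.conj_iff (pow_mem hu k)).2 (by simpa [e'])
  obtain rfl := h' Φ h2 fun k => by
    induction k with
    | zero => simpa using h2 j
    | succ k ih =>
      refine h5 (z k *ᵥ y) _ ?_ _ ih (by simpa [dotProduct_mulVec, e])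
      rw [pow_succ', ← vecMul_vecMul]
      exact (RK.conj_iff (pow_mem hu k)).1 (by simpa [e])
  exact top_of_blk hn h3

theorem mem_of_pow {W : Submodule F (Fin n → F)} {N : Matrix (Fin n) (Fin n) F} (h : ∀ k, (1 + N) ^ k *ᵥ x ∈ W) (j : ℕ) :
    N ^ j *ᵥ x ∈ W := by
  induction j generalizing x with
  | zero => simpa using h 0
  | succ j ih =>
    rw [pow_succ, ← mulVec_mulVec]
    exact ih fun k => by simpa [pow_succ, mul_add, add_mulVec] using sub_mem (h (k + 1)) (h k)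

def ex (v : Fin n → F) (k : ℕ) : F := if h : k < n then v ⟨k, h⟩ else 0

def nil (F : Type*) [Field F] (n : ℕ) : Matrix (Fin n) (Fin n) F := of fun i j => if j.val = i.val + 1 then 1 else 0

def jor (F : Type*) [Field F] (n : ℕ) : SL(n, F) := ⟨1 + nil F n, by
  rw [det_of_upperTriangular]
  · simp [nil]
  · intro i j h
    have : j.val < i.val := h
    simp [nil, one_apply]; grind⟩

theorem coe_jor : (jor F n).1 = 1 + nil F n := rfl

theorem ex_val (i : Fin n) : ex x i = x i := by simp [ex]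

theorem ex_ge {k : ℕ} (h : n ≤ k) : ex x k = 0 := by simp [ex, h]

theorem ex_ext (h : ∀ k, ex x k = ex y k) : x = y := funext fun i => by rw [← ex_val (x := x), h, ex_val]

theorem ex_add (k : ℕ) : ex (x + y) k = ex x k + ex y k := by unfold ex; split_ifs <;> simp

theorem ex_smul (c : F) (k : ℕ) : ex (c • x) k = c * ex x k := by unfold ex; split_ifs <;> simp

theorem ex_sub (k : ℕ) : ex (x - y) k = ex x k - ex y k := by unfold ex; split_ifs <;> simp

theorem ex_nil (k : ℕ) : ex (nil F n *ᵥ x) k = ex x (k + 1) := by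
  unfold ex
  split_ifs with h1 h2 h2
  · simp only [nil, mulVec, dotProduct, of_apply]
    rw [Finset.sum_eq_single ⟨k + 1, h2⟩] <;> simp +contextual [Fin.ext_iff]
  · simp only [nil, mulVec, dotProduct, of_apply]
    exact Finset.sum_eq_zero fun j _ => by grind
  · omega
  · rfl

theorem ex_jor (k : ℕ) : ex ((jor F n).1 *ᵥ x) k = ex x k + ex x (k + 1) := by simp [coe_jor, add_mulVec, ex_add, ex_nil]

theorem ex_nil_pow (j k : ℕ) : ex (nil F n ^ j *ᵥ x) k = ex x (k + j) := by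
  induction j generalizing k with
  | zero => simp
  | succ j ih => rw [pow_succ', ← mulVec_mulVec, ex_nil, ih]; congr 1; omega

theorem jor_reg (hn : 1 ≤ n) : IsNilpotent ((jor F n).1 - 1) ∧ ((jor F n).1 - 1) ^ (n - 1) ≠ 0 := by
  rw [coe_jor, add_sub_cancel_left]
  refine ⟨⟨n, ext_of_mulVec_single fun i => ex_ext fun k => by rw [ex_nil_pow, ex_ge (by omega)]; simp [ex]⟩, fun h => ?_⟩
  have := ex_nil_pow (x := fun _ : Fin n => (1 : F)) (n - 1) 0
  simp [h, ex, show n - 1 < n by omega] at this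

variable {m : ℕ}

theorem jor_cyc {x : Fin (m + 1) → F} (hx : ex x m ≠ 0) (W : Submodule F _) (h : ∀ k, (jor F _).1 ^ k *ᵥ x ∈ W) : W = ⊤ := by
  refine top_of_det (H := (of fun j : Fin (m + 1) => nil F _ ^ (m - j) *ᵥ x)ᵀ) ?_ fun j => mem_of_pow h _
  rw [det_of_upperTriangular, Finset.prod_ne_zero_iff]
  · intro i _
    rwa [transpose_apply, of_apply, ← ex_val (x := _ *ᵥ _), ex_nil_pow, show i + (m - i) = m by omega]
  · intro i j h
    have : j.val < i.val := h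
    rw [transpose_apply, of_apply, ← ex_val (x := _ *ᵥ _), ex_nil_pow, ex_ge (by omega)]

theorem single_dot {x : Fin (m + 1) → F} : Pi.single 0 1 ⬝ᵥ x = ex x 0 := by simp [ex]

theorem jor_cyc' (W : Submodule F (Fin (m + 1) → F)) (h : ∀ k, Pi.single 0 1 ᵥ* (jor F _).1 ^ k ∈ W) : W = ⊤ := by
  refine top_of_det (H := 1) (by simp) fun j => ?_
  convert mem_of_pow (W := W) (x := Pi.single 0 1) (N := (nil F (m + 1))ᵀ) (fun k => by
    rw [← transpose_one, ← transpose_add, ← transpose_pow, mulVec_transpose]; exact h k) j using 1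
  ext i
  rw [← transpose_pow, mulVec_transpose, ← dotProduct_single_one (_ ᵥ* _), ← dotProduct_mulVec, single_dot, ex_nil_pow, zero_add,
    ex_val]
  simp [one_apply, Pi.single_apply, eq_comm]

theorem exists_conj {x : Fin (m + 1) → F} {d : F} (hd : d ≠ 0) (hD : ex x m = d ^ (m + 1)) (h2 : ex ((jor F _).1 *ᵥ x) 0 = -2) :
    ∃ g G : SL(m + 1, F), g * jor F _ * g⁻¹ = jor F _ * G ∧ G.1 = 1 - vecMulVec x (Pi.single 0 1) -
      vecMulVec (Pi.single 0 1) (Pi.single 0 1 + Pi.single 0 1 ᵥ* (jor F _).1) := by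
  set t := (jor F _).1 *ᵥ x with ht
  set e : Fin (m + 1) → F := Pi.single 0 1 with he
  have e0 : ∀ k, ex e k = if k = 0 then 1 else 0 := fun k => by
    unfold ex; split_ifs <;> simp_all [Pi.single_apply, Fin.ext_iff]
  have e1 : (jor F _).1 *ᵥ e = e := ex_ext fun k => by simp [ex_jor, e0]
  set G := 1 - vecMulVec x e - vecMulVec e (e + e ᵥ* (jor F _).1) with hG
  set M := (jor F _).1 * G - 1 with hM
  have h3 : ∀ v k, ex (M *ᵥ v) k = if k = 0 then 0 else ex v (k + 1) - ex t k * ex v 0 := fun v k => by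
    simp only [hM, hG, sub_mulVec, ← mulVec_mulVec, vecMulVec_mulVec, one_mulVec, mulVec_sub, op_smul_eq_smul, mulVec_smul, e1,
      ← ht, ex_sub, ex_smul, add_dotProduct, ← dotProduct_mulVec, ex_jor (x := v), e0, he ▸ single_dot]
    split_ifs with h
    · rw [h, h2]; ring
    · ring
  have h4 : ∀ j k, ex (M ^ (j + 1) *ᵥ e) k = if k = 0 then 0 else -ex t (k + j) := fun j => by
    induction j with
    | zero => intro k; simp [h3, e0]
    | succ j ih => intro k; rw [pow_succ', ← mulVec_mulVec, h3]; simp [ih, add_assoc, add_comm 1]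
  let H : Matrix (Fin (m + 1)) (Fin (m + 1)) F := of fun i j => ex (M ^ (m - j) *ᵥ e) i
  have h5 : M * H = H * nil F _ := by
    ext i j
    have : (M * H) i j = ex (M ^ (m - j + 1) *ᵥ e) i := by
      rw [pow_succ', ← mulVec_mulVec, ex_val]; simp [H, mul_apply, ex_val, mulVec, dotProduct]
    rw [this, mul_apply]
    refine j.cases ?_ fun j => ?_
    · simp [nil, h4]; intro h; exact ex_ge (by have : i.val ≠ 0 := fun e => h (Fin.ext e); omega)
    · rw [Finset.sum_eq_single j.castSucc]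
      · simp [nil, H, show m - (j + 1) + 1 = m - j by omega]
      all_goals simp +contextual [nil, Fin.ext_iff, eq_comm]
  have h6 : H.det = (d ^ m) ^ (m + 1) := by
    rw [det_succ_row_zero, Finset.sum_eq_single (Fin.last m), det_of_upperTriangular]
    · have : ∀ i : Fin m, H.submatrix Fin.succ (Fin.last m).succAbove i i = -d ^ (m + 1) := fun i => by
        simp only [H, submatrix_apply, of_apply, Fin.succAbove_last, Fin.val_castSucc, Fin.val_succ]
        rw [show m - i = m - i - 1 + 1 by omega, h4, if_neg (by omega), show i + 1 + (m - i - 1) = m by omega, ht, ex_jor, hD,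
          ex_ge le_rfl, add_zero]
      simp only [this]
      simp [H, e0, neg_pow (d ^ _), ← mul_assoc, ← mul_pow, ← pow_mul, mul_comm m]
    · intro i j h
      have : j.val < i.val := h
      simp only [H, submatrix_apply, of_apply, Fin.succAbove_last, Fin.val_castSucc, Fin.val_succ]
      rw [show m - j = m - j - 1 + 1 by omega, h4, if_neg (by omega), ex_ge (by omega), neg_zero]
    · intro j _ h
      have : j.val ≠ m := fun e => h (Fin.ext e)
      obtain ⟨l, hl⟩ : ∃ l, m - j = l + 1 := ⟨m - j - 1, by omega⟩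
      simp [H, hl, h4]
    · simp
  let g : SL(m + 1, F) := ⟨(d ^ m)⁻¹ • H, by simp [h6, hd]⟩
  refine ⟨g, (jor F _)⁻¹ * (g * jor F _ * g⁻¹), by group, ?_⟩
  have h7 : (jor F _).1 * G * g.1 = g.1 * (jor F _).1 := by
    rw [← sub_add_cancel (_ * G) 1, ← hM, coe_jor]; simp [g, add_mul, mul_add, h5, add_comm]
  change ((jor F _)⁻¹).1 * (g.1 * (jor F _).1 * (g⁻¹).1) = _
  rw [← h7, mul_assoc _ g.1, show g.1 * (g⁻¹).1 = 1 from congrArg Subtype.val (mul_inv_cancel g), mul_one, ← mul_assoc,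
    show ((jor F _)⁻¹).1 * _ = 1 from congrArg Subtype.val (inv_mul_cancel (jor F _)), one_mul]

end H11
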