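import Cfsg.Agent.H11.RegU

/-! `SL(n, F)`, `n ≥ 3`, is generated by two conjugate regular unipotent elements (`sl_two_conj`). -/

set_option autoImplicit false

namespace H11
open Subgroup Matrix
open scoped MatrixGroups

variable {F : Type*} [Field F] {n : ℕ} {K : Subgroup SL(n, F)} {e ε z : Fin n → F} {u G : SL(n, F)}

theorem tv_sq {x φ : Fin n → F} (hG : G ∈ K) (eG : G.1 = 1 - vecMulVec x ε - vecMulVec e φ) (h0 : ε ⬝ᵥ e = 1)
    (h1 : ε ⬝ᵥ x = 2) (h2 : φ ⬝ᵥ e = 2) (h3 : φ ⬝ᵥ x = 0) : Tv K x φ := by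
  refine ⟨G * G, mul_mem hG hG, ?_⟩
  change G.1 * G.1 = _
  simp [eG, mul_sub, sub_mul, vecMulVec_mul_vecMulVec, h0, h1, h2, h3]; module

theorem top_odd [Finite F] (h2 : (2 : F) ≠ 0) (hn : 2 ≤ n) {a p : F} (e1 : u.1 *ᵥ e = e) (e2 : ε ⬝ᵥ e = 1) (f1 : ε ⬝ᵥ z = a - 2)
    (f2 : ε ⬝ᵥ u.1 *ᵥ z = 2) (f3 : ε ⬝ᵥ u.1 *ᵥ u.1 *ᵥ z = -2) (f4 : ε ⬝ᵥ u.1 *ᵥ u.1 *ᵥ u.1 *ᵥ z = p + 2) (hg : Good (a * p))
    (hd : p * a + 4 * a - 4 * p ≠ 0) (c1 : ∀ W : Submodule F _, (∀ k, u.1 ^ k *ᵥ z ∈ W) → W = ⊤)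
    (c2 : ∀ W : Submodule F _, (∀ k, ε ᵥ* u.1 ^ k ∈ W) → W = ⊤) (hu : u ∈ K) (hG : G ∈ K)
    (eG : G.1 = 1 - vecMulVec (u.1 *ᵥ z) ε - vecMulVec e (ε + ε ᵥ* u.1)) : K = ⊤ := by
  obtain ⟨ha, hp⟩ := mul_ne_zero_iff.1 hg.1
  obtain ⟨φ, hφ⟩ : ∃ φ, φ = ε + ε ᵥ* u.1 := ⟨_, rfl⟩
  rw [← hφ] at eG
  have p0 : ∀ v, φ ⬝ᵥ v = ε ⬝ᵥ v + ε ⬝ᵥ u.1 *ᵥ v := by simp [hφ, dotProduct_mulVec]
  have p1 : φ ⬝ᵥ (u.1 *ᵥ z) = 0 := by rw [p0, f2, f3]; ring
  have p2 : φ ⬝ᵥ z = a := by rw [p0, f1, f2]; ring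
  have p3 : φ ⬝ᵥ (u.1 *ᵥ (u.1 *ᵥ z)) = p := by rw [p0, f3, f4]; ring
  have p4 : φ ⬝ᵥ e = 2 := by rw [p0, e1, e2]; ring
  have t := tv_sq hG eG e2 f2 p4 p1
  have r1 := t.dickson h2 ((Tv.conj_iff hu).1 t) p1 (by rwa [← dotProduct_mulVec]) (by rwa [← dotProduct_mulVec, p2, p3])
  have r2 := (RK.conj_iff hu).1 r1
  have r3 : RK K (z + (2 : F) • u.1 *ᵥ z - a • e) (φ ᵥ* u.1 - p • ε - (2 : F) • φ) := by
    convert (RK.conj_iff (x := z + (2 : F) • u.1 *ᵥ z - a • e) hG).1 (by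
      convert r2 using 1
      simp only [eG, sub_mulVec, one_mulVec, vecMulVec_mulVec, dotProduct_add, dotProduct_sub, dotProduct_smul, p1, p2, p4, f1, f2,
        e2, op_smul_eq_smul, smul_eq_mul]; module) using 1
    simp [eG, vecMul_sub, vecMul_vecMulVec, ← dotProduct_mulVec, p3, e1, p4, -mulVec_mulVec]
  refine top_of_tri hn hu (x := ![u.1 *ᵥ z, z, _]) (φ := ![φ, φ ᵥ* u.1, _]) (i := 1) (j := 0)
    (fun i => by fin_cases i; exacts [r1, r2, r3]) ?_ r1 (by rwa [← p2] at ha) r2 (by rwa [← p2] at ha) c1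
    fun Φ h h' => c2 Φ fun k => ?_
  · simp [det_fin_three, ← dotProduct_mulVec, mulVec_add, mulVec_sub, mulVec_smul, p1, p2, p3, p4, e1, e2, f1, f2, -mulVec_mulVec]
    exact fun h => mul_ne_zero hg.1 hd (by linear_combination h)
  · induction k with
    | zero =>
      convert Φ.smul_mem p⁻¹ (sub_mem (sub_mem (h 1) (Φ.smul_mem 2 (h 0))) (h 2)) using 1
      simp [sub_right_comm _ (p • ε), smul_smul, hp]
    | succ k ih => simpa [hφ, add_vecMul, pow_succ'] using sub_mem (h' k) ih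

theorem gen_closed [Finite F] {M : F → Prop} (h0 : M 0) (add : ∀ a b, M a → M b → M (a + b)) {ξ β c : F} (hξ : Gen ξ)
    (hβ : β ≠ 0) (h1 : ∀ c, M c → M (β * c)) (h2 : ∀ c, M c → M (ξ * β * c)) (hc : c ≠ 0) (h : M c) (a : F) : M a := by
  have := Fintype.ofFinite F
  have h3 : ∀ k c, M c → M (β ^ k * c) := fun k c h => by
    induction k with
    | zero => simpa
    | succ k ih => rw [pow_succ', mul_assoc]; exact h1 _ ih
  have h4 : ∀ c, M c → M (ξ * c) := fun c h => by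
    convert h3 (Fintype.card F - 2) _ (h2 c h) using 1
    have := FiniteField.pow_card_sub_one_eq_one β hβ
    rw [show Fintype.card F - 1 = Fintype.card F - 2 + 1 by have := Fintype.one_lt_card (α := F); omega] at this
    linear_combination -ξ * c * this
  simpa [hc] using hξ.ind (P := fun a => M (a * c)) (by simpa) (fun a b x y => by simpa [add_mul] using add _ _ x y) (fun i => by
    induction i with
    | zero => simpa
    | succ k ih => rw [pow_succ', mul_assoc]; exact h4 _ ih) (a * c⁻¹)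

theorem top_two [Finite F] (h2 : (2 : F) = 0) (hn : 2 ≤ n) {a : F} (ha : a ≠ 0) (e1 : u.1 *ᵥ e = e) (e2 : ε ⬝ᵥ e = 1) {f : ℕ → F}
    (hf : ∀ k, f k = ε ⬝ᵥ u.1 ^ k *ᵥ z) (f1 : f 1 = a) (f2 : f 2 = 0) (f3 : f 3 = 0) (f4 : f 4 = 0)
    (hg : Gen (a ^ 2) ∧ f 5 ≠ 0 ∨ (∀ c : F, c = 0 ∨ c = 1) ∧ f 6 ≠ 0)
    (c1 : ∀ W : Submodule F _, (∀ k, u.1 ^ k *ᵥ u.1 ^ 1 *ᵥ z ∈ W) → W = ⊤)
    (c2 : ∀ W : Submodule F _, (∀ k, ε ᵥ* u.1 ^ k ∈ W) → W = ⊤) (hu : u ∈ K) (hG : G ∈ K)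
    (eG : G.1 = 1 - vecMulVec (u.1 ^ 2 *ᵥ z) ε - vecMulVec e (ε + ε ᵥ* u.1)) : K = ⊤ := by
  obtain ⟨w, e7⟩ : ∃ w : Matrix _ _ F, w * u.1 = 1 := ⟨u⁻¹.1, congrArg Subtype.val (inv_mul_cancel u)⟩
  obtain ⟨v, hv⟩ : ∃ v : ℕ → _, ∀ k, v k = u.1 ^ k *ᵥ z := ⟨_, fun _ => rfl⟩
  obtain ⟨ψ, hψ⟩ : ∃ ψ : ℕ → _, ∀ k, ψ k = ε ᵥ* u.1 ^ k := ⟨_, fun _ => rfl⟩
  have v2 : ∀ k, v (k + 1) = u.1 *ᵥ v k := by simp [hv, pow_succ']
  have pr : ∀ i k, ψ i ⬝ᵥ v k = f (i + k) := fun i k => by simp [hψ, hv, hf, ← dotProduct_mulVec, pow_add]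
  let M := fun s (c : F) => Tv K z (c • ψ s)
  have sh : ∀ k i c, Tv K (v k) (c • ψ i) ↔ M (i + k) c := fun k i c => by
    simpa [M, hv, hψ, smul_vecMul, pow_add] using Tv.conj_iff (x := z) (ψ := c • ψ i) (pow_mem hu k)
  have cm : ∀ k i l j c d, M (i + k) c → M (j + l) d → f (i + k) = 0 → f (j + l) = 0 → f (j + k) = 0 →
      M (j + k) (c * f (i + l) * d) := fun k i l j c d x y b1 b2 b3 => by
    simpa [pr, smul_smul, sh] using ((sh ..).2 x).comm ((sh ..).2 y) (by simp [pr, b1]) (by simp [pr, b2]) (by simp [pr, b3])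
  have ad : ∀ s, f s = 0 → ∀ c d, M s c → M s d → M s (c + d) := fun s h c d x y => by
    simpa [M, add_smul] using Tv.addr x y (by have := pr s 0; simp_all)
  have q3 : ε = ψ 0 := by simp [hψ]
  have ψ1 : ∀ k, ψ k ᵥ* u.1 = ψ (k + 1) := by simp [hψ, pow_succ]
  have pe : (ψ 0 + ψ 1) ⬝ᵥ e = 2 := by simp [hψ, ← dotProduct_mulVec, e1, e2]; ring
  rw [← hv, q3, ψ1] at eG
  have t := tv_sq hG eG (q3 ▸ e2) (by rw [pr, f2, h2]) pe (by simp [pr, f2, f3])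
  have t1 : Tv K (v 3) ((ψ 0 + ψ 1) ᵥ* w) := by rw [v2]; exact (Tv.conj_iff hu).2 (by simpa [e7])
  have q1 : ∀ k, ((ψ 0 + ψ 1) ᵥ* w) ⬝ᵥ v (k + 1) = f k + f (1 + k) := fun k => by
    rw [v2, ← dotProduct_mulVec, mulVec_mulVec, e7]; simp [pr]
  have q2 : ((ψ 0 + ψ 1) ᵥ* w) ⬝ᵥ e = 0 := by rw [← e1, ← dotProduct_mulVec, mulVec_mulVec, e7, one_mulVec, pe, h2]
  have m3 : M 3 a := by
    have g3 : G.1 *ᵥ v 3 = v 3 := by simp [eG, sub_mulVec, vecMulVec_mulVec, pr, f3, f4]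
    have g4 : ((ψ 0 + ψ 1) ᵥ* w) ᵥ* G.1 ⬝ᵥ v 3 = 0 := by rw [← dotProduct_mulVec, g3, q1, f2, f3, add_zero]
    have := (((Tv.conj_iff hG).1 (g3.symm ▸ t1)).neg g4).addr t1 (by rw [neg_dotProduct, g4, neg_zero])
    simpa [eG, vecMul_sub, vecMul_vecMulVec, q1, q2, f1, f2, sh, -vecMul_vecMul] using this
  have m4 : M 4 a := by
    have := t.comm (y := v 1) ((Tv.conj_iff hu).1 (v2 1 ▸ t)) (by simp [pr, f2, f3]) (by simp [add_vecMul, ψ1, pr, f2, f3])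
      (by simp [add_vecMul, ψ1, pr, f3, f4])
    have := (((sh 2 1 a).2 m3).neg (by simp [pr, f3])).addr this (by simp [pr, f3])
    simpa [add_vecMul, ψ1, pr, f1, f2, sh] using this
  obtain ⟨s, hs, h3⟩ : ∃ s, f (s + 2) ≠ 0 ∧ ∀ t, t = 2 ∨ t = s → f t = 0 ∧ ∀ c, M t c := by
    rcases hg with ⟨g1, g2⟩ | ⟨g1, g2⟩
    · have l1 := fun c x => f1 ▸ cm 2 0 1 2 c a x m3 f2 f3 f4
      have l2 := fun c d x y => cm 2 2 3 0 c d x y f4 f3 f2
      have l3 := fun c x => cm 2 2 3 1 c a x m4 f4 f4 f3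
      have m2 := gen_closed (M := M 2) (by simpa [M] using Tv.zero) (ad 2 f2) g1 (β := a ^ 4 * f 5 ^ 2) (by simp [ha, g2])
        (fun c x => by convert l2 _ _ m4 (l3 _ (l1 c x)) using 1; ring)
        (fun c x => by convert l2 _ _ (l1 _ (l2 _ _ (l1 c x) m3)) m3 using 1; ring) (by simp [ha, g2]) (l2 _ _ m4 m3)
      refine ⟨3, g2, ?_⟩
      rintro _ (rfl | rfl)
      · exact ⟨f2, m2⟩
      · exact ⟨f3, fun c => by convert l3 _ (l1 _ (m2 (c / (a ^ 3 * f 5)))) using 1; field_simp⟩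
    · obtain rfl := (g1 a).resolve_left ha
      have m2 : M 2 1 := by
        simpa [← sh 2 0] using t.addr (((sh 2 1 1).2 m3).neg (by simp [pr, f3])) (by simp [pr, f2, f3])
      refine ⟨4, g2, ?_⟩
      rintro _ (rfl | rfl) <;> refine ⟨‹_›, fun c => ?_⟩ <;> obtain rfl | rfl := g1 c <;>
        first | assumption | simpa [M] using Tv.zero
  have r : ∀ k i, i + k = 2 ∨ i + k = s → RK K (v k) (ψ i) := fun k i h =>
    ⟨by rw [pr, (h3 _ h).1], fun c => Tv.smul_iff.2 ((sh ..).2 ((h3 _ h).2 c))⟩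
  refine top_of_tri hn hu (x := ![v 0, v 1, v 2]) (φ := ![ψ s, ψ 1, ψ 0]) (i := 1) (j := 2) (ψ := ψ 0) (y := v 1)
    (fun i => by fin_cases i <;> exact r _ _ (by simp)) ?_ (v2 1 ▸ r 2 0 (by simp)) (by simpa [pr, f1])
    (ψ1 0 ▸ r 1 1 (by simp)) (by simpa [pr, f1]) (hv 1 ▸ c1) fun Φ _ h => c2 Φ (q3 ▸ h)
  simp [det_fin_three, pr, f1, f2, f3, (h3 s (by simp)).1, ha, hs]

theorem three_conj {c : F} (hc : c ≠ 0) (e f : F) : ∃ u g l : SL(3, F), (IsNilpotent (u.1 - 1) ∧ (u.1 - 1) ^ (3 - 1) ≠ 0) ∧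
    g * u * g⁻¹ = l ∧ u.1 = !![1, 1, e; 0, 1, 1; 0, 0, 1] ∧ l.1 = !![1, 0, 0; c, 1, 0; f, c, 1] := by
  refine ⟨⟨_, by simp [det_fin_three]⟩, ⟨!![0, 0, -c⁻¹; 0, -1, 0; -c, e * c - f / c, 0], by simp [det_fin_three, hc]⟩,
    ⟨_, by simp [det_fin_three]⟩, ⟨⟨3, ?_⟩, fun h => ?_⟩, mul_inv_eq_iff_eq_mul.2 (Subtype.ext ?_), rfl, rfl⟩
  · ext i j; fin_cases i <;> fin_cases j <;> simp [pow_succ, mul_apply, Fin.sum_univ_three, one_apply]
  · simpa [pow_succ, mul_apply, Fin.sum_univ_three, one_apply] using congrFun₂ h 0 2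
  · change (!![_, _, _; _, _, _; _, _, _] * !![_, _, _; _, _, _; _, _, _] : Matrix _ _ F) =
      !![_, _, _; _, _, _; _, _, _] * !![_, _, _; _, _, _; _, _, _]
    ext i j; fin_cases i <;> fin_cases j <;> simp [hc] <;> field_simp <;> ring

theorem three_odd [Finite F] (h2 : (2 : F) ≠ 0) {s : F} (hs : s ≠ 0) (hg : Good (-16 * (s - 2) ^ 2 * (s + 1)))
    {K : Subgroup SL(3, F)} {u l : SL(3, F)} (hu : u ∈ K) (hl : l ∈ K) (eu : u.1 = !![1, 1, s⁻¹; 0, 1, 1; 0, 0, 1])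
    (el : l.1 = !![1, 0, 0; -2 * s, 1, 0; 4 * s ^ 2 - 4 * s, -2 * s, 1]) : K = ⊤ := by
  have e1 : u.1 *ᵥ ![-1, 0, 2 * s] = ![1, 2 * s, 2 * s] := by ext i; fin_cases i <;> simp [eu]; field_simp; ring
  have e2 : u.1 *ᵥ ![2 * s - 3, -2 * s, 2 * s] = ![-1, 0, 2 * s] := by ext i; fin_cases i <;> simp [eu]; field_simp; ring
  have t : Tv K ![1, 2 * s, 2 * s] ![2 * (2 - s), 0, (s - 2) / s] := by
    refine ⟨u * l * (u * l), mul_mem (mul_mem hu hl) (mul_mem hu hl), ?_⟩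
    ext i j; fin_cases i <;> fin_cases j <;> simp [eu, el, vecMulVec_apply] <;> field_simp <;> ring
  have r1 := t.dickson h2 ((Tv.conj_iff hu).1 (e1 ▸ t)) (by simp; field_simp; ring)
    (by rw [← dotProduct_mulVec, e1]; simp; field_simp; ring) (by convert hg using 1; simp [eu]; field_simp; ring)
  have r2 := (RK.conj_iff hu).1 (e1 ▸ r1)
  refine top_three (x := ![![2 * s - 3, -2 * s, 2 * s], ![-1, 0, 2 * s], ![1, 2 * s, 2 * s]]) (φ := ![![2 * (2 - s), 0, (s - 2) / s]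
    ᵥ* u.1 ᵥ* u.1, ![2 * (2 - s), 0, (s - 2) / s] ᵥ* u.1, ![2 * (2 - s), 0, (s - 2) / s]]) (fun i => by
    fin_cases i; exacts [(RK.conj_iff hu).1 (e2 ▸ r2), r2, r1]) ?_
  have : s - 2 ≠ 0 := fun h => hg.1 (by simp [h])
  convert pow_ne_zero 3 (mul_ne_zero (mul_ne_zero (pow_ne_zero 2 h2) hs) (neg_ne_zero.2 this)) using 1
  simp [det_fin_three, eu, dotProduct, vecMul, Fin.sum_univ_three]; field_simp; ring

theorem three_two [Finite F] (h2 : (2 : F) = 0) {c : F} (hc : c ≠ 0) (hg : Gen (c ^ 4))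
    {K : Subgroup SL(3, F)} {u l : SL(3, F)} (hu : u ∈ K) (hl : l ∈ K) (eu : u.1 = !![1, 1, (1 + c) / c; 0, 1, 1; 0, 0, 1])
    (el : l.1 = !![1, 0, 0; c, 1, 0; c, c, 1]) : K = ⊤ := by
  have hk : ∀ {g : SL(3, F)} {x φ y ψ}, g ∈ K → Tv K x φ → g.1 *ᵥ x = y → ψ ᵥ* g.1 = φ → Tv K y ψ :=
    fun a b c d => c ▸ (Tv.conj_iff a).2 (d ▸ b)
  have l1 : ∀ a, Tv K ![1, 0, 0] ![0, 0, a] → Tv K ![0, 0, 1] ![c ^ 4 * a, 0, 0] := fun a x => by
    have y : Tv K ![0, 0, 1] ![c * (a * (c ^ 2 + c)), c * (a * c ^ 2), 0] := by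
      simpa using Tv.smul_iff.1 (hk (y := c • ![0, 0, 1])
        (ψ := ![a * (c ^ 2 + c), a * c ^ 2, 0]) (mul_mem hu hl) x (by ext i; fin_cases i <;> simp [eu, el] <;> grind)
        (by ext i; fin_cases i <;> simp [eu, el] <;> grind))
    convert y.addr (hk (y := ![0, 0, 1]) (ψ := ![a * c * (c ^ 3 + c ^ 2 + c), a * c ^ 3, 0]) hl y
      (by ext i; fin_cases i <;> simp [el]) (by ext i; fin_cases i <;> simp [el] <;> grind)) (by simp) using 1
    ext i; fin_cases i <;> simp <;> grind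
  have l2 : ∀ a, Tv K ![0, 0, 1] ![a, 0, 0] → Tv K ![1, 0, 0] ![0, 0, a] := fun a x => by
    have y : Tv K ![1, 0, 0] ![0, a, a * (1 + c) / c ^ 2] := by
      convert Tv.smul_iff.1 ((Tv.conj_iff (x := c⁻¹ • ![1, 0, 0]) (ψ := ![a, 0, 0]) (mul_mem hu hl)).1 (by
        convert x using 1; ext i; fin_cases i <;> simp [eu, el] <;> grind)) using 1
      ext i; fin_cases i <;> simp [eu, el] <;> grind
    convert y.addr ((Tv.conj_iff (x := ![1, 0, 0]) hu).1 (by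
      convert y using 1; ext i; fin_cases i <;> simp [eu])) (by simp) using 1
    ext i; fin_cases i <;> simp [eu] <;> grind
  have m := gen_closed (M := fun a => Tv K ![1, 0, 0] ![0, 0, a]) (by convert Tv.zero; ext i; fin_cases i <;> rfl)
    (fun a b x y => by simpa using x.addr y (by simp)) hg one_ne_zero (by simp) (fun a x => by simpa using l2 _ (l1 a x))
    one_ne_zero ⟨u * u, mul_mem hu hu, by ext i j; fin_cases i <;> fin_cases j <;> simp [eu, vecMulVec_apply] <;> grind⟩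
  have r1 : RK K ![1, 0, 0] ![0, 0, 1] := ⟨by simp, fun a => Tv.smul_iff.2 (by simpa using m a)⟩
  refine top_three (x := ![![1, 0, 0], ![0, 0, 1], l.1 *ᵥ ![1, 0, 0]]) (φ := ![![0, 0, 1], ![1, 0, 0], ![c ^ 2 + c, c, 1]])
    (fun i => ?_) (by simp [det_fin_three, el, dotProduct, mulVec, Fin.sum_univ_three]; grind)
  fin_cases i
  · exact r1
  · exact ⟨by simp, fun a => Tv.smul_iff.2 (by
      have := l1 _ (m (a / c ^ 4)); rw [mul_div_cancel₀ _ (pow_ne_zero 4 hc)] at this; simpa using this)⟩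
  · refine (RK.conj_iff hl).2 ?_
    convert r1 using 1; ext i; fin_cases i <;> simp [el] <;> grind

theorem prim_pow_ne [Finite F] {ζ : Fˣ} (hζ : orderOf ζ = Nat.card F - 1) {k : ℕ} (h : ¬ Nat.card F - 1 ∣ k) : (ζ : F) ^ k ≠ 1 :=
  fun e => h (hζ ▸ orderOf_dvd_of_pow_eq_one (Units.ext (by simpa)))

theorem cast_natCard [Finite F] : (Nat.card F : F) = 0 := by
  have := Fintype.ofFinite F
  simp [FiniteField.cast_card_eq_zero]

theorem three_of_card [Finite F] (h : Nat.card F = 9) : (3 : F) = 0 := by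
  have := cast_natCard (F := F); simp only [h, Nat.cast_ofNat] at this
  exact (pow_eq_zero_iff two_ne_zero).1 (by linear_combination this)

theorem two_of_card [Finite F] (h : Nat.card F = 2 ∨ Nat.card F = 4) : (2 : F) = 0 := by
  have := cast_natCard (F := F); rcases h with h | h <;> simp only [h, Nat.cast_ofNat] at this
  exacts [this, (pow_eq_zero_iff two_ne_zero).1 (by linear_combination this)]

theorem good_four [Finite F] (h2 : (2 : F) ≠ 0) :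
    ∃ a p d : F, d ≠ 0 ∧ p - a + 16 = d ^ 4 ∧ Good (a * p) ∧ p * a + 4 * a - 4 * p ≠ 0 := by
  obtain ⟨ζ, hζ, -⟩ := exists_prim F
  have g := gen_pow hζ (m := 2) (by simp)
  by_cases h9 : Nat.card F = 9
  · have h3 := three_of_card h9
    have h4 := prim_pow_ne hζ (k := 4) (by simp [h9])
    have h8 : (ζ : F) ^ 8 = 1 := by simpa [hζ, h9] using congrArg Units.val (pow_orderOf_eq_one ζ)
    refine ⟨ζ + 1, ζ - 1, ζ, ζ.ne_zero, by grind, ⟨by grind, g.of_mem ?_, by grind⟩, by grind⟩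
    convert add_mem (Subring.subset_closure (s := {((ζ : F) + 1) * (ζ - 1)}) rfl) (one_mem _) using 1; ring
  · exact ⟨ζ, ζ, 2, h2, by ring, ⟨by simp, by rwa [← sq], by simp [h9]⟩, by simp⟩

open Polynomial in
theorem good_three [Finite F] (h2 : (2 : F) ≠ 0) : ∃ s : F, s ≠ 0 ∧ Good (-16 * (s - 2) ^ 2 * (s + 1)) := by
  by_cases h3 : (3 : F) = 0
  · obtain ⟨ζ, hζ, -⟩ := exists_prim F
    have e : -16 * ((ζ : F) + 2 - 2) ^ 2 * (ζ + 2 + 1) = -ζ ^ 3 := by grind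
    have := prim_pow_ne hζ (k := 1) fun h =>
      h2 (two_of_card (by have := Finite.one_lt_card (α := F); have := Nat.le_of_dvd one_pos h; omega))
    refine ⟨ζ + 2, by grind, e ▸ ⟨by simp, (gen_pow hζ (m := 3) (.inr (.inr ⟨rfl, fun h => h2 (two_of_card (.inr h))⟩))).of_mem ?_,
      fun h => prim_pow_ne hζ (k := 12) (by simp [h.1]) (by grind)⟩⟩
    simpa using neg_mem (Subring.subset_closure (s := {-(ζ : F) ^ 3}) rfl)
  classical
  have := Fintype.ofFinite F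
  obtain ⟨p, hp, ⟨e, e0⟩, pp, he⟩ := FiniteField.card' F
  change _ = p ^ e at he
  have p4 : 4 ≤ p := by
    have := CharP.cast_eq_zero F p
    have := pp.two_le
    by_contra h
    interval_cases p <;> simp_all
  by_contra h
  push Not at h
  let P : F[X] := C (-16) * (X - C 2) ^ 2 * (X + C 1)
  have d : P.natDegree = 3 := by unfold P; compute_degree!; exact fun h => h2 ((pow_eq_zero_iff four_ne_zero).1 (by linear_combination h))
  have h1 : ∀ j, 3 * ∑ i ∈ Finset.range j, p ^ i < p ^ j := fun j => by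
    induction j with
    | zero => simp
    | succ j ih => rw [Finset.sum_range_succ, pow_succ]; nlinarith [Nat.mul_le_mul_left (p ^ j) p4]
  refine (h1 e).not_ge ?_
  rw [Finset.mul_sum]
  refine he.symm.trans_le ((Finset.card_le_card (t := (Finset.range e).biUnion fun j =>
    if j = 0 then {0, 2, -1} else (P ^ p ^ j - P).roots.toFinset) fun s _ => ?_).trans
      (Finset.card_biUnion_le.trans (Finset.sum_le_sum fun j _ => ?_)))
  · rw [Finset.mem_biUnion]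
    by_cases hs : s ∈ ({0, 2, -1} : Finset F)
    · exact ⟨0, by simpa, by simpa using hs⟩
    have hg : ¬ Gen (P.eval s) := fun g => h s (by grind) ⟨by grind, by simpa [P] using g, fun h => h3 (three_of_card h.1)⟩
    let R := Subring.closure {P.eval s}
    letI : Field R := (Finite.isField_of_domain R).toField
    obtain ⟨j, j1, j2⟩ := (Nat.dvd_prime_pow pp).1 (show Nat.card R ∣ p ^ e by
      simpa [← he] using R.toAddSubgroup.card_addSubgroup_dvd_card)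
    have j0 : j ≠ 0 := by rintro rfl; have := Finite.one_lt_card (α := R); simp_all
    refine ⟨j, Finset.mem_range.2 (j1.lt_of_ne fun h => hg ?_), ?_⟩
    · exact Subring.toAddSubgroup_injective (R.toAddSubgroup.eq_top_of_card_eq (by simpa [he, ← h] using j2))
    · rw [if_neg j0, Multiset.mem_toFinset, mem_roots (sub_ne_zero.2 fun h => by
        have := congrArg natDegree h
        rw [natDegree_pow, d] at this
        have := Nat.one_lt_pow j0 pp.one_lt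
        omega)]
      simpa [sub_eq_zero, ← j2] using congrArg Subtype.val (FiniteField.pow_card (⟨_, Subring.subset_closure rfl⟩ : R))
  · split_ifs with h
    · simpa [h] using Finset.card_le_three
    · refine (Multiset.toFinset_card_le _).trans ((card_roots' _).trans ((natDegree_sub_le _ _).trans ?_))
      have := Nat.one_le_pow j _ pp.pos
      simp [d]; omega

theorem jor_single {m : ℕ} : (jor F (m + 1)).1 *ᵥ Pi.single 0 1 = Pi.single 0 1 := by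
  ext i; simp [coe_jor, nil, one_apply, Pi.single_apply]

theorem sl_two_conj [Finite F] (hn : 3 ≤ n) :
    ∃ u g : SL(n, F), (IsNilpotent (u.1 - 1) ∧ (u.1 - 1) ^ (n - 1) ≠ 0) ∧ closure {u, g * u * g⁻¹} = ⊤ := by
  have m1 : ∀ u v : SL(n, F), u ∈ closure {u, v} := fun u v => subset_closure (Set.mem_insert _ _)
  have m2 : ∀ u v : SL(n, F), v ∈ closure {u, v} := fun u v => subset_closure (Set.mem_insert_of_mem _ rfl)
  obtain ⟨ζ, hζ, z2⟩ := exists_prim F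
  have sq : (2 : F) = 0 → ∀ a : F, ∃ b, b ^ 2 = a := fun h a => by
    obtain ⟨b, rfl⟩ := FiniteField.isSquare_of_char_two (CharP.ringChar_of_prime_eq_zero Nat.prime_two h) a
    exact ⟨b, sq b⟩
  have g1 := gen_pow hζ (m := 1) (by simp)
  have g2 := gen_pow hζ (m := 2) (by simp)
  obtain rfl | hn := hn.eq_or_lt
  · by_cases h2 : (2 : F) = 0
    · obtain ⟨b, hb⟩ := sq h2 ζ
      obtain ⟨c, rfl⟩ := sq h2 b
      have hc : c ≠ 0 := fun h => ζ.ne_zero (by simp [← hb, h])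
      obtain ⟨u, g, l, h1, rfl, h3, h4⟩ := three_conj hc ((1 + c) / c) c
      exact ⟨u, g, h1, three_two h2 hc (by convert g1 using 1; rw [← hb]; ring) (m1 _ _) (m2 _ _) h3 h4⟩
    · obtain ⟨s, hs, hg⟩ := good_three h2
      obtain ⟨u, g, l, h1, rfl, h3, h4⟩ := three_conj (c := -2 * s) (by simp [*]) s⁻¹ (4 * s ^ 2 - 4 * s)
      exact ⟨u, g, h1, three_odd h2 hs hg (m1 _ _) (m2 _ _) h3 h4⟩
  obtain ⟨m, rfl⟩ : ∃ m, n = m + 1 := ⟨n - 1, by omega⟩
  have hz : ∀ a : ℕ → F, ∃ z : Fin (m + 1) → F, ∀ k, ex z k = if k ≤ m then a k else 0 := fun a =>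
    ⟨fun i => a i, fun k => by simp [ex, Nat.lt_succ_iff]⟩
  have mG : ∀ {g G : SL(m + 1, F)}, g * jor F _ * g⁻¹ = jor F _ * G → G ∈ closure {jor F _, g * jor F _ * g⁻¹} := fun {g G} h => by
    rw [h]; exact (Subgroup.mul_mem_cancel_left _ (m1 _ _)).1 (m2 _ _)
  have k1 : 1 ≤ m ∧ 2 ≤ m ∧ 3 ≤ m := by omega
  by_cases h2 : (2 : F) = 0
  · obtain ⟨b, hb⟩ := sq h2 ζ
    obtain ⟨c, rfl⟩ := sq h2 b
    have hc : c ≠ 0 := fun h => ζ.ne_zero (by simp [← hb, h])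
    obtain ⟨z, hz⟩ := hz fun k => if k ≤ 3 then ζ else if k = m then 1 else 0
    obtain ⟨y, hy⟩ : ∃ y, (jor F _).1 *ᵥ y = z := ⟨(jor F _)⁻¹.1 *ᵥ z, by
      rw [mulVec_mulVec, show _ * _ = (1 : Matrix _ _ F) from congrArg Subtype.val (mul_inv_cancel (jor F _)), one_mulVec]⟩
    obtain ⟨g, G, h1, h3⟩ := exists_conj (x := (jor F _).1 *ᵥ z) (d := if m = 3 then c else 1) (by split_ifs <;> simp [hc])
      (by simp [ex_jor, hz]; split_ifs <;> first | omega | simp | (subst m; rw [← hb]; ring))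
      (by simp [ex_jor, hz, k1, -mulVec_mulVec]; grind)
    have hf : ∀ k, Pi.single 0 1 ⬝ᵥ (jor F _).1 ^ (k + 1) *ᵥ y = ex ((jor F _).1 ^ k *ᵥ z) 0 := fun k => by
      rw [single_dot, pow_succ, ← mulVec_mulVec, hy]
    refine ⟨_, g, jor_reg (by omega), top_two h2 (by omega) ζ.ne_zero jor_single (by simp) (z := y) (fun _ => rfl) ?_ ?_ ?_ ?_ ?_
      (jor_cyc (by simp [hy, hz]; grind [ζ.ne_zero])) jor_cyc' (m1 _ _) (mG h1) (by rw [h3, pow_two, ← mulVec_mulVec, hy])⟩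
    iterate 4 rw [hf]; simp [pow_succ', ← mulVec_mulVec, ex_jor, hz, k1]; try grind
    rw [hf, hf]
    simp only [pow_succ' (jor F _).1, ← mulVec_mulVec, ex_jor, hz, k1, pow_zero, one_mulVec]
    by_cases h : m = 4 ∧ ζ = 1
    · refine .inr ⟨fun a => or_iff_not_imp_left.2 fun e => ?_, by simp [h]; grind⟩
      obtain ⟨i, hi⟩ := z2 (Units.mk0 a e)
      simpa [h, Units.ext_iff, eq_comm] using hi
    · refine .inl ⟨g2, ?_⟩
      have := ζ.ne_zero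
      rw [Units.ext_iff, Units.val_one] at h
      simp; grind
  · obtain ⟨a, p, d, d0, hd, hg, h0⟩ := good_four h2
    obtain ⟨z, hz⟩ := hz fun k => if k = 0 then a - 2 else if k = 1 then 4 - a else if k = 2 then a - 8 else
      if k = 3 then p - a + 16 else 1
    obtain ⟨g, G, h1, h3⟩ := exists_conj (x := (jor F _).1 *ᵥ z) (d := if m = 3 then d else 1) (by split_ifs <;> simp [d0])
      (by simp [ex_jor, hz]; grind) (by simp [ex_jor, hz, k1, -mulVec_mulVec]; ring)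
    refine ⟨_, g, jor_reg (by omega), top_odd h2 (by omega) jor_single (by simp) ?_ ?_ ?_ ?_ hg h0
      (jor_cyc (by simp [hz]; grind)) jor_cyc' (m1 _ _) (mG h1) h3⟩
    all_goals rw [single_dot]; simp [ex_jor, hz, k1, -mulVec_mulVec]; try ring

end H11
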