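import Cfsg.Agent.H11.Chunk
import Cfsg.Agent.H11.Symp

/-! The symplectic group as the universal completion of the amalgam of the long-root `SL₂`s and small abelian
unipotent subgroups (`sp_step`: one induction step through `geo_step`; `HB.amalgam`). -/

set_option autoImplicit false

namespace H11
open Subgroup Module

variable {F : Type*} [Field F] {H : Type*} [Group H]

theorem symp_big (h : ∃ a : F, a ≠ 0 ∧ a ≠ 1) : (sympP F).Big :=
  let ⟨a, h0, h1⟩ := h; ⟨a, trivial, 1, trivial, h0, one_ne_zero, h1⟩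

namespace PForm
variable {V : Type*} [AddCommGroup V] [Module F V] [FiniteDimensional F V] {S : PForm (sympP F) V}

omit [FiniteDimensional F V] in
theorem sec {u v : V} (h : S.h u v = 0) (a : F) : S.ECond u v a := ⟨trivial, h, trivial⟩

theorem sp_move (hS : S.Nondeg) {U : Submodule F V} (hU : (S.restrict U).Nondeg) {u v : V} (hu : u ∈ S.perp U) (hv : v ∈ S.perp U)
    (u0 : u ≠ 0) (v0 : v ≠ 0) : ∃ g ∈ S.fix U, g.1 u = v :=
  hS.witt_fix U (notMem_of_perp hU hu u0) (notMem_of_perp hU hv v0) trivial fun x hx => by rw [hu x hx, hv x hx]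

theorem sp_move2 (hS : S.Nondeg) {U : Submodule F V} (hU : (S.restrict U).Nondeg) {u v u' v' : V} (hu : u ∈ S.perp U)
    (hv : v ∈ S.perp U) (hu' : u' ∈ S.perp U) (hv' : v' ∈ S.perp U) (h : S.h u u' = S.h v v') (h0 : S.h u u' ≠ 0) :
    ∃ g ∈ S.fix U, g.1 u = v ∧ g.1 u' = v' := by
  obtain ⟨g, hg, h1⟩ := sp_move hS hU hu hv (by rintro rfl; simp at h0) (by rintro rfl; simp [h] at h0)
  have hw : (g⁻¹).1 v' ∈ S.perp U := (stab_le_stab_perp _ (fix_le_stab _ (inv_mem hg)) _).1 hv'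
  have h2 : S.h u ((g⁻¹).1 v') = S.h u u' := by rw [isom_h_right, inv_inv, h1, h]
  have nm : ∀ x, S.h u x ≠ 0 → x ∉ U ⊔ F ∙ u := fun x hx hm => by
    obtain ⟨a, ha, b, hb, rfl⟩ := Submodule.mem_sup.1 hm
    obtain ⟨c, rfl⟩ := Submodule.mem_span_singleton.1 hb
    simp [S.h_swap_zero (hu a ha), symp_h_self] at hx
  obtain ⟨k, hk, h3⟩ := hS.witt_fix (U ⊔ F ∙ u) (nm _ h0) (nm _ (h2 ▸ h0)) trivial fun x hx => by
    obtain ⟨a, ha, b, hb, rfl⟩ := Submodule.mem_sup.1 hx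
    obtain ⟨c, rfl⟩ := Submodule.mem_span_singleton.1 hb
    rw [map_add, LinearMap.add_apply, LinearMap.add_apply, S.h_smul_left, S.h_smul_left, h2, hw a ha, hu' a ha]
  refine ⟨g * k, mul_mem hg (fix_anti le_sup_left hk), ?_, ?_⟩
  · rw [isom_mul_apply, hk u (Submodule.mem_sup_right (Submodule.mem_span_singleton_self u)), h1]
  · rw [isom_mul_apply, h3, isom_apply_inv_self]

theorem sp_step (hF : ∃ a : F, a ≠ 0 ∧ a ≠ 1) (hS : S.Nondeg) {U : Submodule F V} (hU : (S.restrict U).Nondeg) {e f e₁ f₁ : V}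
    (Hy : S.IsHyp e f) (H1 : S.IsHyp e₁ f₁) (he : e ∈ S.perp U) (hf : f ∈ S.perp U)
    (he₁ : e₁ ∈ S.perp (U ⊔ Submodule.span F {e, f})) (hf₁ : f₁ ∈ S.perp (U ⊔ Submodule.span F {e, f}))
    {Φ' ψ Ψ₀ Ψ₁ : S.Isom → H} {z : F → H} {A₀ A₁ : Subgroup S.Isom}
    (hΦ : HomOn (S.fix (U ⊔ Submodule.span F {e, f})) Φ') (hψ : HomOn (S.fix (S.perp (Submodule.span F {e, f}))) ψ)
    (hc : ∀ g ∈ S.fix (U ⊔ Submodule.span F {e, f}), ∀ k ∈ S.fix (S.perp (Submodule.span F {e, f})), Commute (Φ' g) (ψ k))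
    (hz : ∀ g ∈ S.fix (U ⊔ Submodule.span F {e, f}), g.1 e₁ = e₁ → Commute (Φ' g) (z 1))
    (h₀ : HomOn A₀ Ψ₀) (a₀ : ∀ k ∈ S.fix (S.perp (Submodule.span F {e, f})), k ∈ A₀ ∧ Ψ₀ k = ψ k)
    (b₀ : ∀ b, S.eich e (b • e₁) 0 ∈ A₀ ∧ Ψ₀ (S.eich e (b • e₁) 0) = z b)
    (c₀ : ∀ a, S.eich e₁ 0 a ∈ A₀ ∧ Ψ₀ (S.eich e₁ 0 a) = Φ' (S.eich e₁ 0 a))
    (h₁ : HomOn A₁ Ψ₁) (a₁ : ∀ k ∈ S.fix (S.perp (Submodule.span F {e₁, f₁})), k ∈ A₁ ∧ Ψ₁ k = Φ' k)
    (b₁ : ∀ b, S.eich e (b • e₁) 0 ∈ A₁ ∧ Ψ₁ (S.eich e (b • e₁) 0) = z b)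
    (c₁ : ∀ a, S.eich e 0 a ∈ A₁ ∧ Ψ₁ (S.eich e 0 a) = ψ (S.eich e 0 a)) :
    ∃ Φ, HomOn (S.fix U) Φ ∧ (∀ g ∈ S.fix (U ⊔ Submodule.span F {e, f}), Φ g = Φ' g) ∧
      (∀ k ∈ S.fix (S.perp (Submodule.span F {e, f})), Φ k = ψ k) ∧ ∀ b, Φ (S.eich e (b • e₁) 0) = z b := by
  classical
  set L := Submodule.span F {e, f} with hL
  set W := S.perp (U ⊔ L) with hW
  have eL : e ∈ L := Submodule.subset_span (by simp)
  have fL : f ∈ L := Submodule.subset_span (by simp)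
  have LU : L ≤ S.perp U := Submodule.span_le.2 (by rintro _ (rfl | rfl); exacts [he, hf])
  have UL : U ≤ S.perp L := S.le_perp_comm.1 LU
  have hU' : (S.restrict (U ⊔ L)).Nondeg := nondeg_sup hU Hy.nondeg LU
  have mW : ∀ {v}, v ∈ W ↔ v ∈ S.perp U ∧ S.h e v = 0 ∧ S.h f v = 0 := by
    intro v; rw [hW, perp_sup, Submodule.mem_inf, hL, mem_perp_pair]
  have WL : ∀ {v}, v ∈ W → v ∈ S.perp L := fun h => S.mem_perp_pair.2 (mW.1 h).2
  have gW : ∀ g ∈ S.fix (U ⊔ L), ∀ v ∈ W, g.1 v ∈ W := fun g hg v hv => (stab_le_stab_perp _ (fix_le_stab _ hg) _).1 hv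
  have ge : ∀ g ∈ S.fix (U ⊔ L), g.1 e = e := fun g hg => hg e (Submodule.mem_sup_right eL)
  have gf : ∀ g ∈ S.fix (U ⊔ L), g.1 f = f := fun g hg => hg f (Submodule.mem_sup_right fL)
  have xK : ∀ a, S.eich e 0 a ∈ S.fix (S.perp L) := fun a x hx => eich_apply_of_perp_perp (S.mem_perp_pair.1 hx).1 (by simp)
  have tK : ∀ c, Hy.tor c ∈ S.fix (S.perp L) := fun c => Hy.Mon_le_fix (Hy.tor_mem_Mon c)
  have nK : Hy.swp 1 ∈ S.fix (S.perp L) := Hy.Mon_le_fix (Hy.swp_mem_Mon 1)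
  have cG : ∀ g ∈ S.fix (U ⊔ L), ∀ k ∈ S.fix (S.perp L), Commute g k := fun g hg k hk =>
    commute_fix_perp hS Hy.nondeg (fix_anti le_sup_right hg) hk
  have L1 : Submodule.span F {e₁, f₁} ≤ W := Submodule.span_le.2 (by rintro _ (rfl | rfl); exacts [he₁, hf₁])
  have K1 : S.fix (S.perp (Submodule.span F {e₁, f₁})) ≤ S.fix (U ⊔ L) := fix_anti (S.le_perp_comm.1 L1)
  obtain ⟨D, β, hβ, hD⟩ := hΦ.prod' hψ (fun l hl u hu => by rwa [← (cG u hu l hl).eq, mul_inv_cancel_right])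
    (fun x h h' => by rw [isom_ext_perp Hy.nondeg (g := x) (g' := 1) (fix_anti le_sup_right h) h', hΦ.one, hψ.one])
    fun l hl u hu => by rw [← (cG u hu l hl).eq, ← (hc u hu l hl).eq, mul_inv_cancel_right, mul_inv_cancel_right]
  have βG : ∀ g ∈ S.fix (U ⊔ L), g ∈ D ∧ β g = Φ' g := fun g hg => by simpa [hψ.one] using hD g hg 1 (one_mem _)
  have βK : ∀ k ∈ S.fix (S.perp L), k ∈ D ∧ β k = ψ k := fun g hg => by simpa [hΦ.one] using hD 1 (one_mem _) g hg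
  let E : V → H := fun v => if h : ∃ g ∈ S.fix (U ⊔ L), g.1 e₁ = v then Φ' h.choose * z 1 * (Φ' h.choose)⁻¹ else 1
  have E1 : ∀ g ∈ S.fix (U ⊔ L), E (g.1 e₁) = Φ' g * z 1 * (Φ' g)⁻¹ := fun g hg => by
    have h : ∃ g' ∈ S.fix (U ⊔ L), g'.1 e₁ = g.1 e₁ := ⟨g, hg, rfl⟩
    simp only [E, dif_pos h]
    obtain ⟨h1, h2⟩ := h.choose_spec
    generalize h.choose = g' at h1 h2
    have := hz _ (mul_mem (inv_mem hg) h1) (by rw [isom_mul_apply, h2, isom_inv_apply_self])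
    rw [hΦ _ (inv_mem hg) _ h1, hΦ.inv hg] at this
    rw [show Φ' g' = Φ' g * ((Φ' g)⁻¹ * Φ' g') by group, mul_assoc _ _ (z 1), this.eq]; group
  have E0 : E 0 = 1 := dif_neg fun ⟨g, _, h⟩ => H1.e_ne (by simpa using h)
  have ind : ∀ {p : V → Prop}, p 0 → (∀ g ∈ S.fix (U ⊔ L), p (g.1 e₁)) → ∀ v ∈ W, p v := fun h0 h1 v hv => by
    rcases eq_or_ne v 0 with rfl | h
    · exact h0
    · obtain ⟨g, hg, rfl⟩ := sp_move hS hU' he₁ hv H1.e_ne h; exact h1 g hg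
  have Eq : ∀ g ∈ S.fix (U ⊔ L), ∀ v ∈ W, Φ' g * E v * (Φ' g)⁻¹ = E (g.1 v) := fun g hg => ind (by simp [E0]) fun g' hg' => by
    rw [← isom_mul_apply, E1 _ (mul_mem hg hg'), E1 _ hg', hΦ _ hg _ hg']; group
  let x : F → H := fun a => ψ (S.eich e 0 a)
  have cx : ∀ g ∈ S.fix (U ⊔ L), ∀ a, (Φ' g)⁻¹ * x a = x a * (Φ' g)⁻¹ := fun g hg a => (hc g hg _ (xK a)).inv_left.eq
  have xa : ∀ a b, x (a + b) = x a * x b := fun a b => by
    simp only [x]; rw [← hψ _ (xK a) _ (xK b), eich_mul (sec (by simp) _) (sec (by simp) _)]; simp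
  have sp : ∀ {v}, v ∈ W → ∀ a, S.eich e v a = S.eich e v 0 * S.eich e 0 a := fun h a => by
    rw [eich_mul (sec (mW.1 h).2.1 _) (sec (by simp) _)]; simp
  have xz : ∀ a b, Commute (z b) (x a) := fun a b => by
    rw [← (b₁ b).2]; simp only [x]; rw [← (c₁ a).2]
    refine h₁.comm (b₁ b).1 (c₁ a).1 ?_
    rw [Commute, SemiconjBy, ← sp (W.smul_mem b he₁), eich_mul (sec (by simp) _) (sec (mW.1 (W.smul_mem b he₁)).2.1 _)]; simp
  have xE : ∀ a, ∀ v ∈ W, Commute (E v) (x a) := fun a => ind (by simp [E0]) fun g hg => by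
    rw [E1 g hg]; exact ((hc g hg _ (xK a)).mul_left (xz a 1)).mul_left (hc g hg _ (xK a)).inv_left
  have pl : ∀ v ∈ Submodule.span F {e₁, f₁}, S.eich e v 0 ∈ A₁ ∧ Ψ₁ (S.eich e v 0) = E v := fun v hv => by
    rcases eq_or_ne v 0 with rfl | h
    · rw [eich_zero, E0]; exact ⟨one_mem _, h₁.one⟩
    obtain ⟨k, hk, rfl⟩ := sp_move hS (hS.restrict_perp H1.nondeg) (u := e₁) (v := v)
      (S.le_perp_perp _ (Submodule.subset_span (by simp))) (S.le_perp_perp _ hv) H1.e_ne h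
    have := b₁ 1
    rw [one_smul] at this
    rw [← ge k (K1 hk), ← conj_eich, E1 k (K1 hk), ← h₁.conj (a₁ k hk).1 this.1, this.2, (a₁ k hk).2]
    exact ⟨mul_mem (mul_mem (a₁ k hk).1 this.1) (inv_mem (a₁ k hk).1), rfl⟩
  have Ez : ∀ b, E (b • e₁) = z b := fun b => by
    rw [← (pl _ (Submodule.smul_mem _ b (Submodule.subset_span (by simp)))).2, (b₁ b).2]
  have R0 : ∀ g ∈ S.fix (U ⊔ L), ∀ v ∈ Submodule.span F {e₁, f₁}, ∀ w ∈ Submodule.span F {e₁, f₁},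
      E (g.1 v) * E (g.1 w) = E (g.1 v + g.1 w) * x (S.h (g.1 v) (g.1 w)) := fun g hg v hv w hw => by
    have : E v * E w = E (v + w) * x (S.h v w) := by
      simp only [x]
      rw [← (pl v hv).2, ← (pl w hw).2, ← (pl _ (add_mem hv hw)).2, ← (c₁ _).2, ← h₁ _ (pl v hv).1 _ (pl w hw).1,
        ← h₁ _ (pl _ (add_mem hv hw)).1 _ (c₁ _).1, ← sp (L1 (add_mem hv hw)),
        eich_mul (sec (mW.1 (L1 hv)).2.1 _) (sec (mW.1 (L1 hw)).2.1 _)]
      simp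
    rw [← map_add, isom_h, ← Eq g hg _ (L1 hv), ← Eq g hg _ (L1 hw), ← Eq g hg _ (L1 (add_mem hv hw)),
      mul_assoc _ _ (x _), cx g hg, ← mul_assoc _ (x _), mul_assoc _ _ (x _), ← this]
    group
  have m1 : e₁ ∈ Submodule.span F {e₁, f₁} := Submodule.subset_span (by simp)
  have m2 : f₁ ∈ Submodule.span F {e₁, f₁} := Submodule.subset_span (by simp)
  have R1 : ∀ v ∈ W, ∀ w ∈ W, S.h v w ≠ 0 → E v * E w = E (v + w) * x (S.h v w) := fun v hv w hw h => by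
    obtain ⟨g, hg, h1, h2⟩ := sp_move2 hS hU' he₁ hv (W.smul_mem (S.h v w) hf₁) hw (by simp [H1.h_ef]) (by simpa [H1.h_ef])
    have := R0 g hg _ m1 _ (Submodule.smul_mem _ (S.h v w) m2)
    rwa [h1, h2] at this
  have R : ∀ v ∈ W, ∀ w ∈ W, E v * E w = E (v + w) * x (S.h v w) := fun v hv w hw => by
    have x0 : x 0 = 1 := by simp only [x, eich_zero, hψ.one]
    by_cases h : S.h v w ≠ 0
    · exact R1 v hv w hw h
    push Not at h
    by_cases v0 : v = 0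
    · simp [v0, E0, x0]
    by_cases w0 : w = 0
    · simp [w0, E0, x0]
    by_cases vw : v + w = 0
    · obtain ⟨g, hg, rfl⟩ := sp_move hS hU' he₁ hv H1.e_ne v0
      have := R0 g hg _ m1 _ (neg_mem m1)
      rwa [map_neg, neg_eq_of_add_eq_zero_right vw] at this
    obtain ⟨u, hu, -, h1, h2, h3⟩ := (Opp.of_big (symp_big hF) (hS.restrict_perp hU')).c3 v hv w hw _ (add_mem hv hw)
      trivial trivial trivial v0 w0 vw
    have huw : S.h u (w - u) = -S.h w u := by simp [symp_h_self, symp_symm S w u]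
    have r1 := R1 u hu _ (sub_mem hw hu) (by simpa [huw])
    have r2 := R1 v hv u hu h1
    have e3 : S.h (v + u) (w - u) = -S.h v u + -S.h w u := by simp [symp_h_self, symp_symm S w u, h]
    have r3 := R1 _ (add_mem hv hu) _ (sub_mem hw hu) (by rw [e3, ← neg_add, neg_ne_zero]; simpa using h3)
    rw [add_sub_cancel, huw] at r1
    rw [e3, add_add_sub_cancel] at r3
    rw [h, x0, mul_one, ← mul_left_inj (x (-S.h w u)), mul_assoc, ← r1, ← mul_assoc, r2, mul_assoc, ← (xE _ _ (sub_mem hw hu)).eq,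
      ← mul_assoc, r3, mul_assoc, ← xa]
    congr 2; ring
  have qW : ∀ {v a}, S.QP (S.perp U) e f v a → v ∈ W := fun h => mW.2 ⟨h.mem, h.ec.perp, h.hf⟩
  have Wq : ∀ {v}, v ∈ W → ∀ a, S.QP (S.perp U) e f v a := fun h a => ⟨(mW.1 h).1, (mW.1 h).2.2, sec (mW.1 h).2.1 a⟩
  have hE : ∀ v a, S.QP (S.perp U) e f v a → S.eich e v a ∈ S.fix U := fun v a h y hy =>
    eich_apply_of_perp_perp (S.h_swap_zero (he y hy)) (S.h_swap_zero (h.mem y hy))
  have dL : ∀ l ∈ S.fix U ⊓ S.stab (F ∙ e) ⊓ S.stab (F ∙ f), ∀ t : F, l.1 e = t • e →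
      ∃ c : Fˣ, c = t ∧ ∃ g ∈ S.fix (U ⊔ L), l = g * Hy.tor c := fun l hl t ht => by
    obtain ⟨s, hs⟩ := mem_stab_line.1 hl.2
    obtain ⟨c, h1, h2⟩ := Hy.exists_tor ht hs
    have h3 := mem_fix_sup.2 ⟨mul_mem (inv_mem (fix_anti UL (tK c))) hl.1.1, h2⟩
    exact ⟨c, h1, _, h3, by rw [(cG _ h3 _ (tK c)).eq]; group⟩
  have gL : ∀ g ∈ S.fix (U ⊔ L), g ∈ S.fix U ⊓ S.stab (F ∙ e) ⊓ S.stab (F ∙ f) := fun g hg =>
    ⟨⟨fix_anti le_sup_left hg, mem_stab_line.2 ⟨1, by simp [ge g hg]⟩⟩, mem_stab_line.2 ⟨1, by simp [gf g hg]⟩⟩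
  have TL : ∀ c, Hy.tor c ∈ S.fix U ⊓ S.stab (F ∙ e) ⊓ S.stab (F ∙ f) := fun c =>
    ⟨⟨fix_anti UL (tK c), mem_stab_line.2 ⟨_, Hy.tor_e c⟩⟩, mem_stab_line.2 ⟨_, Hy.tor_f c⟩⟩
  obtain ⟨Φ, h1, h2, h3, h4⟩ := Hy.geo_step (Opp.of_big (symp_big hF) (hS.restrict_perp hU)) he hf (K := S.fix U)
    (fun g hg v hv => (stab_le_stab_perp _ (fix_le_stab _ hg) _).1 hv) hE (fix_anti UL nK) (Hy.swp_e 1) (Hy.swp_f 1)
    (fun v a => E v * x a) (fun v a v' a' h h' => by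
      rw [mul_assoc, ← mul_assoc (x a), ← (xE _ _ (qW h')).eq, mul_assoc, ← mul_assoc, R _ (qW h) _ (qW h'), mul_assoc, ← xa, ← xa]
      congr 2; ring) hβ (fun l hl => by
      obtain ⟨t, ht⟩ := mem_stab_line.1 hl.1.2
      obtain ⟨c, -, g, hg, rfl⟩ := dL l hl t ht
      exact (hD g hg _ (tK c)).1) (βK _ nK).1 (fun l hl t ht v a h => by
      obtain ⟨c, rfl, g, hg, rfl⟩ := dL l hl t ht
      have t1 : ψ (Hy.tor c) * x a * (ψ (Hy.tor c))⁻¹ = x (c * a * c) := by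
        simp only [x]; rw [hψ.conj (tK c) (xK a), Hy.conj_tor_eich c (zero_mem _) (sec (by simp) _)]; simp
      have t2 : ∀ v ∈ W, ψ (Hy.tor c) * E v * (ψ (Hy.tor c))⁻¹ = E ((c : F) • v) := ind (by simp [E0]) fun g hg => by
        have := (hc g hg _ (tK c)).eq
        rw [← map_smul, ← Eq g hg _ (W.smul_mem _ he₁), Ez, E1 g hg, ← (b₀ 1).2, ← (b₀ c).2,
          show S.eich e ((c : F) • e₁) 0 = Hy.tor c * S.eich e ((1 : F) • e₁) 0 * (Hy.tor c)⁻¹ by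
            rw [Hy.conj_tor_eich c (WL (W.smul_mem _ he₁)) (sec (mW.1 (W.smul_mem _ he₁)).2.1 _)]; simp,
          ← h₀.conj (a₀ _ (tK c)).1 (b₀ 1).1, (a₀ _ (tK c)).2, ← mul_assoc, ← mul_assoc, ← this, mul_assoc _ (Φ' g)⁻¹,
          ← mul_inv_rev, ← this]
        group
      rw [(hD g hg _ (tK c)).2, isom_mul_apply, Hy.tor_perp c (WL (qW h)), RingHom.id_apply, ← map_smul,
        ← Eq g hg _ (W.smul_mem _ (qW h)), ← t2 _ (qW h), mul_assoc _ _ (x _), cx g hg, ← t1]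
      group) (fun φ hφ p1 p2 p3 v a h a0 => by
      have m1 : ∀ b a, S.eich e (b • e₁) a ∈ hφ.eqv h₀ := fun b a => by
        have hw := W.smul_mem b he₁
        refine ⟨⟨hE _ _ (Wq hw a), mem_stab_line.2 ⟨1, by simp [eich_apply_self]⟩⟩, ?_⟩
        rw [p1 _ _ (Wq hw a), sp hw, h₀ _ (b₀ b).1 _ (a₀ _ (xK a)).1, (b₀ b).2, (a₀ _ (xK a)).2, Ez]
        exact ⟨mul_mem (b₀ b).1 (a₀ _ (xK a)).1, rfl⟩
      have m2 : ∀ c, Hy.tor c ∈ hφ.eqv h₀ := fun c =>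
        ⟨(TL c).1, (a₀ _ (tK c)).1, by rw [p2 _ (TL c), (a₀ _ (tK c)).2, (βK _ (tK c)).2]⟩
      have m3 : ∀ b a, S.eich (b • e₁) 0 a ∈ hφ.eqv h₀ := fun b a => by
        rw [eich_smul (sec (by simp) _), smul_zero]
        have : ∀ a, S.eich e₁ 0 a ∈ S.fix (U ⊔ L) := fun a y hy => eich_apply_of_perp_perp (S.h_swap_zero (he₁ y hy)) (by simp)
        exact ⟨(gL _ (this _)).1, (c₀ _).1, by rw [p2 _ (gL _ (this _)), (c₀ _).2, (βG _ (this _)).2]⟩
      have key : ∀ b, Tri (S.fix U ⊓ S.stab (F ∙ e)) (Hy.swp 1) φ (β (Hy.swp 1)) (S.eich e (b • e₁) a) := fun b => by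
        have hw := W.smul_mem b he₁
        have t := Hy.tri_eq (sec (mW.1 hw).2.1 a) (mW.1 hw).2.2 a0
        rw [(qrefl_eq_eich (S := S) ⟨a0, trivial⟩ trivial).2, _root_.smul_smul, _root_.smul_smul, ← one_mul (Units.mk0 _ _),
          ← Hy.swp_mul_tor] at t
        have t' := conj_eich (Hy.swp 1) e (b • e₁) a
        rw [Hy.swp_e, Hy.swp_perp _ (WL hw), Units.val_one, one_smul, t, mul_inv_eq_iff_eq_mul] at t'
        have t'' := congrArg (· * Hy.swp 1) t'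
        simp only [mul_assoc, Hy.swp_mul_swp] at t''
        exact Tri.of_hom hφ h₀ (a₀ _ nK).1 (by rw [(a₀ _ nK).2, (βK _ nK).2]) (m1 b a) (inv_mem (m1 _ _))
          (mul_mem (m2 _) (mul_mem (m3 _ _) (mul_mem (inv_mem (m1 _ _)) (m2 _)))) (by simpa only [mul_assoc] using t'')
      refine ind (p := fun v => Tri _ _ φ _ (S.eich e v a)) (by simpa using key 0) (fun g hg => ?_) v (qW h)
      have c := (cG g hg _ nK).eq
      have := (key 1).mul hφ p3 (m1 1 a).1 (gL g hg).1 (by rw [← c, mul_inv_cancel_right]; exact (gL g hg).1)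
        (inv_mem (gL g hg).1) (by rw [mul_assoc, (cG g hg _ nK).inv_left.eq, inv_mul_cancel_left]; exact inv_mem (gL g hg).1)
      rwa [conj_eich, ge g hg, one_smul] at this)
  refine ⟨Φ, h1, fun g hg => by rw [h3 _ (gL g hg), (βG g hg).2], fun k hk => ?_, fun b => ?_⟩
  · refine (Hy.fix_perp_le hS (M := h1.eqv hψ) (fun a _ => ⟨fix_anti UL (xK a), xK a, ?_⟩)
      (fun c => ⟨fix_anti UL (tK c), tK c, by rw [h3 _ (TL c), (βK _ (tK c)).2]⟩) ⟨fix_anti UL nK, nK, by rw [h4, (βK _ nK).2]⟩ hk).2.2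
    rw [h2 _ _ (Wq W.zero_mem a), E0, one_mul]
  · rw [h2 _ _ (Wq (W.smul_mem b he₁) 0), Ez]; simp only [x, eich_zero, hψ.one, mul_one]

variable (S) in
/-- a hyperbolic basis -/
structure HB (n : ℕ) (e f : ℕ → V) : Prop where
  hyp : ∀ i < n, S.IsHyp (e i) (f i)
  ee : ∀ i < n, ∀ j < n, S.h (e i) (e j) = 0
  ff : ∀ i < n, ∀ j < n, S.h (f i) (f j) = 0
  ef : ∀ i < n, ∀ j < n, i ≠ j → S.h (e i) (f j) = 0
  span : ∀ x, (∀ i < n, S.h (e i) x = 0 ∧ S.h (f i) x = 0) → x = 0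

variable (F) in
def hbU (e f : ℕ → V) : ℕ → Submodule F V
  | 0 => ⊥
  | k + 1 => hbU e f k ⊔ Submodule.span F {e k, f k}

variable (S) in
def hbS (e f : ℕ → V) (j : ℕ) : Subgroup S.Isom := S.fix (S.perp (Submodule.span F {e j, f j}))

variable (S) in
def hbM (e : ℕ → V) (i : ℕ) : Subgroup S.Isom :=
  closure {g | (∃ b : F, g = S.eich (e i) (b • e (i + 1)) 0) ∨ (∃ a, g = S.eich (e i) 0 a) ∨ ∃ a, g = S.eich (e (i + 1)) 0 a}

variable {n : ℕ} {e f : ℕ → V}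

omit [FiniteDimensional F V] in
theorem mem_perp_hbU {x : V} {k : ℕ} : x ∈ S.perp (hbU F e f k) ↔ ∀ i < k, S.h (e i) x = 0 ∧ S.h (f i) x = 0 := by
  induction k with
  | zero => simp [hbU]
  | succ k ih => rw [hbU, perp_sup, Submodule.mem_inf, ih, mem_perp_pair, Nat.forall_lt_succ_right]

omit [FiniteDimensional F V] in
theorem mem_fix_hbU {g : S.Isom} {k : ℕ} : g ∈ S.fix (hbU F e f k) ↔ ∀ i < k, g.1 (e i) = e i ∧ g.1 (f i) = f i := by
  induction k with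
  | zero => simp [hbU, fix_bot]
  | succ k ih => rw [hbU, mem_fix_sup, ih, mem_fix_span, Nat.forall_lt_succ_right]; simp

namespace HB
variable (B : S.HB n e f)
include B

omit [FiniteDimensional F V] in
theorem fe {i j : ℕ} (hi : i < n) (hj : j < n) (h : i ≠ j) : S.h (f i) (e j) = 0 := S.h_swap_zero (B.ef j hj i hi h.symm)

omit [FiniteDimensional F V] in
theorem perpU {k j : ℕ} (h : k ≤ j) (hj : j < n) : e j ∈ S.perp (hbU F e f k) ∧ f j ∈ S.perp (hbU F e f k) := by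
  simp only [mem_perp_hbU]
  exact ⟨fun i hi => ⟨B.ee i (by omega) j hj, B.fe (by omega) hj (by omega)⟩,
    fun i hi => ⟨B.ef i (by omega) j hj (by omega), B.ff i (by omega) j hj⟩⟩

omit [FiniteDimensional F V] in
theorem nd {k : ℕ} (h : k ≤ n) : (S.restrict (hbU F e f k)).Nondeg := by
  induction k with
  | zero => exact fun x _ => Subsingleton.elim (α := (⊥ : Submodule F V)) x 0
  | succ k ih =>
    exact nondeg_sup (ih (by omega)) (B.hyp k h).nondeg (Submodule.span_le.2 (by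
      rintro _ (rfl | rfl); exacts [(B.perpU le_rfl h).1, (B.perpU le_rfl h).2]))

omit [FiniteDimensional F V] in
theorem ext {g g' : S.Isom} (h : ∀ i < n, g.1 (e i) = g'.1 (e i) ∧ g.1 (f i) = g'.1 (f i)) : g = g' := by
  refine isom_ext fun x => ?_
  have := B.span ((g⁻¹).1 (g'.1 x) - x) fun i hi => by
    simp only [map_sub, isom_h_right, inv_inv, (h i hi).1, (h i hi).2, isom_inv_apply_self, sub_self, and_self]
  rw [← sub_eq_zero.1 this, isom_apply_inv_self, sub_eq_zero.1 this]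

omit [FiniteDimensional F V] in
theorem mem_S {j : ℕ} (hj : j < n) {g : S.Isom} : g ∈ S.hbS e f j ↔ ∀ k < n, k ≠ j → g.1 (e k) = e k ∧ g.1 (f k) = f k := by
  refine ⟨fun h k hk hkj => ⟨h _ (S.mem_perp_pair.2 ⟨B.ee j hj k hk, B.fe hj hk hkj.symm⟩),
    h _ (S.mem_perp_pair.2 ⟨B.ef j hj k hk hkj.symm, B.ff j hj k hk⟩)⟩, fun h x hx => ?_⟩
  have inv : ∀ {y}, g.1 y = y → (g⁻¹).1 y = y := fun h => by rw [← h, isom_inv_apply_self, h]
  have key : ∀ y, (∀ k < n, k ≠ j → S.h (e k) y = 0 ∧ S.h (f k) y = 0) → S.h (g.1 y) x = 0 ∧ S.h y x = 0 := by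
    have : ∀ y, (∀ k < n, k ≠ j → S.h (e k) y = 0 ∧ S.h (f k) y = 0) → S.h y x = 0 := fun y hy => by
      have := B.span _ fun k hk => show S.h (e k) (y - ((sympP F).ε * S.h (f j) y) • e j - S.h (e j) y • f j) = 0 ∧ _ from by
        by_cases hkj : k = j
        · subst hkj; exact S.mem_perp_pair.1 ((B.hyp k hk).sub_mem_perp y)
        · simp [hy k hk hkj, B.ee k hk j hj, B.ff k hk j hj, B.ef k hk j hj hkj, B.fe hk hj hkj]
      rw [sub_sub, sub_eq_zero] at this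
      rw [this]; simp [S.mem_perp_pair.1 hx]
    exact fun y hy => ⟨this _ fun k hk hkj => by
      rw [isom_h_right, isom_h_right, inv (h k hk hkj).1, inv (h k hk hkj).2]; exact hy k hk hkj, this y hy⟩
  have := B.span ((g⁻¹).1 x - x) fun k hk => by
    simp only [map_sub, isom_h_right, inv_inv]
    by_cases hkj : k = j
    · subst hkj
      have h1 := key (e k) fun i hi hik => ⟨B.ee i hi k hk, B.fe hi hk hik⟩
      have h2 := key (f k) fun i hi hik => ⟨B.ef i hi k hk hik, B.ff i hi k hk⟩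
      simp [h1, h2]
    · simp [h k hk hkj]
  rw [← sub_eq_zero.1 this, isom_apply_inv_self, sub_eq_zero.1 this]

omit [FiniteDimensional F V] in
theorem S_le {j k : ℕ} (h : k ≤ j) (hj : j < n) : S.hbS e f j ≤ S.fix (hbU F e f k) := fun _ hg =>
  mem_fix_hbU.2 fun i hi => (B.mem_S hj).1 hg i (by omega) (by omega)

omit [FiniteDimensional F V] in
theorem last {k : ℕ} (h : k + 1 = n) : S.fix (hbU F e f k) ≤ S.hbS e f k := fun _ hg =>
  (B.mem_S (by omega)).2 fun i hi hik => mem_fix_hbU.1 hg i (by omega)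

omit [FiniteDimensional F V] in
theorem mem_M {i : ℕ} (hi : i + 1 < n) {g : S.Isom} :
    g ∈ S.hbM e i ↔ (∀ k < n, g.1 (e k) = e k) ∧ ∀ k < n, k ≠ i → k ≠ i + 1 → g.1 (f k) = f k := by
  have h0 : i < n := by omega
  have c : ∀ b : F, S.h (e i) (b • e (i + 1)) = 0 := fun b => by simp [B.ee i h0 _ hi]
  constructor
  · intro h
    induction h using closure_induction with
    | mem g h =>
      rcases h with ⟨b, rfl⟩ | ⟨b, rfl⟩ | ⟨b, rfl⟩ <;>
        refine ⟨fun k hk => eich_apply_of_perp_perp ?_ ?_, fun k hk h1 h2 => eich_apply_of_perp_perp ?_ ?_⟩ <;>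
        first | simp [B.ee _ h0 _ hk, B.ee _ hi _ hk]; done | simp [B.ef _ h0 _ hk h1.symm, B.ef _ hi _ hk h2.symm]
    | one => simp
    | mul a b _ _ ha hb => exact ⟨fun k hk => by simp [ha.1 k hk, hb.1 k hk], fun k hk h1 h2 => by simp [ha.2 k hk h1 h2, hb.2 k hk h1 h2]⟩
    | inv g _ h =>
      have inv : ∀ {y}, g.1 y = y → (g⁻¹).1 y = y := fun h => by rw [← h, isom_inv_apply_self, h]
      exact ⟨fun k hk => inv (h.1 k hk), fun k hk h1 h2 => inv (h.2 k hk h1 h2)⟩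
  · rintro ⟨h1, h2⟩
    have fx : ∀ {y}, g.1 y = y → ∀ x, S.h y (g.1 x) = S.h y x := fun h x => by rw [← isom_h g _ x, h]
    have key : ∀ y, g.1 y = y + (S.h (f i) y - S.h (f i) (g.1 y)) • e i + (S.h (f (i + 1)) y - S.h (f (i + 1)) (g.1 y)) • e (i + 1) := by
      intro y
      refine sub_eq_zero.1 (B.span _ fun k hk => ⟨?_, ?_⟩)
      · simp [fx (h1 k hk), B.ee k hk _ h0, B.ee k hk _ hi]
      · by_cases a1 : k = i
        · subst a1; simp [(B.hyp k hk).h_fe, B.fe hk hi (by omega)]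
        by_cases a2 : k = i + 1
        · subst a2; simp [(B.hyp _ hk).h_fe, B.fe hk h0 a1]
        · simp [fx (h2 k hk a1 a2), B.fe hk h0 a1, B.fe hk hi a2]
    have k1 := key (f i)
    have k2 := key (f (i + 1))
    rw [B.ff _ h0 _ h0, B.ff _ hi _ h0] at k1
    rw [B.ff _ h0 _ hi, B.ff _ hi _ hi] at k2
    have k3 := isom_h g (f i) (f (i + 1))
    generalize 0 - S.h (f i) (g.1 (f i)) = a at k1
    generalize 0 - S.h (f (i + 1)) (g.1 (f i)) = b at k1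
    generalize 0 - S.h (f i) (g.1 (f (i + 1))) = b' at k2
    generalize 0 - S.h (f (i + 1)) (g.1 (f (i + 1))) = d at k2
    have o1 := B.fe h0 hi (by omega)
    have o2 := B.ef _ h0 _ hi (by omega)
    have o3 := B.fe hi h0 (by omega)
    have o4 := B.ef _ hi _ h0 (by omega)
    rw [k1, k2] at k3
    simp [B.ff _ h0 _ hi, B.ee _ h0 _ hi, B.ee _ hi _ h0, B.ee _ h0 _ h0, B.ee _ hi _ hi, o1, o2, o3, o4, (B.hyp _ h0).h_fe,
      (B.hyp _ hi).h_ef] at k3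
    obtain rfl : b' = b := by linear_combination -k3
    have : g = S.eich (e i) (b' • e (i + 1)) 0 * S.eich (e i) 0 a * S.eich (e (i + 1)) 0 d := B.ext fun k hk => by
      simp only [isom_mul_apply, eich_apply (sec (c _) _), symp_transv_apply]
      refine ⟨by simp [h1 k hk, B.ee _ h0 _ hk, B.ee _ hi _ hk], ?_⟩
      by_cases a1 : k = i
      · subst a1; simp [k1, o4, (B.hyp k hk).h_ef, B.ee _ h0 _ h0, B.ee _ hi _ h0]
      by_cases a2 : k = i + 1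
      · subst a2; simp [k2, o2, (B.hyp _ hk).h_ef, B.ee _ h0 _ hi, B.ee _ hi _ hi]; abel
      · simp [h2 k hk a1 a2, B.ef _ h0 _ hk (Ne.symm a1), B.ef _ hi _ hk (Ne.symm a2)]
    rw [this]
    exact mul_mem (mul_mem (subset_closure (.inl ⟨_, rfl⟩)) (subset_closure (.inr (.inl ⟨_, rfl⟩)))) (subset_closure (.inr (.inr ⟨_, rfl⟩)))

theorem Q_le (hS : S.Nondeg) {k : ℕ} (hk : k < n) {M : Subgroup S.Isom} (h1 : S.fix (hbU F e f (k + 1)) ≤ M)
    (h2 : ∀ a, S.eich (e k) 0 a ∈ M) (h3 : k + 1 < n → S.eich (e k) (e (k + 1)) 0 ∈ M) {v : V} {a : F}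
    (h : S.QP (S.perp (hbU F e f k)) (e k) (f k) v a) : S.eich (e k) v a ∈ M := by
  have hv : v ∈ S.perp (hbU F e f (k + 1)) := by
    rw [hbU, perp_sup]; exact ⟨h.mem, S.mem_perp_pair.2 ⟨h.ec.perp, h.hf⟩⟩
  rcases eq_or_ne v 0 with rfl | v0
  · exact h2 a
  have hk' : k + 1 < n := by
    by_contra hn
    exact v0 (B.span v fun i hi => mem_perp_hbU.1 hv i (by omega))
  obtain ⟨g, hg, rfl⟩ := sp_move hS (B.nd hk) (B.perpU le_rfl hk').1 hv (B.hyp _ hk').e_ne v0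
  have := mul_mem (mul_mem (mul_mem (h1 hg) (h3 hk')) (inv_mem (h1 hg))) (h2 a)
  rw [conj_eich, (mem_fix_hbU.1 hg k (by omega)).1, eich_mul (sec h.ec.perp _) (sec (by simp) _)] at this
  simpa using this

omit [FiniteDimensional F V] in
theorem x_mem_S (j : ℕ) (a : F) : S.eich (e j) 0 a ∈ S.hbS e f j :=
  fun _ hx => eich_apply_of_perp_perp (S.mem_perp_pair.1 hx).1 (by simp)

theorem gen (hF : ∃ a : F, a ≠ 0 ∧ a ≠ 1) (hS : S.Nondeg) {M : Subgroup S.Isom} (d : ℕ) : ∀ k, k + d + 1 = n →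
    (∀ j < n, k ≤ j → S.hbS e f j ≤ M) → (∀ i, i + 1 < n → k ≤ i → S.eich (e i) (e (i + 1)) 0 ∈ M) → S.fix (hbU F e f k) ≤ M := by
  induction d with
  | zero => exact fun k hk h1 _ => (B.last hk).trans (h1 k (by omega) le_rfl)
  | succ d ih =>
    intro k hk h1 h2
    have h0 : k < n := by omega
    have h3 := ih (k + 1) (by omega) (fun j hj h => h1 j hj (by omega)) fun j hj h => h2 j hj (by omega)
    have Hy := B.hyp k h0
    have nK : Hy.swp 1 ∈ S.hbS e f k := Hy.Mon_le_fix (Hy.swp_mem_Mon 1)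
    refine Hy.geo_gen (Opp.of_big (symp_big hF) (hS.restrict_perp (B.nd h0.le))) (B.perpU le_rfl h0).1 (B.perpU le_rfl h0).2
      (fun g hg v hv => (stab_le_stab_perp _ (fix_le_stab _ hg) _).1 hv) (fun v a h => ⟨fun y hy =>
        eich_apply_of_perp_perp (S.h_swap_zero ((B.perpU le_rfl h0).1 y hy)) (S.h_swap_zero (h.mem y hy)),
        B.Q_le hS h0 h3 (fun a => h1 k h0 le_rfl (B.x_mem_S k a)) (fun h => h2 k h le_rfl) h⟩)
      ⟨B.S_le le_rfl h0 nK, h1 k h0 le_rfl nK⟩ (Hy.swp_e 1) ?_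
    rintro l ⟨⟨hl, a1⟩, a2⟩
    obtain ⟨t, a1⟩ := mem_stab_line.1 a1
    obtain ⟨s, a2⟩ := mem_stab_line.1 a2
    obtain ⟨c, -, h⟩ := Hy.exists_tor a1 a2
    have tK : Hy.tor c ∈ S.hbS e f k := Hy.Mon_le_fix (Hy.tor_mem_Mon c)
    simpa using mul_mem (h1 k h0 le_rfl tK) (h3 (mem_fix_sup.2 ⟨mul_mem (inv_mem (B.S_le le_rfl h0 tK)) hl, h⟩))

theorem comm_S {i j : ℕ} (hS : S.Nondeg) (hi : i < n) (hj : j < n) (h : i ≠ j) {a b : S.Isom} (ha : a ∈ S.hbS e f i) (hb : b ∈ S.hbS e f j) :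
    Commute a b := by
  refine commute_fix_perp hS (B.hyp j hj).nondeg (mem_fix_span.2 ?_) hb
  rintro _ (rfl | rfl)
  exacts [((B.mem_S hi).1 ha j hj h.symm).1, ((B.mem_S hi).1 ha j hj h.symm).2]

omit [FiniteDimensional F V] in
theorem comm_z {i : ℕ} {a : S.Isom} (h1 : a.1 (e i) = e i) (h2 : a.1 (e (i + 1)) = e (i + 1)) (b : F) :
    Commute a (S.eich (e i) (b • e (i + 1)) 0) := by
  rw [Commute, SemiconjBy, ← mul_inv_eq_iff_eq_mul, conj_eich, h1, map_smul, h2]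

theorem amalgam (hF : ∃ a : F, a ≠ 0 ∧ a ≠ 1) (hS : S.Nondeg) {σ μ : ℕ → S.Isom → H} (hσ : ∀ j < n, HomOn (S.hbS e f j) (σ j))
    (hμ : ∀ i, i + 1 < n → HomOn (S.hbM e i) (μ i))
    (hSS : ∀ j < n, ∀ l < n, j ≠ l → Cpt (S.hbS e f j) (σ j) (S.hbS e f l) (σ l))
    (hMM : ∀ i j, i + 1 < n → j + 1 < n → i ≠ j → Cpt (S.hbM e i) (μ i) (S.hbM e j) (μ j))
    (hMS : ∀ i, i + 1 < n → ∀ j < n, Cpt (S.hbM e i) (μ i) (S.hbS e f j) (σ j)) (d : ℕ) : ∀ k, k + d + 1 = n →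
    ∃ Φ, HomOn (S.fix (hbU F e f k)) Φ ∧ (∀ j < n, k ≤ j → ∀ g ∈ S.hbS e f j, Φ g = σ j g) ∧
      ∀ i, i + 1 < n → k ≤ i → ∀ g ∈ S.hbM e i, Φ g = μ i g := by
  have z1 : ∀ i (b : F), S.eich (e i) (b • e (i + 1)) 0 ∈ S.hbM e i := fun i b => subset_closure (.inl ⟨_, rfl⟩)
  have z2 : ∀ i (b : F), S.eich (e i) 0 b ∈ S.hbM e i := fun i b => subset_closure (.inr (.inl ⟨_, rfl⟩))
  have z3 : ∀ i (b : F), S.eich (e (i + 1)) 0 b ∈ S.hbM e i := fun i b => subset_closure (.inr (.inr ⟨_, rfl⟩))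
  have z4 : ∀ i, S.eich (e i) (e (i + 1)) 0 ∈ S.hbM e i := fun i => by simpa using z1 i 1
  have Mle : ∀ i k, i + 1 < n → k ≤ i → S.hbM e i ≤ S.fix (hbU F e f k) := fun i k hi h g hg => mem_fix_hbU.2 fun j hj =>
    ⟨((B.mem_M hi).1 hg).1 j (by omega), ((B.mem_M hi).1 hg).2 j (by omega) (by omega) (by omega)⟩
  induction d with
  | zero =>
    refine fun k hk => ⟨σ k, (hσ k (by omega)).mono (B.last hk), fun j hj h g hg => ?_, fun i hi h => by omega⟩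
    obtain rfl : j = k := by omega
    rfl
  | succ d ih =>
    intro k hk
    obtain ⟨Φ', hΦ, p1, p2⟩ := ih (k + 1) (by omega)
    have h0 : k < n := by omega
    have h1 : k + 1 < n := by omega
    obtain ⟨A₀, Ψ₀, q0, q1, q2, q3, q4⟩ := hMS k h1 k h0
    obtain ⟨A₁, Ψ₁, r0, r1, r2, r3, r4⟩ := hMS k h1 (k + 1) h1
    have hz : ∀ g ∈ S.fix (hbU F e f (k + 1)), g.1 (e (k + 1)) = e (k + 1) →
        Commute (Φ' g) (μ k (S.eich (e k) ((1 : F) • e (k + 1)) 0)) := by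
      intro g hg hge
      have cM : ∀ i, i + 1 < n → k + 1 ≤ i → S.eich (e i) (e (i + 1)) 0 ∈ hΦ.cen (μ k (S.eich (e k) ((1 : F) • e (k + 1)) 0)) :=
        fun i hi h => ⟨Mle i _ hi h (z4 i), by
          rw [p2 i hi h _ (z4 i)]
          exact (hMM i k hi h1 (by omega)).comm (z4 i) (z1 k 1)
            (B.comm_z (((B.mem_M hi).1 (z4 i)).1 _ h0) (((B.mem_M hi).1 (z4 i)).1 _ h1) 1)⟩
      have cG : S.fix (hbU F e f (k + 1 + 1)) ≤ hΦ.cen (μ k (S.eich (e k) ((1 : F) • e (k + 1)) 0)) := by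
        rcases d with _ | d
        · intro g hg
          rw [B.ext (g := g) (g' := 1) fun i hi => mem_fix_hbU.1 hg i (by omega)]
          exact one_mem _
        refine B.gen hF hS d _ (by omega) (fun j hj h a ha => ⟨B.S_le (by omega) hj ha, ?_⟩) fun i hi h => cM i hi (by omega)
        rw [p1 j hj (by omega) a ha]
        exact ((hMS k h1 j hj).comm (z1 k 1) ha
          (B.comm_z ((B.mem_S hj).1 ha _ h0 (by omega)).1 ((B.mem_S hj).1 ha _ h1 (by omega)).1 1).symm).symm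
      obtain ⟨v, a, h, s, a1, a2⟩ := (B.hyp _ h1).exists_P (B.perpU le_rfl h1).1 (B.perpU le_rfl h1).2
        ((stab_le_stab_perp _ (fix_le_stab _ hg) _).1 (B.perpU le_rfl h1).2) (hge.trans (one_smul F _).symm)
      obtain ⟨c, hc, a3⟩ := (B.hyp _ h1).exists_tor a1 a2
      obtain rfl : c = 1 := Units.ext hc
      have m := B.Q_le hS h1 cG (fun a => ⟨B.S_le le_rfl h1 (B.x_mem_S _ a), by
        rw [p1 _ h1 le_rfl _ (B.x_mem_S _ a), ← (hMS k h1 _ h1).eq (z3 k a) (B.x_mem_S _ a)]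
        exact (hμ k h1).comm (z3 k a) (z1 k 1) (B.comm_z (((B.mem_M h1).1 (z3 k a)).1 _ h0) (eich_apply_self _ _ _) 1)⟩)
        (fun h => cM _ h le_rfl) h
      rw [map_one, inv_one, one_mul] at a3
      have := mul_mem m (cG (mem_fix_sup.2 ⟨mul_mem (inv_mem m.1) hg, a3⟩))
      rw [mul_inv_cancel_left] at this
      exact this.2
    obtain ⟨Φ, c1, c2, c3, c4⟩ := sp_step hF hS (B.nd h0.le) (B.hyp k h0) (B.hyp _ h1) (B.perpU le_rfl h0).1 (B.perpU le_rfl h0).2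
      (B.perpU le_rfl h1).1 (B.perpU le_rfl h1).2 (z := fun b => μ k (S.eich (e k) (b • e (k + 1)) 0)) hΦ (hσ k h0)
      (fun g hg y hy => (B.gen hF hS (M := hΦ.cen (σ k y)) d (k + 1) (by omega) (fun j hj h a ha => ⟨B.S_le h hj ha, by
        rw [p1 j hj h a ha]; exact (hSS j hj k h0 (by omega)).comm ha hy (B.comm_S hS hj h0 (by omega) ha hy)⟩) (fun i hi h =>
        ⟨Mle i _ hi h (z4 i), by
          rw [p2 i hi h _ (z4 i)]
          refine (hMS i hi k h0).comm (z4 i) hy ?_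
          simpa using (B.comm_z ((B.mem_S h0).1 hy i (by omega) (by omega)).1 ((B.mem_S h0).1 hy _ hi (by omega)).1 1).symm⟩) hg).2)
      hz q0 (fun y hy => ⟨q2 hy, q4 y hy⟩) (fun b => ⟨q1 (z1 k b), q3 _ (z1 k b)⟩)
      (fun a => ⟨q1 (z3 k a), by
        rw [q3 _ (z3 k a), p1 _ h1 le_rfl _ (B.x_mem_S _ a), (hMS k h1 _ h1).eq (z3 k a) (B.x_mem_S _ a)]⟩)
      r0 (fun y hy => ⟨r2 hy, by rw [r4 y hy, p1 _ h1 le_rfl y hy]⟩) (fun b => ⟨r1 (z1 k b), r3 _ (z1 k b)⟩)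
      (fun a => ⟨r1 (z2 k a), by rw [r3 _ (z2 k a), (hMS k h1 _ h0).eq (z2 k a) (B.x_mem_S _ a)]⟩)
    · refine ⟨Φ, c1, fun j hj h g hg => ?_, fun i hi h g hg => ?_⟩
      · rcases h.eq_or_lt with rfl | h
        · exact c3 g hg
        · rw [c2 g (B.S_le h hj hg), p1 j hj h g hg]
      · rcases h.eq_or_lt with rfl | h
        · refine ((closure_le (c1.eqv (hμ k hi))).2 ?_ hg).2.2
          rintro _ (⟨b, rfl⟩ | ⟨b, rfl⟩ | ⟨b, rfl⟩)
          · exact ⟨Mle _ _ hi le_rfl (z1 k b), z1 k b, c4 b⟩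
          · exact ⟨Mle _ _ hi le_rfl (z2 k b), z2 k b, by rw [c3 _ (B.x_mem_S _ b), (hMS k h1 _ h0).eq (z2 k b) (B.x_mem_S _ b)]⟩
          · exact ⟨Mle _ _ hi le_rfl (z3 k b), z3 k b, by
              rw [c2 _ (B.S_le le_rfl h1 (B.x_mem_S _ b)), p1 _ h1 le_rfl _ (B.x_mem_S _ b), (hMS k h1 _ h1).eq (z3 k b) (B.x_mem_S _ b)]⟩
        · rw [c2 g (Mle i _ hi h hg), p2 i hi h g hg]

end HB
end PForm
end H11
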