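import Cfsg.Agent.H4.Sq1

/-! Piece `PE` of the recognition of `Sz(q) × Sz(q)` by its spectrum: a group lying between `S × S'` and
`Aut S × Aut S'` with the spectrum of `Sz(q) × Sz(q)` (`q ≠ 32`) is `S × S'`, and `S' = Sz(q)`. -/
set_option autoImplicit false
namespace H11.SqE
open Cfsg H13.Sz Function H4.Sq
universe u

section
variable {F : Type} [Field F] [Fintype F] {m : ℕ} [hF : IsSz F m]

theorem conj_inj : Injective (MulAut.conj : Cfsg.Sz F m →* MulAut (Cfsg.Sz F m)) := by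
  rw [injective_iff_map_eq_one]
  intro a ha
  rcases (isSimpleGroup (F := F) (m := m)).eq_bot_or_eq_top_of_normal (Subgroup.center _) inferInstance with h | h
  · have : a ∈ Subgroup.center (Cfsg.Sz F m) := by
      rw [Subgroup.mem_center_iff]
      intro g
      have := congrArg (fun β : MulAut _ => β g) ha
      simp only [MulAut.conj_apply, MulAut.one_apply] at this
      rw [mul_inv_eq_iff_eq_mul] at this
      exact this.symm
    rwa [h, Subgroup.mem_bot] at this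
  · exfalso
    obtain ⟨s, hs⟩ := exists_unit_ne_one (F := F) (m := m)
    have h1 : w F m ∈ Subgroup.center (Cfsg.Sz F m) := h ▸ Subgroup.mem_top _
    have h2 := Subgroup.mem_center_iff.1 h1 (H13.Sz.h m s)
    rw [w_mul_h, mul_left_inj] at h2
    have h3 := h_injective h2
    exact hs (unit_eq_one_of_mul_self (m := m) (by rw [← mul_inv_cancel s, ← h3]))

theorem aut_pow (σ : F ≃+* F) : σ ^ (2 * m + 1) = 1 := by
  rw [← H25.card_ringAut hF.card]
  exact pow_card_eq_one'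

theorem pow_form (a : Cfsg.Sz F m) (β : MulAut (Cfsg.Sz F m)) (k : ℕ) :
    ∃ b, (MulAut.conj a * β) ^ k = MulAut.conj b * β ^ k := by
  induction k with
  | zero => exact ⟨1, by simp⟩
  | succ k ih =>
    obtain ⟨b, hb⟩ := ih
    refine ⟨b * (β ^ k) a, ?_⟩
    rw [pow_succ, hb, pow_succ]
    ext1 g
    simp [mul_assoc]

theorem pow_inner (α : MulAut (Cfsg.Sz F m)) {k : ℕ} (hk : 2 * m + 1 ∣ k) : ∃ s, α ^ k = MulAut.conj s := by
  obtain ⟨a, σ, rfl⟩ := exists_conj_mul_fAut α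
  obtain ⟨b, hb⟩ := pow_form a (fAut F m σ) k
  obtain ⟨c, rfl⟩ := hk
  exact ⟨b, by rw [hb, ← map_pow, pow_mul, aut_pow, one_pow, map_one, mul_one]⟩

theorem ord_le (x : Cfsg.Sz F m) : orderOf x ≤ cm m 2 := by
  obtain ⟨i, hi⟩ := ord_dvd x
  have h1 := cm_r_le (m := m)
  have h2 : 2 ^ 2 ≤ 2 ^ (m + 1) := Nat.pow_le_pow_right two_pos (by have := hF.hm; omega)
  have h3 : 2 * 2 ^ (m + 1) ≤ 2 ^ (2 * m + 1) := by
    rw [← pow_succ']; exact Nat.pow_le_pow_right two_pos (by have := hF.hm; omega)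
  have : 0 < cm m i ∧ cm m i ≤ cm m 2 := by
    fin_cases i
    · show 0 < cm m 0 ∧ cm m 0 ≤ _; rw [cm0, cm2]; omega
    · show 0 < cm m 1 ∧ cm m 1 ≤ _; rw [cm1, cm2]; omega
    · show 0 < cm m 2 ∧ cm m 2 ≤ _; rw [cm2]; omega
    · show 0 < cm m 3 ∧ cm m 3 ≤ _; rw [cm3, cm2]; omega
  exact (Nat.le_of_dvd this.1 hi).trans this.2

theorem split {σ : F ≃+* F} {x : Cfsg.Sz F m} (hx : fAut F m σ x = x) {k : ℕ}
    (h : (fAut F m σ * MulAut.conj x) ^ k = 1) : orderOf σ ∣ k ∧ orderOf x ∣ k := by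
  have c : Commute (fAut F m σ) (MulAut.conj x) := by
    ext1 g
    simp [hx]
  rw [c.mul_pow, ← map_pow, ← map_pow, mul_eq_one_iff_eq_inv, ← map_inv] at h
  have h1 := eq_one_of_fAut_eq_conj h
  rw [h1, map_one, eq_comm, map_eq_one_iff _ conj_inj, inv_eq_one] at h
  exact ⟨orderOf_dvd_of_pow_eq_one h1, orderOf_dvd_of_pow_eq_one h⟩

theorem five : orderOf (w F m * u m (0 : F) 1) = 5 := by
  haveI : Fact (Nat.Prime 5) := ⟨Nat.prime_five⟩
  have two : (2 : F) = 0 := CharTwo.two_eq_zero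
  have e : mat (w F m * u m (0 : F) 1) = !![0, 0, 0, 1; 0, 0, 1, 0; 0, 1, 0, 1; 1, 0, 1, 1] := by
    rw [mat_mul, mat_w, mat_u]
    simp [Cfsg.suzukiForm, uMat, nf]
  refine orderOf_eq_prime ?_ ?_
  · apply mat_injective
    rw [show ∀ x : Cfsg.Sz F m, x ^ 5 = x * x * x * x * x from fun x => by simp [pow_succ]]
    simp only [mat_mul _ (w F m * u m (0 : F) 1), e, mat_one]
    simp [CharTwo.add_self_eq_zero]
    ext i j
    fin_cases i <;> fin_cases j <;> simp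
  · intro h
    rw [h, mat_one] at e
    simpa using congrFun (congrFun e 0) 0

theorem exists_fixed {σ : F ≃+* F} (h : orderOf σ ≠ 2 * m + 1) : ∃ l : Fˣ, l ≠ 1 ∧ σ l = l := by
  by_contra hn
  push_neg at hn
  classical
  haveI : Finite (F ≃+* F) := Finite.of_injective (fun σ : F ≃+* F => (σ : F → F)) DFunLike.coe_injective
  letI : Fintype (F ≃+* F) := Fintype.ofFinite _
  let K := FixedPoints.subfield (Subgroup.zpowers σ) F
  have h1 : Module.finrank K F = Fintype.card (Subgroup.zpowers σ) := FixedPoints.finrank_eq_card _ _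
  have h2 : Fintype.card F = Fintype.card K ^ Module.finrank K F := Module.card_eq_pow_finrank
  have h3 : Fintype.card K = 2 := by
    rw [← Finset.card_univ, Finset.card_eq_two]
    refine ⟨0, 1, zero_ne_one, ?_⟩
    ext x
    simp only [Finset.mem_univ, Finset.mem_insert, Finset.mem_singleton, true_iff]
    by_contra hx
    push_neg at hx
    have x0 : (x : F) ≠ 0 := fun e => hx.1 (Subtype.ext e)
    refine hn (Units.mk0 x x0) (fun e => hx.2 (Subtype.ext (congrArg Units.val e))) ?_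
    exact x.2 ⟨σ, Subgroup.mem_zpowers σ⟩
  rw [h1, h3, Fintype.card_zpowers, hF.card] at h2
  exact h (Nat.pow_right_injective le_rfl h2).symm

end

variable {F F' : Type} [Field F] [Fintype F] [Field F'] [Fintype F'] {m m' : ℕ} [hF : IsSz F m]
  {G : Type u} [Group G] [Finite G]

theorem m_eq [hF' : IsSz F' m'] (full : Full m G) (d : 2 * m' + 1 ∣ 2 * m + 1)
    (φ : G →* MulAut (Cfsg.Sz F m)) (ψ : G →* MulAut (Cfsg.Sz F' m')) (k : φ.ker ⊓ ψ.ker = ⊥) : m' = m := by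
  by_contra ne
  obtain ⟨g, hg⟩ := full 2 3 (by decide)
  obtain ⟨s, hs⟩ := pow_inner (φ g) dvd_rfl
  obtain ⟨t, ht⟩ := pow_inner (ψ g) d
  have e : g ^ ((2 * m + 1) * (orderOf s * orderOf t)) ∈ φ.ker ⊓ ψ.ker := by
    refine Subgroup.mem_inf.2 ⟨?_, ?_⟩
    · rw [MonoidHom.mem_ker, map_pow, pow_mul, hs, ← map_pow, pow_mul, pow_orderOf_eq_one,
        one_pow, map_one]
    · rw [MonoidHom.mem_ker, map_pow, pow_mul, ht, ← map_pow, mul_comm (orderOf s), pow_mul,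
        pow_orderOf_eq_one, one_pow, map_one]
  rw [k, Subgroup.mem_bot] at e
  have b := Nat.le_of_dvd (Nat.mul_pos (by omega) (Nat.mul_pos (orderOf_pos s) (orderOf_pos t)))
    (orderOf_dvd_of_pow_eq_one e)
  have b2 : cm m 2 * cm m 3 ≤ cm m 2 * ((2 * m + 1) * cm m' 2) := by
    rw [← hg]
    refine b.trans ?_
    rw [mul_left_comm]
    exact Nat.mul_le_mul (ord_le s) (Nat.mul_le_mul_left _ (ord_le t))
  have b3 := Nat.le_of_mul_le_mul_left b2 (by rw [cm2]; positivity)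
  obtain ⟨c, hc⟩ := d
  have hm' := hF'.hm
  have c3 : 3 ≤ c := by
    by_contra hc3
    have : c = 0 ∨ c = 1 ∨ c = 2 := by omega
    rcases this with rfl | rfl | rfl <;> omega
  have n3 : (2 * m' + 1) * 3 ≤ 2 * m + 1 := hc ▸ Nat.mul_le_mul_left _ c3
  obtain ⟨e, he⟩ : ∃ e, 2 * m + 1 = (2 * m' + 1) + e + 4 := ⟨2 * m + 1 - (2 * m' + 1) - 4, by omega⟩
  have l1 : cm m' 2 ≤ 2 * 2 ^ (2 * m' + 1) := by
    have h3 : 2 * 2 ^ (m' + 1) ≤ 2 ^ (2 * m' + 1) := by
      rw [← pow_succ']; exact Nat.pow_le_pow_right two_pos (by omega)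
    have : 0 < 2 ^ (m' + 1) := by positivity
    rw [cm2]; omega
  have l2 : 2 ^ (2 * m + 1) < 2 * cm m 3 := by
    have h3 : 2 * 2 ^ (m + 1) ≤ 2 ^ (2 * m + 1) := by
      rw [← pow_succ']; exact Nat.pow_le_pow_right two_pos (by omega)
    rw [cm3]; omega
  have l3 : e + 1 ≤ 2 ^ e := Nat.lt_two_pow_self
  have l4 : 2 * m + 1 ≤ 4 * 2 ^ e := by omega
  have l5 : (2 * m + 1) * cm m' 2 ≤ (4 * 2 ^ e) * (2 * 2 ^ (2 * m' + 1)) := Nat.mul_le_mul l4 l1
  have l6 : 2 ^ (2 * m + 1) = 2 * ((4 * 2 ^ e) * (2 * 2 ^ (2 * m' + 1))) := by rw [he]; ring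
  omega

theorem inner [hF' : IsSz F' m] (m2 : m ≠ 2) (ok : Ok m G)
    (φ : G →* MulAut (Cfsg.Sz F m)) (ψ : G →* MulAut (Cfsg.Sz F' m))
    (sj : ∀ s t, ∃ g, φ g = MulAut.conj s ∧ ψ g = MulAut.conj t) (g : G) : ∃ s, φ g = MulAut.conj s := by
  obtain ⟨a, σ, ha⟩ := exists_conj_mul_fAut (φ g)
  obtain ⟨b, τ, hb⟩ := exists_conj_mul_fAut (ψ g)
  by_cases h1 : σ = 1
  · exact ⟨a, by rw [ha, h1, map_one, mul_one]⟩
  exfalso
  obtain ⟨g0, a0, b0⟩ := sj a b
  haveI : Finite (F ≃+* F) := Finite.of_injective (fun σ : F ≃+* F => (σ : F → F)) DFunLike.coe_injective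
  obtain ⟨s, sp, c, hc⟩ := Nat.exists_prime_and_dvd (mt orderOf_eq_one_iff.1 h1)
  have c0 : c ≠ 0 := by
    rintro rfl
    exact (orderOf_pos σ).ne' (by simpa using hc)
  have os : orderOf (σ ^ c) = s := by
    rw [orderOf_pow_of_dvd c0 (hc ▸ dvd_mul_left _ _), hc, Nat.mul_div_cancel _ (Nat.pos_of_ne_zero c0)]
  have sN : s ∣ 2 * m + 1 := os ▸ orderOf_dvd_of_pow_eq_one (aut_pow _)
  have e1 : φ ((g0⁻¹ * g) ^ c) = fAut F m (σ ^ c) := by
    rw [map_pow, map_mul, map_inv, a0, ha, inv_mul_cancel_left, map_pow]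
  have e2 : ψ ((g0⁻¹ * g) ^ c) = fAut F' m (τ ^ c) := by
    rw [map_pow, map_mul, map_inv, b0, hb, inv_mul_cancel_left, map_pow]
  have key : ∀ x y, fAut F m (σ ^ c) x = x → fAut F' m (τ ^ c) y = y →
      ∃ z : G, s ∣ orderOf z ∧ orderOf x ∣ orderOf z ∧ orderOf y ∣ orderOf z := by
    intro x y hx hy
    obtain ⟨g1, a1, b1⟩ := sj x y
    refine ⟨(g0⁻¹ * g) ^ c * g1, ?_⟩
    have p1 := split hx (k := orderOf ((g0⁻¹ * g) ^ c * g1))
      (by rw [← e1, ← a1, ← map_mul, ← map_pow, pow_orderOf_eq_one, map_one])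
    have p2 := split hy (k := orderOf ((g0⁻¹ * g) ^ c * g1))
      (by rw [← e2, ← b1, ← map_mul, ← map_pow, pow_orderOf_eq_one, map_one])
    exact ⟨os ▸ p1.1, p1.2, p2.2⟩
  have t0 : 2 ∣ cm m 0 := by rw [cm0]; decide
  obtain ⟨j, j0, j1, hj⟩ : ∃ j : Fin 4, j ≠ 0 ∧ j ≠ 1 ∧ 5 ∣ cm m j :=
    (Nat.prime_five.dvd_mul.1 (five_cm (m := m))).elim (fun h => ⟨2, by decide, by decide, h⟩)
      fun h => ⟨3, by decide, by decide, h⟩
  obtain ⟨z, z1, z2, z3⟩ := key (u m 0 1) (w F' m * u m 0 1) (by rw [fAut_u, map_zero, map_one])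
    (by rw [map_mul, fAut_w, fAut_u, map_zero, map_one])
  rw [orderOf_u_zero one_ne_zero] at z2
  rw [five] at z3
  obtain ⟨i, hi⟩ := ok.cls sp z1
  have i0 : i ≠ 0 := by
    rintro rfl
    rw [cm0] at hi
    have := (Nat.prime_dvd_prime_iff_eq sp Nat.prime_two).1 (sp.dvd_of_dvd_pow (m := 2) (n := 2) hi)
    rw [this] at sN
    omega
  have ij : i = j := by
    by_contra ij
    exact ok.tri sp Nat.prime_two Nat.prime_five hi t0 hj i0 ij j0.symm z1 z2 z3
  subst ij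
  by_cases hs : s = 2 * m + 1
  · have d : s ∣ cm m 2 * cm m 3 := by
      have : i = 2 ∨ i = 3 := by omega
      rcases this with rfl | rfl
      · exact hi.mul_right _
      · exact hi.mul_left _
    haveI := Fact.mk sp
    rw [cm23, ← hs, ← ZMod.natCast_eq_zero_iff] at d
    push_cast at d
    rw [ZMod.pow_card] at d
    have : ((5 : ℕ) : ZMod s) = 0 := by rw [← d]; norm_num
    rw [ZMod.natCast_eq_zero_iff, Nat.prime_dvd_prime_iff_eq sp Nat.prime_five] at this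
    omega
  · obtain ⟨l, l1, hl⟩ := exists_fixed (m := m) (σ := σ ^ c) (os ▸ hs)
    obtain ⟨z, z1, z2, z3⟩ := key (h m l) (u m 0 1)
      (by rw [fAut_h]; exact congrArg _ (Units.ext hl)) (by rw [fAut_u, map_zero, map_one])
    rw [orderOf_u_zero one_ne_zero] at z3
    obtain ⟨p, pp, hp⟩ := Nat.exists_prime_and_dvd (n := orderOf (h m l))
      (mt orderOf_eq_one_iff.1 fun e => l1 (h_injective (e.trans h_one.symm)))
    have p1 : p ∣ cm m 1 := by
      have := Subgroup.orderOf_dvd_natCard _ (h_mem_H (m := m) l)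
      rw [card_H, hF.card] at this
      exact hp.trans this
    exact ok.tri sp Nat.prime_two pp hi t0 p1 i0 j1 (by decide) z1 z3 (hp.trans z2)

theorem pE : PE.{u} := by
  intro F F' _ _ _ _ m m' _ _ G _ _ m2 ok full d φ ψ k sj
  obtain rfl := m_eq full d φ ψ k
  refine ⟨rfl, ?_⟩
  have i1 := inner m2 ok φ ψ sj
  have i2 := inner m2 ok ψ φ fun t s => (sj s t).imp fun _ h => h.symm
  have j1 : Injective (φ.prod ψ) := by rw [← MonoidHom.ker_eq_bot_iff, MonoidHom.ker_prod, k]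
  have j2 : Injective ((MulAut.conj : Cfsg.Sz F m' →* _).prodMap (MulAut.conj : Cfsg.Sz F' m' →* _)) :=
    conj_inj.prodMap conj_inj
  refine ⟨((MonoidHom.ofInjective j1).trans (MulEquiv.subgroupCongr ?_)).trans (MonoidHom.ofInjective j2).symm⟩
  ext x
  constructor
  · rintro ⟨g, rfl⟩
    obtain ⟨s, hs⟩ := i1 g
    obtain ⟨t, ht⟩ := i2 g
    exact ⟨(s, t), Prod.ext hs.symm ht.symm⟩
  · rintro ⟨⟨s, t⟩, rfl⟩
    obtain ⟨g, h1, h2⟩ := sj s t
    exact ⟨g, Prod.ext h1 h2⟩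

end H11.SqE
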