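import Cfsg.Agent.H11.SqE

/-! Final assembly of the recognition of `Sz(q) × Sz(q)` by its spectrum from the pieces `PA2`, `PB`, `PC`, `PD`. -/
set_option autoImplicit false
namespace H11.SqF
open Cfsg H13.Sz Function H4.Sq
universe u

theorem iso {F K : Type*} [Field F] [Fintype F] [Field K] [Fintype K] {m : ℕ} [hF : IsSz F m] [hK : IsSz K m] :
    Nonempty (Cfsg.Sz K m ≃* Cfsg.Lie.Sz F (2 ^ (m + 1))) :=
  let e := FiniteField.ringEquivOfCardEq (hK.card.trans hF.card.symm)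
  ⟨(MulEquiv.ofBijective (szMap m m (e : K →+* F)) ⟨szMap_injective _, szMap_surjective e.surjective⟩).trans
    (lieEquiv F m)⟩

theorem ker_bot (hB : PB.{u}) {F F' : Type} [Field F] [Fintype F] [Field F'] [Fintype F'] {m m' : ℕ} [IsSz F m]
    [IsSz F' m'] {G : Type u} [Group G] [Finite G] (ok : Ok m G) (d : 2 * m' + 1 ∣ 2 * m + 1)
    (φ : G →* MulAut (Cfsg.Sz F m)) (ψ : G →* MulAut (Cfsg.Sz F' m'))
    (sj : ∀ s t, ∃ g, φ g = MulAut.conj s ∧ ψ g = MulAut.conj t) : φ.ker ⊓ ψ.ker = ⊥ := by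
  let θ := (MulAut.conj : Cfsg.Sz F m →* _).prodMap (MulAut.conj : Cfsg.Sz F' m' →* _)
  have j : Injective θ := SqE.conj_inj.prodMap SqE.conj_inj
  let H := θ.range.comap (φ.prod ψ)
  let f : H →* Cfsg.Sz F m × Cfsg.Sz F' m' := (MonoidHom.ofInjective j).symm.toMonoidHom.comp
    (((φ.prod ψ).comp H.subtype).codRestrict θ.range fun x => x.2)
  have hf : ∀ x : H, θ (f x) = (φ x, ψ x) := fun x => MonoidHom.apply_ofInjective_symm j _
  have fs : Surjective f := by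
    rintro ⟨s, t⟩
    obtain ⟨g, h1, h2⟩ := sj s t
    exact ⟨⟨g, (s, t), Prod.ext h1.symm h2.symm⟩, j (by rw [hf]; exact Prod.ext h1 h2)⟩
  have fi := hB (ok.sub H) d f fs
  rw [eq_bot_iff]
  intro g hg
  obtain ⟨h1, h2⟩ := Subgroup.mem_inf.1 hg
  rw [MonoidHom.mem_ker] at h1 h2
  have gH : g ∈ H := ⟨1, by rw [map_one]; exact Prod.ext h1.symm h2.symm⟩
  have : f ⟨g, gH⟩ = f 1 := j (by rw [hf, map_one, map_one]; exact Prod.ext h1 h2)
  exact congrArg Subtype.val (fi this)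

theorem final (hA : PA2.{u}) (hB : PB.{u}) (hC : PC.{u}) (hD : PD.{u})
    {F : Type*} [Field F] [Fintype F] {m : ℕ} (hm : 1 ≤ m) (hm2 : m ≠ 2) (hF : Fintype.card F = 2 ^ (2 * m + 1))
    {G : Type u} [Group G] [Finite G]
    (h : Set.range (orderOf : G → ℕ) = Set.range (orderOf : ↥(Cfsg.Lie.Sz F (2 ^ (m + 1))) ×
      ↥(Cfsg.Lie.Sz F (2 ^ (m + 1))) → ℕ)) :
    Nonempty (G ≃* ↥(Cfsg.Lie.Sz F (2 ^ (m + 1))) × ↥(Cfsg.Lie.Sz F (2 ^ (m + 1)))) := by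
  haveI : IsSz F m := ⟨hm, hF⟩
  have ok : Ok m G := fun g => by
    obtain ⟨⟨a, b⟩, e⟩ : orderOf g ∈ Set.range _ := h ▸ Set.mem_range_self g
    obtain ⟨i, hi⟩ := ord_dvd ((lieEquiv F m).symm a)
    obtain ⟨j, hj⟩ := ord_dvd ((lieEquiv F m).symm b)
    rw [MulEquiv.orderOf_eq] at hi hj
    rw [← e, Prod.orderOf_mk]
    by_cases ij : i = j
    · subst ij
      obtain ⟨k, hk⟩ := exists_ne i
      exact ⟨i, k, hk.symm, (Nat.lcm_dvd hi hj).mul_right _⟩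
    · exact ⟨i, j, ij, Nat.lcm_dvd (hi.mul_right _) (hj.mul_left _)⟩
  have full : Full m G := fun i j ij => by
    obtain ⟨a, ha⟩ := ord_ex (F := F) i
    obtain ⟨b, hb⟩ := ord_ex (F := F) j
    have : cm m i * cm m j ∈ Set.range (orderOf : G → ℕ) := h ▸ ⟨(lieEquiv F m a, lieEquiv F m b), by
      rw [Prod.orderOf_mk, MulEquiv.orderOf_eq, MulEquiv.orderOf_eq, ha, hb, (cm_cop ij).lcm_eq_mul]⟩
    exact this
  obtain ⟨ι, _, K, _, _, n, _, φ, c, sol, sj, d⟩ := hD ok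
  classical
  by_cases e : ∀ i, n i ≠ m
  · exact (hC hm ok full φ sol sj fun i => ⟨d i, e i⟩).elim
  push_neg at e
  obtain ⟨i, rfl⟩ := e
  by_cases e : ∀ j, j = i
  · refine (hA ok full (φ i) ?_ fun s => ?_).elim
    · have : (⨅ j, (φ j).ker : Subgroup G) = (φ i).ker :=
        le_antisymm (iInf_le _ i) (le_iInf fun j => by rw [e j])
      rwa [this] at sol
    · obtain ⟨g, hg⟩ := sj (update 1 i s)
      exact ⟨g, by rw [hg, update_self]⟩
  push_neg at e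
  obtain ⟨j, ji⟩ := e
  have sj2 : ∀ s t, ∃ g, φ i g = MulAut.conj s ∧ φ j g = MulAut.conj t := fun s t => by
    obtain ⟨g, hg⟩ := sj (update (update 1 i s) j t)
    exact ⟨g, by rw [hg, update_of_ne ji.symm, update_self], by rw [hg, update_self]⟩
  obtain ⟨e, ⟨f⟩⟩ := SqE.pE hm2 ok full (d j) (φ i) (φ j) (ker_bot hB ok (d j) _ _ sj2) sj2
  obtain ⟨a⟩ := iso (F := F) (K := K i) (m := n i)
  obtain ⟨b⟩ : Nonempty (Cfsg.Sz (K j) (n j) ≃* Cfsg.Lie.Sz F (2 ^ (n i + 1))) := by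
    rw [← e]
    haveI : IsSz F (n j) := ⟨e ▸ hm, e ▸ hF⟩
    exact iso
  exact ⟨f.trans (a.prodCongr b)⟩

end H11.SqF
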