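import Cfsg.Agent.H11.Om
/-! Unipotent isometries in characteristic two: the quadratic forms `qq`, the approximation theorem
(`Gn.exists_isom`), the pieces `Vs`, `Ws` and the decomposition of unipotent classes. -/
namespace H11
open Module Polynomial
open PForm hiding X

universe u
variable {F : Type u} [Field F] {V W : Type*} [AddCommGroup V] [Module F V] [AddCommGroup W] [Module F W]
  {P : FParam (RingHom.id F)} {S T : PForm P V} {N : End F V} {d i j : ℕ}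

section Lv
variable {D : V →ₗ[F] V →ₗ[F] F}

/-- invariance under `1 + N` -/
def Ky (D : V →ₗ[F] V →ₗ[F] F) (N : End F V) : Prop := ∀ u v, D (N u) v = D u (N v) + D (N u) (N v)

/-- vanishing in levels `≥ i` -/
def Lv (D : V →ₗ[F] V →ₗ[F] F) (N : End F V) (i : ℕ) : Prop :=
  ∀ a b u v, i ≤ a + b → D ((N ^ a) u) ((N ^ b) v) = 0

theorem Lv.shift (h : Lv D N (i + 1)) (hK : Ky D N) (a b : ℕ) (u v : V) (e : a + b = i) :
    D ((N ^ a) u) ((N ^ b) v) = D u ((N ^ i) v) := by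
  induction a generalizing b with
  | zero => simp [← e]
  | succ a ih =>
    have := h (a + 1) (b + 1) u v (by omega)
    have h1 := ih (b + 1) (by omega)
    rw [pow_succ', End.mul_apply] at this h1 ⊢
    rw [pow_succ', End.mul_apply] at this
    rw [hK, this, h1, add_zero]

theorem Lv.step (h : Lv D N (i + 1)) (hK : Ky D N) (h' : ∀ u v, D u ((N ^ i) v) = 0) : Lv D N i :=
  fun a b u v e => e.eq_or_lt.elim (fun e => (h.shift hK a b u v e.symm).trans (h' u v)) (h a b u v)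

theorem lv_of_pow (hK : Ky D N) (h : N ^ i = 0) : Lv D N i := by
  have h1 : ∀ k, i ≤ k → N ^ k = 0 := fun k hk => pow_eq_zero_of_le hk h
  exact Nat.decreasingInduction' (P := Lv D N) (fun k _ hk h => h.step hK (by simp [h1 k hk])) (Nat.le_add_right i i)
    fun a b u v e => by rcases (by omega : i ≤ a ∨ i ≤ b) with h | h <;> simp [h1 _ h]

theorem Ky.ker (hK : Ky D N) (hp : N ^ i = 0) {c : V} (h : ∀ v, D c (N v) = 0) (v : V) : D (N c) v = 0 := by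
  have : ∀ k v, D (N c) v = D (N c) ((N ^ k) v) := fun k => by
    induction k with
    | zero => simp
    | succ k ih => intro v; rw [hK, h, zero_add, ih, pow_succ]; rfl
  rw [this i, hp]; simp
end Lv

open Classical in
/-- the weight of the polar form of `qq j` -/
noncomputable def lam (P : FParam (RingHom.id F)) (j : ℕ) : F := if j = 0 ∧ P.Λ ≠ ⊥ then 0 else 1

@[simp] theorem lam_succ : lam P (j + 1) = 1 := by simp [lam]

theorem lam_cases : lam P j = 0 ∨ lam P j = 1 := by rw [lam]; split_ifs <;> simp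

/-- the quadratic forms attached to a nilpotent map -/
noncomputable def qq (S : PForm P V) (N : End F V) : ℕ → V → F
  | 0, v => lam P 0 * S.q v
  | j + 1, v => S.h ((N ^ j) v) ((N ^ (j + 1)) v)

theorem lam_qq (v : V) : lam P j * qq S N j v = qq S N j v := by
  cases j
  · rcases lam_cases (P := P) (j := 0) with h | h <;> simp [qq, h]
  · simp

theorem pow_intertwine {M : End F W} {φ : W →ₗ[F] V} (h : ∀ a, φ (M a) = N (φ a)) (k : ℕ) (a : W) :
    φ ((M ^ k) a) = (N ^ k) (φ a) := by simpa using aeval_intertwine h (X ^ k) a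

theorem qq_comap {M : End F W} {φ : W →ₗ[F] V} (h : ∀ a, φ (M a) = N (φ a)) (v : W) :
    qq (S.comap φ) M j v = qq S N j (φ v) := by cases j <;> simp [qq, pow_intertwine h]

/-- `1 + N` is an isometry -/
structure Pv (S : PForm P V) (N : End F V) : Prop where
  ky : Ky S.h N
  q0 : ∀ v, lam P 0 * S.q (N v) = lam P 0 * S.h v (N v)

theorem Pv.comap (h : Pv S N) {M : End F W} {φ : W →ₗ[F] V} (h' : ∀ a, φ (M a) = N (φ a)) : Pv (S.comap φ) M :=
  ⟨fun u v => by simpa [h'] using h.1 _ _, fun v => by simpa [h'] using h.2 _⟩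

theorem Pv.qq_top (h : Pv S N) (h' : N ^ (d + 1) = 0) (hj : d + 2 ≤ 2 * j) (v : V) : qq S N j v = 0 := by
  obtain _ | j := j
  · omega
  exact lv_of_pow h.1 h' _ _ _ _ (by omega)

variable [CharP F 2]

theorem two_symm (S : PForm P V) (x y : V) : S.h y x = S.h x y := by
  rcases P.ε_cases with h | h <;> simp [S.symm x, h, CharTwo.neg_eq]

@[simp] theorem two_self (S : PForm P V) (x : V) : S.h x x = 0 := by
  rcases P.ε_cases with h | h <;> simp [S.h_self, h, CharTwo.add_self_eq_zero]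

variable [Finite F]

theorem exists_sq_eq (a : F) : ∃ c, c ^ 2 = a := by
  have := Fintype.ofFinite F
  simpa [isSquare_iff_exists_sq, eq_comm] using FiniteField.isSquare_of_char_two (ringChar.eq F 2) a

theorem mem_lam {a : F} : a ∈ P.Λ ↔ lam P 0 * a = 0 := by
  by_cases h : P.Λ = ⊥
  · simp [lam, h]
  obtain ⟨⟨b, hb⟩, h0⟩ := AddSubgroup.ne_bot_iff_exists_ne_zero.1 h
  obtain ⟨c, hc⟩ := exists_sq_eq (a / b)
  have : b ≠ 0 := by simpa using h0
  simpa [lam, h, show a = c * b * c by rw [mul_right_comm, ← sq, hc]; field_simp] using P.conj_mem c b hb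

theorem qq_smul (c : F) (v : V) : qq S N j (c • v) = c ^ 2 * qq S N j v := by
  cases j
  · have := mem_lam.1 (S.q_smul c v); simp only [qq, RingHom.id_apply] at this ⊢; linear_combination this
  · simp [qq]; ring

@[simp] theorem qq_zero : qq S N j 0 = 0 := by simpa using qq_smul (S := S) 0 0

theorem Pv.qq_add (h : Pv S N) (u v : V) :
    qq S N j (u + v) = qq S N j u + qq S N j v + lam P j * S.h ((N ^ j) u) ((N ^ j) v) := by
  obtain _ | j := j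
  · have := mem_lam.1 (S.q_add u v); simp only [qq, pow_zero, End.one_apply] at this ⊢; linear_combination this
  have := h.1 ((N ^ j) u) ((N ^ j) v)
  simp only [qq, pow_succ', End.mul_apply, map_add, LinearMap.add_apply, lam_succ, two_symm S (N ((N ^ j) u))] at this ⊢
  grind

theorem Pv.qq_N (h : Pv S N) (v : V) : qq S N j (N v) = lam P j * qq S N (j + 1) v := by
  cases j
  · simpa [qq] using h.2 v
  · simp [qq, pow_succ]

theorem Pv.qq_pow (h : Pv S N) (s : ℕ) (h' : ∀ v, qq S N (j + s) v = 0) (v : V) : qq S N j ((N ^ s) v) = 0 := by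
  induction s generalizing j with
  | zero => exact h' v
  | succ s ih => rw [pow_succ', End.mul_apply, h.qq_N, ih (by simpa only [add_right_comm j 1, add_assoc j] using h'), mul_zero]

theorem pv_isom (g : S.Isom) : Pv S (iE g - 1) := ⟨fun u v => by
  simp; grind, fun v => by
    have := mem_lam.1 (S.q_sub (g.1 v) v)
    have h := mem_lam.1 (isom_q g v)
    simp [two_symm S v] at this ⊢
    grind⟩

/-- agreement of two forms in levels `≥ i` -/
structure Ag (S T : PForm P V) (N : End F V) (i : ℕ) : Prop where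
  lv : Lv (T.h - S.h) N i
  q : ∀ j, 2 * j = i → ∀ v, qq T N j v = qq S N j v

/-- homogeneous nilpotent maps with at most two blocks -/
structure Gn (N : End F V) (d : ℕ) (e₁ e₂ : V) (π₁ π₂ : V →ₗ[F] F) : Prop where
  pow : N ^ (d + 1) = 0
  ker : ∀ a b v, a + b = d + 1 → (N ^ b) v = 0 → ∃ w, (N ^ a) w = v
  dec : ∀ v, ∃ w, v = π₁ v • e₁ + π₂ v • e₂ + N w
  p1 : ∀ v, π₁ (N v) = 0
  p2 : ∀ v, π₂ (N v) = 0
  lift : ∀ u₁ u₂, ∃ a : End F V, (∀ v, a (N v) = N (a v)) ∧ ∀ v, ∃ w, a v = π₁ v • u₁ + π₂ v • u₂ + N w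

variable [FiniteDimensional F V] {e₁ e₂ : V} {π₁ π₂ : V →ₗ[F] F}

omit [FiniteDimensional F V] [Finite F] in
theorem Pv.ky_sub (hS : Pv S N) (hT : Pv T N) : Ky (T.h - S.h) N := fun u v => by
  have := hS.1 u v; have := hT.1 u v; simp; grind

omit [FiniteDimensional F V] [Finite F] in
theorem ag_top (hS : Pv S N) (hT : Pv T N) (h : N ^ (d + 1) = 0) : Ag S T N (d + 1 + 1) :=
  ⟨lv_of_pow (hS.ky_sub hT) (pow_eq_zero_of_le d.succ.le_succ h), fun j e v => by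
    rw [hS.qq_top h e.ge, hT.qq_top h e.ge]⟩

omit [FiniteDimensional F V] in
theorem Ag.expand (G : Gn N d e₁ e₂ π₁ π₂) (hS : Pv S N) (hT : Pv T N) (h : Ag S T N (i + 1)) :
    (∀ u v, (T.h - S.h) u ((N ^ i) v) = (π₁ u * π₂ v + π₂ u * π₁ v) * (T.h - S.h) e₁ ((N ^ i) e₂)) ∧
    ∀ j, 2 * j = i → ∀ v, qq T N j v - qq S N j v = π₁ v ^ 2 * (qq T N j e₁ - qq S N j e₁) +
      π₂ v ^ 2 * (qq T N j e₂ - qq S N j e₂) + lam P j * π₁ v * π₂ v * (T.h - S.h) e₁ ((N ^ i) e₂) := by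
  have hK := hS.ky_sub hT
  have h1 : ∀ u v, (T.h - S.h) u ((N ^ i) v) = (T.h - S.h) v ((N ^ i) u) := fun u v => by
    rw [← h.1.shift hK i 0 v u rfl]; simp [two_symm _ u]
  have h3 : ∀ u v, (T.h - S.h) u ((N ^ i) (N v)) = 0 := fun u v => h.1 0 (i + 1) u v (by simp)
  have h4 : ∀ v, (T.h - S.h) v ((N ^ i) v) = 0 := fun v => by
    obtain ⟨j, rfl | rfl⟩ := i.even_or_odd'
    · rw [← h.1.shift hK j j v v (two_mul j).symm]; simp
    · rw [← h.1.shift hK j (j + 1) v v (by ring)]; exact sub_eq_zero.2 (h.2 (j + 1) (by ring) v)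
  refine ⟨fun u v => ?_, fun j e v => ?_⟩
  · obtain ⟨⟨x, hx⟩, y, hy⟩ := And.intro (G.dec u) (G.dec v)
    conv_lhs => rw [hx, hy]
    simp only [map_add, map_smul, LinearMap.add_apply, LinearMap.smul_apply, smul_eq_mul, h3, h4, h1 e₂ e₁,
      h1 (N x)]; ring
  · obtain ⟨w, hw⟩ := G.dec v
    have h5 := h.1 j (j + 1) w w (by omega)
    have h6 := h.1 j (j + 1) (π₁ v • e₁ + π₂ v • e₂) w (by omega)
    rw [← h.1.shift hK j j _ _ (by omega)]
    conv_lhs => rw [hw]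
    simp only [hS.qq_add, hT.qq_add, hS.qq_N, hT.qq_N, qq_smul, qq.eq_2, pow_succ, End.mul_apply,
      LinearMap.sub_apply, map_smul, LinearMap.smul_apply, smul_eq_mul, RingHom.id_apply] at h5 h6 ⊢
    linear_combination lam P j * (h5 + h6)

omit [FiniteDimensional F V] in
theorem Ag.down (G : Gn N d e₁ e₂ π₁ π₂) (hS : Pv S N) (hT : Pv T N) (h : Ag S T N (i + 1))
    (h1 : T.h e₁ ((N ^ i) e₂) = S.h e₁ ((N ^ i) e₂))
    (h2 : ∀ j, 2 * j = i → qq T N j e₁ = qq S N j e₁ ∧ qq T N j e₂ = qq S N j e₂) : Ag S T N i :=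
  ⟨h.1.step (hS.ky_sub hT) fun u v => by rw [(h.expand G hS hT).1]; simp [h1], fun j e v =>
    sub_eq_zero.1 (by rw [(h.expand G hS hT).2 j e]; simp [h1, h2 j e])⟩

theorem Gn.exists_isom (G : Gn N d e₁ e₂ π₁ π₂) (hS : Pv S N) (hi : i ≤ d) {T : PForm P V} (hT : Pv T N)
    (hn : T.Nondeg) (h : Ag S T N i) (h0 : ∀ j, 2 * j < i → ∀ v, qq T N (d - j) v = 0) :
    ∃ A : V ≃ₗ[F] V, IsIsom S T A ∧ ∀ v, A (N v) = N (A v) := by
  induction i generalizing T with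
  | zero => exact ⟨.refl F V, ⟨fun u v => by simpa [sub_eq_zero] using h.1 0 0 u v le_rfl, fun v => mem_lam.2 (by
      simpa [qq, mul_sub, sub_eq_zero] using h.2 0 rfl v)⟩, fun _ => rfl⟩
  | succ i ih =>
  obtain ⟨s, rfl⟩ := Nat.exists_eq_add_of_le hi
  have hL := lv_of_pow hT.1 G.pow
  have h1 : ∀ ℓ : V →ₗ[F] F, (∀ v, ℓ (N v) = 0) → ∃ u, ∀ v, T.h ((N ^ (i + 1 + s)) u) v = ℓ v := fun ℓ hℓ => by
    obtain ⟨c, rfl⟩ := hn.exists_h_eq ℓ
    obtain ⟨u, rfl⟩ := G.ker _ 1 c rfl (hn _ ((pow_one N).symm ▸ hT.1.ker G.pow hℓ))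
    exact ⟨u, fun _ => rfl⟩
  have h2 : ∀ x y u v, x + y = i + 1 + s → T.h ((N ^ x) u) ((N ^ y) v) = T.h ((N ^ (i + 1 + s)) u) v :=
    fun x y u v e => (hL.shift hT.1 x y u v e).trans (hL.shift hT.1 _ 0 u v rfl).symm
  obtain ⟨h3, h4⟩ := h.expand G hS hT
  generalize (T.h - S.h) e₁ ((N ^ i) e₂) = B at h3 h4
  obtain ⟨u₁, h5⟩ := h1 ((qq T N (i / 2) e₁ - qq S N (i / 2) e₁) • π₁ + B • π₂) (by simp [G.p1, G.p2])
  obtain ⟨u₂, h6⟩ := h1 ((qq T N (i / 2) e₂ - qq S N (i / 2) e₂) • π₂) (by simp [G.p2])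
  obtain ⟨a, h7, h8⟩ := G.lift u₁ u₂
  have h9 : ∀ u v, T.h ((N ^ (i + 1 + s)) (a u)) v = π₁ u * T.h ((N ^ (i + 1 + s)) u₁) v +
      π₂ u * T.h ((N ^ (i + 1 + s)) u₂) v := fun u v => by
    obtain ⟨w, hw⟩ := h8 u
    simp [hw, ← End.mul_apply, ← pow_succ, G.pow]
  have hc : Commute N a := LinearMap.ext fun v => (h7 v).symm
  have hu : IsUnit (1 + N ^ (s + 1) * a) := IsNilpotent.isUnit_one_add
    ((hc.pow_left _).isNilpotent_mul_right (IsNilpotent.pow_succ _ ⟨_, G.pow⟩))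
  have h10 : ∀ v, (1 + N ^ (s + 1) * a) (N v) = N ((1 + N ^ (s + 1) * a) v) := LinearMap.congr_fun
    ((Commute.one_left N).add_left (((Commute.refl N).pow_left _).mul_left hc.symm)).eq
  have h11 : ∀ k v, (1 + N ^ (s + 1) * a) ((N ^ k) v) = (N ^ k) v + (N ^ (k + (s + 1))) (a v) := fun k v => by
    rw [pow_intertwine h10]; simp [pow_add]
  have hT' := hT.comap h10
  refine (ih (by omega) hT' (fun x hx => ((End.isUnit_iff _).1 hu).1 ((hn _ fun y => by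
      obtain ⟨y, rfl⟩ := ((End.isUnit_iff _).1 hu).2 y; exact hx y).trans (map_zero _).symm))
    ⟨Lv.step (fun x y u v e => ?_) (hS.ky_sub hT') fun u v => ?_, ?_⟩
    fun j e v => by rw [qq_comap h10, h0 j (by omega)]).elim fun A ⟨h12, h13⟩ =>
      ⟨A.trans (.ofBijective _ ((End.isUnit_iff _).1 hu)), ⟨h12.1, h12.2⟩, fun v => by simp [h13, h10]⟩
  · simpa [h11, hL _ _ _ _ (show _ ≤ x + (y + (s + 1)) by omega), hL _ _ _ _ (show _ ≤ x + (s + 1) + y by omega),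
      hL _ _ _ _ (show _ ≤ x + (s + 1) + (y + (s + 1)) by omega)] using h.1 x y u v e
  · have := h3 u v
    have h14 := h11 0 u
    simp only [pow_zero, End.one_apply] at h14
    simp only [LinearMap.sub_apply, comap_h, h11, h14, map_add, LinearMap.add_apply, hL _ _ _ _ (show _ ≤ 0 + (s + 1) +
      (i + 1 + s) by omega), h2 _ _ _ _ (show 0 + (s + 1) + i = _ by omega), two_symm T _ u, h9, h5, h6,
      show i + (s + 1) = i + 1 + s by omega, LinearMap.smul_apply, smul_eq_mul] at this ⊢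
    clear * - this
    grind
  · rintro j rfl v
    have := h4 j rfl v
    have h14 := lam_qq (S := S) (N := N) (j := j)
    have h15 := lam_qq (S := T) (N := N) (j := j)
    rw [qq_comap h10, LinearMap.add_apply, hT.qq_add, End.mul_apply, hT.qq_pow _ (by
      convert h0 j (by omega) using 3; omega), ← End.mul_apply (N ^ j) (N ^ _), ← pow_add, two_symm T,
      h2 _ _ _ _ (by omega), h9, h5, h6]
    simp only [LinearMap.add_apply, LinearMap.smul_apply, smul_eq_mul, End.one_apply,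
      Nat.mul_div_cancel_left j two_pos] at this ⊢
    clear * - this h14 h15
    grind

omit [FiniteDimensional F V] [Finite F]

theorem Pv.top_symm (h : Pv S N) (h' : N ^ (d + 1) = 0) (u v : V) : S.h u ((N ^ d) v) = S.h v ((N ^ d) u) := by
  rw [← (lv_of_pow h.1 h').shift h.1 d 0 v u rfl, two_symm]; rfl

theorem Pv.top_even (h : Pv S N) (h' : N ^ (2 * j + 1) = 0) (u v : V) :
    S.h ((N ^ j) u) ((N ^ j) v) = S.h u ((N ^ (2 * j)) v) := (lv_of_pow h.1 h').shift h.1 _ _ _ _ (by ring)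

theorem Pv.top_self (h : Pv S N) (h' : N ^ (d + 1) = 0) (v : V) :
    S.h v ((N ^ d) v) = if Even d then 0 else qq S N ((d + 1) / 2) v := by
  obtain ⟨j, rfl | rfl⟩ := d.even_or_odd'
  · simp [← h.top_even h']
  · rw [if_neg (by simp), show (2 * j + 1 + 1) / 2 = j + 1 by omega]
    exact ((lv_of_pow h.1 h').shift h.1 _ _ _ _ (by ring)).symm

omit [CharP F 2]

/-- the generator of the standard block -/
def gen (F : Type u) [Field F] (d : ℕ) : Fin (d + 1) → F := Pi.single (Fin.last d) 1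

theorem gn_one : Gn (shf F d) d (gen F d) 0 (.proj (Fin.last d)) 0 :=
  ⟨by simpa using (hg_shf (F := F) (d := d)).pow, fun a b v e h => by
    simpa using ((hg_shf (F := F)).ker_eq e).ge (show v ∈ _ by simpa), fun v => by
      obtain ⟨w, hw⟩ := mem_range_shf (a := v - v (Fin.last d) • gen F d) (by simp [gen])
      exact ⟨w, by simp [hw]⟩, by simp [shf], by simp, fun u _ => by
    simpa using exists_shf_hom (by simpa using (hg_shf (F := F) (d := d)).pow) u⟩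

theorem gn_two : Gn ((shf F d).prodMap (shf F d)) d (gen F d, 0) (0, gen F d)
    (.proj (Fin.last d) ∘ₗ .fst F _ _) (.proj (Fin.last d) ∘ₗ .snd F _ _) := by
  have h : ∀ k, (shf F d).prodMap (shf F d) ^ k = (shf F d ^ k).prodMap (shf F d ^ k) := fun k => by
    simpa using aeval_prodMap (shf F d) (shf F d) (X ^ k)
  have h0 : (shf F d).prodMap (shf F d) ^ (d + 1) = 0 := by simp [h, gn_one.pow]
  refine ⟨h0, fun a b v e h' => ?_, fun v => ?_, by simp [shf], by simp [shf], fun u₁ u₂ => ?_⟩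
  · rw [h, LinearMap.prodMap_apply, Prod.mk_eq_zero] at h'
    obtain ⟨⟨x, hx⟩, y, hy⟩ := And.intro (gn_one.ker a b _ e h'.1) (gn_one.ker a b _ e h'.2)
    exact ⟨(x, y), by simp [h, hx, hy]⟩
  · obtain ⟨⟨x, hx⟩, y, hy⟩ := And.intro (gn_one.dec v.1) (gn_one.dec v.2)
    exact ⟨(x, y), Prod.ext (by simpa using hx) (by simpa using hy)⟩
  · obtain ⟨φ, h1, h2⟩ := exists_shf_hom h0 u₁
    obtain ⟨ψ, h3, h4⟩ := exists_shf_hom h0 u₂
    refine ⟨φ.coprod ψ, fun v => by simp [h1, h3], fun v => ?_⟩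
    obtain ⟨⟨x, hx⟩, y, hy⟩ := And.intro (h2 v.1) (h4 v.2)
    exact ⟨x + y, by rw [LinearMap.coprod_apply, hx, hy, map_add]; exact add_add_add_comm ..⟩

/-- the nilpotent part -/
abbrev Ob.nl (o : Ob P) : End F o.V := iE o.g - 1

theorem ob_iso {x y : Ob P} (h : x ≈ y) : ∃ e : x.V ≃ₗ[F] y.V, IsIsom x.S y.S e ∧ ∀ v, e (x.nl v) = y.nl (e v) :=
  h.imp fun e h => ⟨h.1, fun v => by simp [h.2]⟩

/-- all blocks have size at most `d` -/
def Sz (d : ℕ) : Mo P → Prop := Quotient.lift (fun o => o.nl ^ d = 0) fun x y h => by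
  obtain ⟨e, -, h⟩ := ob_iso h
  have : ∀ v, e ((x.nl ^ d) v) = (y.nl ^ d) (e v) := pow_intertwine (φ := e.toLinearMap) h d
  simp only [LinearMap.ext_iff, e.surjective.forall, ← this]; simp

theorem N_prod (x y : Ob P) (k : ℕ) : (iE (prodI _ _ (x.g, y.g)) - 1) ^ k = (x.nl ^ k).prodMap (y.nl ^ k) := by
  have := aeval_prodMap (iE x.g) (iE y.g) ((X - 1) ^ k)
  rwa [map_pow, map_pow, map_pow, map_sub, map_sub, map_sub, aeval_X, aeval_X, aeval_X, map_one, map_one,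
    map_one] at this

theorem sz_add {x y : Mo P} : Sz d (x + y) ↔ Sz d x ∧ Sz d y := by
  obtain ⟨⟨x⟩, ⟨y⟩⟩ := x, y
  change (iE (prodI _ _ (x.g, y.g)) - 1) ^ d = 0 ↔ x.nl ^ d = 0 ∧ y.nl ^ d = 0
  simp [N_prod, LinearMap.ext_iff, forall_and]

theorem Sz.mono {x : Mo P} (h : Sz i x) (h' : i ≤ j) : Sz j x := by
  obtain ⟨x⟩ := x
  exact pow_eq_zero_of_le h' h

theorem qq_prod (x y : Ob P) (u : x.V) (v : y.V) :
    qq (x.S.prod y.S) (iE (prodI _ _ (x.g, y.g)) - 1) j (u, v) = qq x.S x.nl j u + qq y.S y.nl j v := by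
  cases j <;> simp [qq, N_prod, mul_add]

section
variable {W : Type u} [AddCommGroup W] [Module F W] [FiniteDimensional F W] {M : End F W}
  {e₁ e₂ : W} {π₁ π₂ : W →ₗ[F] F}

/-- classes on a model space -/
def Tq (P : FParam (RingHom.id F)) (M : End F W) (p : PForm P W → Prop) : Set (Mo P) :=
  {r | ∃ (S : PForm P W) (hS : S.Nondeg) (k : S.Isom), cls hS k = r ∧ iE k - 1 = M ∧ p S}

variable [CharP F 2] [Finite F]

theorem Gn.peel (G : Gn M d e₁ e₂ π₁ π₂) (o : Ob P) (φ : W →ₗ[F] o.V) (hφ : ∀ a, φ (M a) = o.nl (φ a))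
    (hn : ∀ s t : F, (∀ b, o.S.h b ((o.nl ^ d) (s • φ e₁ + t • φ e₂)) ≠ 0 → b ≠ φ e₁ ∧ b ≠ φ e₂) →
      s • e₁ + t • e₂ = 0) {p : PForm P W → Prop} (hp : p (o.S.comap φ)) : ∃ r ∈ Tq P M p, ∃ y, r + y = ⟦o⟧ := by
  have hK := ((pv_isom o.g).comap hφ).1
  have h1 : ∀ (j : ℕ) a, (∀ b, (o.S.comap φ).h a b = 0) → (M ^ j) a = 0 → a = 0 := fun j => by
    induction j with
    | zero => exact fun a _ h => h
    | succ j ih =>
      intro a ha h
      obtain ⟨x, rfl⟩ := G.ker d 1 a rfl (ih _ (hK.ker G.pow fun _ => ha _) (by rwa [pow_succ] at h))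
      obtain ⟨y, hy⟩ := G.dec x
      have : (M ^ d) (M y) = 0 := LinearMap.congr_fun G.pow y
      rw [hy, map_add, this, add_zero] at ha ⊢
      rw [hn _ _ fun b hb => by
        constructor <;> rintro rfl <;> exact hb (by simpa [two_symm o.S, pow_intertwine hφ] using ha _), map_zero]
  have hT : (o.S.comap φ).Nondeg := fun a ha => h1 _ a ha (by rw [G.pow]; rfl)
  have hi : Function.Injective φ := (injective_iff_map_eq_zero φ).2 fun a ha => hT a (by simp [ha])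
  have he : IsIsom (o.S.comap φ) (o.S.restrict (LinearMap.range φ)) (LinearEquiv.ofInjective φ hi) :=
    ⟨fun _ _ => rfl, fun _ => by simp⟩
  have hU := he.nondeg hT
  have h2 : ∀ a, φ ((M + 1) a) = o.g.1 (φ a) := by simp [hφ]
  have h3 : ∀ x ∈ LinearMap.range φ, o.g.1 x ∈ LinearMap.range φ := by
    rintro _ ⟨a, rfl⟩; exact ⟨_, h2 a⟩
  exact ⟨_, ⟨_, hT, mkIsom hT (M + 1) ⟨fun x y => by simp only [comap_h, h2, isom_h], fun x => by
    simpa only [comap_q, h2] using isom_q o.g _⟩, rfl, add_sub_cancel_right M 1, hp⟩, _,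
    (Spl.cls o.nd hT (o.nd.restrict_perp hU) ((ISim.prod ⟨_, he, fun x => by exact Subtype.ext (h2 x)⟩
      (.refl _)).trans (spl_rst o.g hU h3))).symm⟩

theorem Gn.sub (G : Gn M d e₁ e₂ π₁ π₂) {p : PForm P W → Prop} (hi : i ≤ d)
    (h : ∀ S T, Pv S M → Pv T M → p S → p T → Ag S T M i ∧ ∀ j, 2 * j < i → ∀ v, qq T M (d - j) v = 0) :
    (Tq P M p).Subsingleton := by
  rintro _ ⟨S, hS, k, rfl, rfl, h1⟩ _ ⟨T, hT, l, rfl, e, h3⟩
  obtain ⟨h4, h5⟩ := h S T (pv_isom k) (e ▸ pv_isom l) h1 h3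
  obtain ⟨A, h6, h7⟩ := G.exists_isom (pv_isom k) hi (e ▸ pv_isom l) hT h4 h5
  have h8 : ∀ v, l.1 v = k.1 v := LinearMap.congr_fun (sub_left_injective e : iE l = iE k)
  exact (cls_eq _ _).2 ⟨A, h6, fun v => by simpa [h8] using h7 v⟩
end

/-- single blocks of size `2 j + 2` -/
def Vs (P : FParam (RingHom.id F)) (j : ℕ) (a : F) : Set (Mo P) := Tq P (shf F (2 * j + 1)) fun S =>
  qq S (shf F _) (j + 1) (gen F _) = 1 ∧ qq S (shf F _) j (gen F _) = a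

/-- double blocks of size `d + 1` -/
def Ws (P : FParam (RingHom.id F)) (d : ℕ) (a b : F) : Set (Mo P) := Tq P ((shf F d).prodMap (shf F d)) fun S =>
  S.h (gen F d, 0) (((shf F d).prodMap (shf F d) ^ d) (0, gen F d)) = 1 ∧
    qq S ((shf F d).prodMap (shf F d)) ((d + 1) / 2) (gen F d, 0) = a ∧
    qq S ((shf F d).prodMap (shf F d)) ((d + 1) / 2) (0, gen F d) = b

/-- values of `qq j` -/
def Vq (j : ℕ) (x : Mo P) (t : F) : Prop := ∃ o : Ob P, ⟦o⟧ = x ∧ ∃ v, qq o.S o.nl j v = t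

/-- generators of single blocks -/
def Sg (j : ℕ) (x : Mo P) (s t : F) : Prop := ∃ o : Ob P, ⟦o⟧ = x ∧ ∃ v, qq o.S o.nl (j + 1) v = s ∧ qq o.S o.nl j v = t

/-- generators of double blocks -/
def Pr (d : ℕ) (x : Mo P) (a b : F) : Prop := ∃ o : Ob P, ⟦o⟧ = x ∧ ∃ e f, o.S.h e ((o.nl ^ d) f) = 1 ∧
  qq o.S o.nl ((d + 1) / 2) e = a ∧ qq o.S o.nl ((d + 1) / 2) f = b

variable [CharP F 2] [Finite F] {a b s t : F} {x y : Mo P}

theorem Gn.qq_top [FiniteDimensional F V] (G : Gn N (2 * j + 1) e₁ e₂ π₁ π₂) (h : Pv S N) (h1 : qq S N (j + 1) e₁ = 0)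
    (h2 : qq S N (j + 1) e₂ = 0) (v : V) : qq S N (j + 1) v = 0 := by
  obtain ⟨w, hw⟩ := G.dec v
  have := lv_of_pow h.1 G.pow (j + 1) (j + 1)
  rw [hw, h.qq_add, h.qq_add, h.qq_N, this _ _ (by omega), this _ _ (by omega), h.qq_top G.pow (j := j + 1 + 1) (by omega)]
  simp [qq_smul, h1, h2]

theorem Vs.sub : (Vs P j a).Subsingleton := gn_one.sub (i := 2 * j) (by simp) fun S T hS hT h h' =>
  ⟨(((ag_top hS hT gn_one.pow).down gn_one hS hT (by simp) fun k e => by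
      obtain rfl : k = j + 1 := by omega
      simp [h.1, h'.1]).down gn_one hS hT (by simp)
        (by omega)).down gn_one hS hT (by simp) fun k e => by
      obtain rfl : k = j := by omega
      simp [h.2, h'.2],
    fun k e => hT.qq_top gn_one.pow (by omega)⟩

theorem Ws.sub (hd : Odd d → a = 0 ∧ b = 0) : (Ws P d a b).Subsingleton := gn_two.sub le_rfl fun S T hS hT h h' =>
  ⟨((ag_top hS hT gn_two.pow).down gn_two hS hT (by simp [gn_two.pow]) fun k e => by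
      obtain rfl : k = (d + 1) / 2 := by omega
      simp [h.2, h'.2]).down gn_two hS hT (h'.1.trans h.1.symm) fun k e => by
      obtain rfl : k = (d + 1) / 2 := by omega
      simp [h.2, h'.2], fun k e => by
    by_cases h1 : d + 2 ≤ 2 * (d - k)
    · exact hT.qq_top gn_two.pow h1
    obtain rfl : d = 2 * k + 1 := by omega
    obtain ⟨rfl, rfl⟩ := hd (by simp)
    rw [show 2 * k + 1 - k = k + 1 by omega]
    rw [show (2 * k + 1 + 1) / 2 = k + 1 by omega] at h'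
    exact gn_two.qq_top hT h'.2.1 h'.2.2⟩

theorem Sg.peel (h : Sg j x 1 a) (h' : Sz (2 * j + 2) x) : ∃ r ∈ Vs P j a, ∃ y, r + y = x := by
  obtain ⟨o, rfl, v, h1, h2⟩ := h
  obtain ⟨φ, h3, h4⟩ := shf_sum (N := o.nl) (d := 2 * j + 1) (y := v) (by rw [show o.nl ^ _ = 0 from h']; rfl)
  replace h4 : φ (gen F _) = v := h4
  refine gn_one.peel o φ h3 (fun s t h => ?_) (by simp [qq_comap h3, h4, h1, h2])
  have := (pv_isom o.g).top_self h' v
  rw [if_neg (by simp), show (2 * j + 1 + 1) / 2 = j + 1 by omega, h1] at this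
  simp [show s = 0 by simpa [h4, this] using h v]

theorem Pr.peel (h : Pr d x a b) (h' : Sz (d + 1) x) (hd : Odd d → a = 0 ∧ b = 0) :
    ∃ r ∈ Ws P d a b, ∃ y, r + y = x := by
  obtain ⟨o, rfl, e, f, h1, h2, h3⟩ := h
  obtain ⟨φ, h4, h5⟩ := shf_sum (N := o.nl) (d := d) (y := e) (by rw [show o.nl ^ _ = 0 from h']; rfl)
  obtain ⟨ψ, h6, h7⟩ := shf_sum (N := o.nl) (d := d) (y := f) (by rw [show o.nl ^ _ = 0 from h']; rfl)
  have h8 : ∀ a, φ.coprod ψ ((shf F d).prodMap (shf F d) a) = o.nl (φ.coprod ψ a) := by simp [h4, h6, add_sub_add_comm]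
  refine gn_two.peel o _ h8 (fun s t h => ?_) (by simp [qq_comap h8, pow_intertwine h8, gen, *])
  have h9 : ∀ v, (qq o.S o.nl ((d + 1) / 2) v = a ∨ qq o.S o.nl ((d + 1) / 2) v = b) → o.S.h v ((o.nl ^ d) v) = 0 :=
    fun v hv => by
      rw [(pv_isom o.g).top_self h']
      split_ifs with h
      exacts [rfl, by simpa [hd (Nat.not_even_iff_odd.1 h)] using hv]
  have h10 := h e
  have h11 := h f
  simp [gen, h5, h7, h9 e (.inl h2), h9 f (.inr h3), h1, (pv_isom o.g).top_symm h' f e] at h10 h11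
  simp [h10, h11]

theorem vq_mk {o : Ob P} : Vq j ⟦o⟧ t ↔ ∃ v, qq o.S o.nl j v = t := ⟨fun ⟨o', h, v, hv⟩ => by
  obtain ⟨e, h1, h2⟩ := ob_iso (Quotient.exact h)
  have := pow_intertwine (φ := e.toLinearMap) h2
  refine ⟨e v, hv ▸ ?_⟩
  cases j
  · simpa [qq, mul_sub, sub_eq_zero] using mem_lam.1 (h1.2 v)
  · simp only [qq, ← h1.1]; congr! 2 <;> exact (this _ _).symm, fun h => ⟨o, rfl, h⟩⟩

theorem Vq.of_add (h : Vq j (x + y) t) : ∃ a b, Vq j x a ∧ Vq j y b ∧ a + b = t := by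
  obtain ⟨⟨x⟩, ⟨y⟩⟩ := x, y
  obtain ⟨v, hv⟩ := (vq_mk (o := ⟨_, _, x.nd.prod y.nd, prodI _ _ (x.g, y.g)⟩)).1 h
  exact ⟨_, _, ⟨x, rfl, v.1, rfl⟩, ⟨y, rfl, v.2, rfl⟩, (qq_prod x y _ _).symm.trans hv⟩

theorem Sg.smul (h : Sg j x s t) (c : F) : Sg j x (c ^ 2 * s) (c ^ 2 * t) :=
  h.imp fun _ ⟨h, v, h1, h2⟩ => ⟨h, c • v, by rw [qq_smul, h1], by rw [qq_smul, h2]⟩

theorem Vq.scale (h : Vq j x t) (ht : t ≠ 0) (a : F) : Vq j x a := by
  obtain ⟨o, h, v, rfl⟩ := h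
  obtain ⟨c, hc⟩ := exists_sq_eq (a / qq o.S o.nl j v)
  exact ⟨o, h, c • v, by rw [qq_smul, hc, div_mul_cancel₀ _ ht]⟩

theorem vq_zero (x : Mo P) : Vq j x 0 := ⟨x.out, x.out_eq, 0, qq_zero⟩

omit [CharP F 2] [Finite F] in
theorem Vq.lam_eq (h : Vq j x t) (ht : t ≠ 0) : lam P j = 1 := by
  obtain ⟨o, -, v, rfl⟩ := h
  exact lam_cases.resolve_left fun h => ht (by rw [← lam_qq, h, zero_mul])

omit [CharP F 2] [Finite F] in
theorem Vq.add (h : Vq j x s) (h' : Vq j y t) : Vq j (x + y) (s + t) := by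
  obtain ⟨⟨x, rfl, v, rfl⟩, y, rfl, w, rfl⟩ := And.intro h h'
  exact ⟨⟨_, _, x.nd.prod y.nd, prodI _ _ (x.g, y.g)⟩, rfl, (v, w), qq_prod ..⟩

omit [CharP F 2] [Finite F] in
theorem Sg.add (h : Sg j x s t) (h' : Sg j y a b) : Sg j (x + y) (s + a) (t + b) := by
  obtain ⟨⟨x, rfl, v, rfl, rfl⟩, y, rfl, w, rfl, rfl⟩ := And.intro h h'
  exact ⟨⟨_, _, x.nd.prod y.nd, prodI _ _ (x.g, y.g)⟩, rfl, (v, w), qq_prod .., qq_prod ..⟩

theorem Pr.add (h : Pr d x a b) (h' : Vq ((d + 1) / 2) y s) :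
    Pr d (x + y) (a + s) b ∧ Pr d (x + y) a (b + s) := by
  obtain ⟨⟨x, rfl, e, f, h1, rfl, rfl⟩, y, rfl, w, rfl⟩ := And.intro h h'
  exact ⟨⟨⟨_, _, x.nd.prod y.nd, prodI _ _ (x.g, y.g)⟩, rfl, (e, w), (f, 0), by simpa [Ob.nl, N_prod] using h1,
    qq_prod .., (qq_prod ..).trans (by simp)⟩, ⟨_, _, x.nd.prod y.nd, prodI _ _ (x.g, y.g)⟩, rfl, (e, 0), (f, w),
      by simpa [Ob.nl, N_prod] using h1, (qq_prod ..).trans (by simp), qq_prod ..⟩

omit [Finite F] in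
theorem exists_pr (h : ¬ Sz d x) : ∃ a b, Pr d x a b := by
  obtain ⟨o⟩ := x
  obtain ⟨f, hf⟩ := DFunLike.ne_iff.1 (h : o.nl ^ d ≠ 0)
  obtain ⟨e, he⟩ := not_forall.1 (mt (o.nd _) hf)
  exact ⟨_, _, o, rfl, (o.S.h ((o.nl ^ d) f) e)⁻¹ • e, f, by simp [two_symm o.S _ e, he], rfl, rfl⟩

/-- the form `qq j` vanishes -/
def Zq (j : ℕ) (x : Mo P) : Prop := lam P j = 1 ∧ ∀ t, Vq j x t → t = 0

theorem Zq.of_add (h : Zq j (x + y)) : Zq j y := ⟨h.1, fun t ht => h.2 t (by simpa using (vq_zero x).add ht)⟩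

theorem Zq.pr (h : Zq (j + 1) x) (h' : ¬ Sz (2 * j + 1) x) : Pr (2 * j + 1) x 0 0 := by
  obtain ⟨a, b, o, rfl, e, f, h1, rfl, rfl⟩ := exists_pr h'
  have : (2 * j + 1 + 1) / 2 = j + 1 := by omega
  exact ⟨o, rfl, e, f, h1, h.2 _ ⟨o, rfl, e, by rw [this]⟩, h.2 _ ⟨o, rfl, f, by rw [this]⟩⟩

theorem Zq.sz (h : Zq j x) (h' : Sz i x) : Sz (2 * j) x := by
  obtain ⟨o⟩ := x
  have h1 := pv_isom o.g
  have h2 : ∀ v, qq o.S o.nl j v = 0 := fun v => h.2 _ ⟨o, rfl, v, rfl⟩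
  have h3 : Lv o.S.h o.nl (2 * j) := Nat.decreasingInduction' (P := Lv o.S.h o.nl) (fun k _ hk hL => hL.step h1.1
    fun u v => by
      obtain ⟨k, rfl⟩ := Nat.exists_eq_add_of_le hk
      simpa [h2, h.1, ← End.mul_apply, ← pow_add, hL.shift h1.1 j (j + k) u v (by ring)] using
        (h1.qq_add (j := j) u ((o.nl ^ k) v)).symm) (Nat.le_add_right _ i)
      (lv_of_pow h1.1 (pow_eq_zero_of_le (Nat.le_add_left _ _) h'))
  exact LinearMap.ext fun v => o.nd _ fun u => by simpa using h3 _ 0 v u le_rfl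

variable {α : F}

theorem Pr.norm (hα : ∀ b, ∃ c, c ^ 2 + c = b ∨ c ^ 2 + c = b + α) (h : Pr (2 * j) x a b) (h' : Sz (2 * j + 1) x) :
    Pr (2 * j) x 0 0 ∨ lam P j = 1 ∧ a ≠ 0 ∧ Pr (2 * j) x 1 α := by
  have e0 : (2 * j + 1) / 2 = j := by omega
  rcases lam_cases (P := P) (j := j) with h0 | h0
  · obtain ⟨o, rfl, e, f, h1, -⟩ := h
    exact .inl ⟨o, rfl, e, f, h1, by rw [e0, ← lam_qq, h0, zero_mul], by rw [e0, ← lam_qq, h0, zero_mul]⟩
  have h1 : ∀ {a b} (c k : F), k ≠ 0 → Pr (2 * j) x a b →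
      Pr (2 * j) x (k⁻¹ ^ 2 * b + c ^ 2 * (k ^ 2 * a) + c) (k ^ 2 * a) := by
    rintro _ _ c k hk ⟨o, rfl, e, f, h1, rfl, rfl⟩
    have h2 := pv_isom o.g
    have h3 := h2.top_even h'
    have h4 := h2.top_symm h' f e
    refine ⟨o, rfl, k⁻¹ • f + c • k • e, k • e, ?_, ?_, qq_smul ..⟩
    · simp [h4, h1, hk, ← h3 e e]
    · simp [h2.qq_add, qq_smul, e0, h0, h3, h4, h1, mul_left_comm k⁻¹, hk]
  have h2 : ∀ {b}, Pr (2 * j) x 0 b → Pr (2 * j) x 0 0 := fun {b} h => by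
    simpa [CharTwo.add_self_eq_zero] using h1 b 1 one_ne_zero h
  by_cases ha : a = 0
  · exact .inl (h2 (ha ▸ h))
  obtain ⟨k, hk⟩ := exists_sq_eq a⁻¹
  have k0 : k ≠ 0 := by rintro rfl; simp [eq_comm, ha] at hk
  obtain ⟨c, hc⟩ := hα (k⁻¹ ^ 2 * b)
  have h3 := h1 c k k0 h
  rw [hk, inv_mul_cancel₀ ha, mul_one, add_assoc] at h3
  rcases hc with hc | hc
  · exact .inl (h2 (by simpa [hc, CharTwo.add_self_eq_zero] using h3))
  · exact .inr ⟨h0, ha, by simpa [hc, CharTwo.add_cancel_left] using h1 0 1 one_ne_zero h3⟩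

theorem Vq.sg (hα : ∀ b, ∃ c, c ^ 2 + c = b ∨ c ^ 2 + c = b + α) (h : Vq (j + 1) x 1) (h' : Sz (2 * j + 2) x) :
    Sg j x 1 0 ∨ lam P j = 1 ∧ Sg j x 1 α := by
  obtain ⟨o, rfl, v, hv⟩ := h
  rcases lam_cases (P := P) (j := j) with h0 | h0
  · exact .inl ⟨o, rfl, v, hv, by rw [← lam_qq, h0, zero_mul]⟩
  have h1 := pv_isom o.g
  obtain ⟨c, hc⟩ := hα (qq o.S o.nl j v)
  have : Sg j ⟦o⟧ 1 (qq o.S o.nl j v + (c ^ 2 + c)) := ⟨o, rfl, v + c • o.nl v, by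
    have := lv_of_pow h1.1 h' (j + 1) (j + 1 + 1) v v (by omega)
    rw [pow_succ _ (j + 1), End.mul_apply] at this
    rw [h1.qq_add, qq_smul, h1.qq_N, map_smul, map_smul, this, h1.qq_top (d := 2 * j + 1) (j := j + 1 + 1) h' (by omega)]
    simpa, by
    have : o.S.h ((o.nl ^ j) v) ((o.nl ^ j) (o.nl v)) = 1 := hv
    rw [h1.qq_add, qq_smul, h1.qq_N, map_smul, map_smul, this, hv, h0]; simp [add_assoc]⟩
  rcases hc with hc | hc
  · exact .inl (by simpa [hc, CharTwo.add_self_eq_zero] using this)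
  · exact .inr ⟨h0, by simpa [hc, CharTwo.add_cancel_left] using this⟩

theorem Sg.zq (h : Sg j x 1 a) (h0 : lam P j = 1) (h' : Sz (2 * j + 2) y) (hn : ¬ Sg j (x + y) 1 0) : Zq j y := by
  obtain ⟨o, rfl⟩ := y.exists_rep
  have h1 := pv_isom o.g
  have h2 : ∀ w, qq o.S o.nl (j + 1) w = 0 → qq o.S o.nl j w = 0 := fun w hw => by_contra fun h2 => by
    obtain ⟨c, hc⟩ := exists_sq_eq (a / qq o.S o.nl j w)
    exact hn (by simpa [hc, h2, CharTwo.add_self_eq_zero] using h.add (Sg.smul ⟨o, rfl, w, hw, rfl⟩ c))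
  refine ⟨h0, fun t ht => ?_⟩
  obtain ⟨v, rfl⟩ := vq_mk.1 ht
  exact h2 _ (by simpa only [h1.qq_N, h0, one_mul] using h2 (o.nl v) (by
    rw [h1.qq_N, h1.qq_top (d := 2 * j + 1) (j := j + 1 + 1) h' (by omega), mul_zero]))

omit [CharP F 2] [Finite F] in
theorem Vs.sg (h : x ∈ Vs P j a) : Sg j x 1 a := by
  obtain ⟨S, hS, k, rfl, e, h⟩ := h
  exact ⟨⟨_, S, hS, k⟩, rfl, gen F _, (e ▸ h :)⟩

theorem Ws.zq (h : x ∈ Ws P (2 * j + 1) 0 0) : Zq (j + 1) x := by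
  obtain ⟨S, hS, k, rfl, e, -, h⟩ := h
  refine ⟨lam_succ, fun t ht => ?_⟩
  obtain ⟨v, rfl⟩ := (vq_mk (o := ⟨_, S, hS, k⟩)).1 ht
  rw [show (2 * j + 1 + 1) / 2 = j + 1 by omega] at h
  exact (e ▸ gn_two.qq_top (e ▸ pv_isom k) h.1 h.2 v :)

/-- unipotent classes with vanishing top form -/
def Ua (P : FParam (RingHom.id F)) (j : ℕ) : Set (Mo P) := {x | Sz (2 * j) x ∧ Zq j x}
/-- unipotent classes with nonvanishing top form -/
def Ub (P : FParam (RingHom.id F)) (j : ℕ) : Set (Mo P) := {x | Sz (2 * j) x ∧ ¬ Zq j x}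
/-- unipotent classes with blocks of size at most `2 j + 1` -/
def Uc (P : FParam (RingHom.id F)) (j : ℕ) : Set (Mo P) := {x | Sz (2 * j + 1) x ∧ ¬ Zq j x}

theorem ua_or (h : Sz (2 * j + 1) x) : x ∈ Ua P j ∨ x ∈ Uc P j :=
  (em (Zq j x)).imp (fun h' => ⟨h'.sz h, h'⟩) fun h' => ⟨h, h'⟩

open Pointwise

theorem ua_sub : Ua P (j + 1) ⊆ (Ua P j ∪ Uc P j) ∪ (Ws P (2 * j + 1) 0 0 + Ua P (j + 1)) := fun x ⟨h1, h2⟩ => by
  by_cases h : Sz (2 * j + 1) x
  · exact .inl (ua_or h)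
  obtain ⟨r, hr, y, rfl⟩ := (h2.pr h).peel h1 (by simp)
  exact .inr ⟨r, hr, y, ⟨(sz_add.1 h1).2, h2.of_add⟩, rfl⟩

variable (hα : ∀ b, ∃ c, c ^ 2 + c = b ∨ c ^ 2 + c = b + α)
include hα

theorem uc_sub : Uc P j ⊆ (Ub P j ∪ ((Ws P (2 * j) 0 0 ∪ Ws P (2 * j) 1 α) + Ua P j)) ∪
    (Ws P (2 * j) 0 0 + Uc P j) := fun x ⟨h1, h2⟩ => by
  by_cases h : Sz (2 * j) x
  · exact .inl (.inl ⟨h, h2⟩)
  by_cases h3 : Pr (2 * j) x 0 0
  · obtain ⟨r, hr, y, rfl⟩ := h3.peel h1 (by simp)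
    exact (ua_or (sz_add.1 h1).2).elim (fun h => .inl (.inr ⟨r, .inl hr, y, h, rfl⟩)) fun h => .inr ⟨r, hr, y, h, rfl⟩
  obtain ⟨a, b, h4⟩ := exists_pr h
  obtain ⟨h5, -, h6⟩ := (h4.norm hα h1).resolve_left h3
  obtain ⟨r, hr, y, rfl⟩ := h6.peel h1 (by simp)
  refine .inl (.inr ⟨r, .inr hr, y, (ua_or (sz_add.1 h1).2).resolve_right fun h => h.2 ⟨h5, fun t ht =>
    by_contra fun h0 => ?_⟩, rfl⟩)
  obtain ⟨S, hS, k, rfl, e, hr⟩ := hr
  have h7 : Pr (2 * j) (cls hS k) 1 α := ⟨⟨_, S, hS, k⟩, rfl, _, _, (e ▸ hr :)⟩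
  simpa [h3, CharTwo.add_self_eq_zero] using (h7.add (y := y) (s := 1) (by
    rw [show (2 * j + 1) / 2 = j by omega]; exact ht.scale h0 1)).1.norm hα h1

/-- classes with a single block of size `2 j + 2` -/
def Ud (P : FParam (RingHom.id F)) (α : F) (j : ℕ) : Set (Mo P) :=
  ((Vs P j 0 ∪ Vs P j α) + Ua P j) ∪ (Vs P j 0 + Uc P j)

theorem ub_aux (h : x ∈ Ub P (j + 1)) :
    x ∈ Ud P α j ∨ ∃ r ∈ Vs P j 0, ∃ y, r + y = x ∧ Sz (2 * j + 2) y ∧ ¬ Sz (2 * j + 1) y := by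
  by_cases h1 : Sg j x 1 0
  · obtain ⟨r, hr, y, rfl⟩ := h1.peel h.1
    by_cases h2 : Sz (2 * j + 1) y
    · exact .inl ((ua_or h2).imp (fun h => ⟨r, .inl hr, y, h, rfl⟩) fun h => ⟨r, hr, y, h, rfl⟩)
    · exact .inr ⟨r, hr, y, rfl, (sz_add.1 h.1).2, h2⟩
  obtain ⟨t, ht, h0⟩ : ∃ t, Vq (j + 1) x t ∧ t ≠ 0 := by simpa [Zq] using h.2
  obtain ⟨h2, h3⟩ := ((ht.scale h0 1).sg hα h.1).resolve_left h1
  obtain ⟨r, hr, y, rfl⟩ := h3.peel h.1
  have h4 := (Vs.sg hr).zq h2 (sz_add.1 h.1).2 h1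
  exact .inl (.inl ⟨r, .inr hr, y, ⟨h4.sz (sz_add.1 h.1).2, h4⟩, rfl⟩)

theorem ub_sub : Ub P (j + 1) ⊆ (Ud P α j ∪ (Vs P j 0 + Ud P α j)) ∪ (Ws P (2 * j + 1) 0 0 + Ub P (j + 1)) :=
    fun x h => by
  by_cases h1 : Pr (2 * j + 1) x 0 0
  · obtain ⟨r, hr, y, rfl⟩ := h1.peel h.1 (by simp)
    refine .inr ⟨r, hr, y, ⟨(sz_add.1 h.1).2, fun h2 => h.2 ⟨lam_succ, fun t ht => ?_⟩⟩, rfl⟩
    obtain ⟨a, b, ha, hb, rfl⟩ := ht.of_add
    rw [(Ws.zq hr).2 a ha, h2.2 b hb, add_zero]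
  refine .inl ((ub_aux hα h).imp_right ?_)
  rintro ⟨r, hr, y, rfl, h2, h3⟩
  have h4 : ∀ {r} a, r ∈ Vs P j 0 → Vq ((2 * j + 1 + 1) / 2) r a := fun a hr => by
    obtain ⟨o, h, v, h', -⟩ := Vs.sg hr
    rw [show (2 * j + 1 + 1) / 2 = j + 1 by omega]
    exact Vq.scale ⟨o, h, v, h'⟩ one_ne_zero a
  refine ⟨r, hr, y, (ub_aux hα ⟨h2, fun h => h1 ?_⟩).resolve_right ?_, rfl⟩
  · simpa [add_comm r] using ((h.pr h3).add (h4 0 hr)).1
  rintro ⟨r', hr', y, rfl, -, h5⟩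
  obtain ⟨a, b, h6⟩ := exists_pr h5
  simpa [h1, CharTwo.add_self_eq_zero, add_comm y, add_comm _ r] using ((h6.add (h4 a hr')).1.add (h4 b hr)).2

omit hα in
theorem exists_alpha : ∃ α : F, (∀ c, c ^ 2 + c ≠ α) ∧ ∀ b, ∃ c, c ^ 2 + c = b ∨ c ^ 2 + c = b + α := by
  let φ : F →+ F := (frobenius F 2).toAddMonoidHom + .id F
  have h1 : φ.range.index = 2 := by
    rw [AddSubgroup.index_range, ← Set.ncard_pair (zero_ne_one' F), ← Nat.card_coe_set_eq]
    refine Nat.card_congr (Equiv.subtypeEquivRight fun c => ?_)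
    simp [φ, frobenius_def, CharTwo.add_eq_iff_eq_add, sq, ← IsIdempotentElem.iff_eq_zero_or_one]; rfl
  obtain ⟨α, h2⟩ := exists_aniso_poly (F := F)
  have h3 : ∀ c, c ^ 2 + c ≠ α := fun c e => h2 c (by rw [e, CharTwo.add_self_eq_zero])
  refine ⟨α, h3, fun b => ?_⟩
  by_cases h : b ∈ φ.range
  · exact h.imp fun c h => .inl h
  · exact ((AddSubgroup.add_mem_iff_of_index_two h1).2 (iff_of_false h fun ⟨c, h⟩ => h3 c h)).imp fun c h => .inr h

omit hα [CharP F 2]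

theorem Vs.dim (h : x ∈ Vs P j a) : dm x.JD = 2 * j + 2 := by
  obtain ⟨S, hS, k, rfl, -⟩ := h
  exact (dm_JD _).trans (by simp)

theorem Ws.dim (h : x ∈ Ws P d a b) : dm x.JD = 2 * d + 2 := by
  obtain ⟨S, hS, k, rfl, -⟩ := h
  exact (dm_JD _).trans (by simp; ring)

theorem Sz.JD (h : Sz 0 x) : x.JD = 0 := by
  obtain ⟨o⟩ := x
  have : Subsingleton o.V := ⟨fun a b => (LinearMap.congr_fun h a).trans (LinearMap.congr_fun h b).symm⟩
  have h1 := dm_JD (iE o.g)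
  rw [finrank_zero_of_subsingleton, dm, Multiset.sum_eq_zero_iff] at h1
  exact Multiset.eq_zero_of_forall_notMem fun z hz => (JD_pos hz).ne' (h1 _ (Multiset.mem_map_of_mem _ hz))

theorem exists_sz (x : Mo P) : ∃ u y, u + y = x ∧ Sz (dm u.JD) u ∧ ∀ z ∈ y.JD, z.1 ≠ 1 := by
  obtain ⟨μ, ⟨u⟩, hu, y, rfl, h⟩ := exists_UJ x
  refine ⟨_, y, rfl, (UJ.pow hu).2 fun k hk => ?_, h⟩
  rw [show Mo.JD _ = _ from hu]
  simpa [dm] using Multiset.single_le_sum (by simp) k hk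

end H11
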