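import Cfsg.Agent.H11.Two
/-! Counting classes of symplectic and orthogonal groups in characteristic two: the counting predicate `Cf`,
the recursion `FG`, `cf_step`, `cf_all` and the bound `symp_two_classes`. -/
namespace H11
open Module Finset PowerSeries Pointwise
open PForm hiding X

universe u
section Num
variable {r B B' q : ℝ} {f g : ℝ⟦X⟧}

/-- the recursion for the normalised generating functions -/
def FG {R : Type*} [CommSemiring R] (t a b : R) : ℕ → R × R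
  | 0 => (a, b)
  | j + 1 => ((t ^ (j + 1) + t ^ (2 * j + 2)) * ((FG t a b j).1 + 2 * (FG t a b j).2),
      (FG t a b j).1 + (1 + t ^ (2 * j + 1)) * (FG t a b j).2)

theorem fg_nonneg {a b : ℝ} (ha : 0 ≤ a) (hb : 0 ≤ b) (j : ℕ) :
    0 ≤ (FG 2⁻¹ a b j).1 ∧ 0 ≤ (FG 2⁻¹ a b j).2 := by
  induction j with
  | zero => exact ⟨ha, hb⟩
  | succ j ih => obtain ⟨h, h'⟩ := ih; constructor <;> rw [FG] <;> positivity

theorem fg_tail {a b β Γ : ℝ} (ha : 0 ≤ a) (hb : 0 ≤ b) (h1 : (FG 2⁻¹ a b 8).1 ≤ β * 2⁻¹ ^ 8)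
    (h2 : (FG 2⁻¹ a b 8).2 + (2 * β + Γ / 256) * 2⁻¹ ^ 8 ≤ Γ) (h3 : (1 + 1 / 512) * (β / 256 + 2 * Γ) ≤ β)
    (hβ : 0 ≤ β) (hΓ : 0 ≤ Γ) (j : ℕ) : (FG 2⁻¹ a b (8 + j)).1 + (FG 2⁻¹ a b (8 + j)).2 ≤ Γ := by
  have : (FG 2⁻¹ a b (8 + j)).1 ≤ β * 2⁻¹ ^ (8 + j) ∧
      (FG 2⁻¹ a b (8 + j)).2 + (2 * β + Γ / 256) * 2⁻¹ ^ (8 + j) ≤ Γ := by
    induction j with
    | zero => exact ⟨h1, h2⟩
    | succ j ih =>
      obtain ⟨h4, h5⟩ := fg_nonneg ha hb (8 + j)
      rw [← add_assoc, FG]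
      have h6 : (2⁻¹ : ℝ) ^ (8 + j) ≤ 1 / 256 := (pow_le_pow_of_le_one (by norm_num) (by norm_num)
        (Nat.le_add_right 8 j)).trans (by norm_num)
      have h7 : (0 : ℝ) < 2⁻¹ ^ (8 + j) := by positivity
      simp only [pow_succ _ (2 * _ + 1), pow_succ _ (2 * _), pow_succ _ (8 + j), pow_mul']
      generalize (FG 2⁻¹ a b (8 + j)).1 = f, (FG 2⁻¹ a b (8 + j)).2 = g, (2⁻¹ : ℝ) ^ (8 + j) = x at *
      have h8 : g ≤ Γ := by nlinarith [ih.2]
      have h9 : (1 + x / 2) * (f + 2 * g) ≤ β :=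
        le_trans (mul_le_mul (by linarith) (by nlinarith [ih.1]) (by positivity) (by norm_num)) h3
      exact ⟨by nlinarith, by nlinarith [ih.1, ih.2, mul_le_mul h6 h8 h5 (by norm_num)]⟩
  nlinarith [this.1, this.2, show (0 : ℝ) < 2⁻¹ ^ (8 + j) by positivity]

theorem fg_symp (j : ℕ) : (FG 2⁻¹ 1 0 (8 + j)).1 + (FG 2⁻¹ 1 0 (8 + j)).2 ≤ (4.386 : ℝ) :=
  fg_tail (β := 8.83) zero_le_one le_rfl (by norm_num [FG]) (by norm_num [FG]) (by norm_num) (by norm_num)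
    (by norm_num) j

theorem fg_orth (j : ℕ) : (FG 2⁻¹ 0 1 (8 + j)).1 + (FG 2⁻¹ 0 1 (8 + j)).2 ≤ (7.4 : ℝ) :=
  fg_tail (β := 15) le_rfl zero_le_one (by norm_num [FG]) (by norm_num [FG]) (by norm_num) (by norm_num)
    (by norm_num) j

theorem Bd.add (h : Bd r f B) (h' : Bd r g B') : Bd r (f + g) (B + B') := fun n => by
  rw [map_add, add_mul]; exact add_le_add (h n) (h' n)

theorem nn_gs (hq : 0 ≤ q) (i : ℕ) : NN (Gs q i) := nn_exs (fun m => by split_ifs <;> positivity) i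

theorem gs_one (i : ℕ) : Gs 1 i * (1 - X ^ (2 * (i + 1))) = 1 := by simpa using gs_mul (q := 1) i

variable (hq : 2 ≤ q)
include hq

theorem Bd.X_sq (h : Bd √q f B) (hB : 0 ≤ B) (i : ℕ) : Bd √q ((X ^ 2) ^ i * f) (2⁻¹ ^ i * B) := fun n => by
  rw [← pow_mul, coeff_X_pow_mul']
  split_ifs with hn
  · obtain ⟨k, rfl⟩ := Nat.exists_eq_add_of_le hn
    rw [Nat.add_sub_cancel_left, pow_add, pow_mul, Real.sq_sqrt (by linarith), mul_mul_mul_comm, ← mul_pow]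
    exact (h k).trans (le_mul_of_one_le_left (by positivity) (one_le_pow₀ (by linarith)))
  · positivity

theorem bd_fg (h : Bd √q f B) (hB : 0 ≤ B) (a b j : ℕ) :
    Bd √q ((FG (R := ℝ⟦X⟧) (X ^ 2) a b j).1 * f) ((FG (R := ℝ) 2⁻¹ a b j).1 * B) ∧
    Bd √q ((FG (R := ℝ⟦X⟧) (X ^ 2) a b j).2 * f) ((FG (R := ℝ) 2⁻¹ a b j).2 * B) := by
  induction j with
  | zero => constructor <;> intro n <;> simp only [FG, ← nsmul_eq_mul, map_nsmul, smul_mul_assoc] <;>
      exact nsmul_le_nsmul_right (h n) _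
  | succ j ih =>
    obtain ⟨h1, h2⟩ := fg_nonneg a.cast_nonneg b.cast_nonneg j
    have h3 := (ih.1.add ih.2).add ih.2
    exact ⟨by convert (h3.X_sq hq (by positivity) (j + 1)).add (h3.X_sq hq (by positivity) (2 * j + 2)) using 1 <;>
      rw [FG] <;> ring, by
      convert (ih.1.add ih.2).add (ih.2.X_sq hq (by positivity) (2 * j + 1)) using 1 <;> rw [FG] <;> ring⟩

theorem bd_gs (N : ℕ) : Bd √q (∏ i ∈ range (6 + N), Gs q i) 3.464 := by
  have h0 : 0 < √q := by positivity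
  have h1 : ∀ j g B, 0 ≤ B → Bd √q g B → Bd √q (g * Gs q (j + 1)) (B / (1 - 2⁻¹ ^ (j + 1))) := fun j g B hB h =>
    h.of_mul h0 hB (c := q) (by linarith) (i := 2 * (j + 1 + 1)) (by simp) (by
      rw [pow_mul, Real.sq_sqrt (by linarith), pow_succ q, ← mul_assoc, ← mul_pow]
      exact le_mul_of_one_le_left (by linarith) (one_le_pow₀ (by linarith)))
      (pow_lt_one₀ (by norm_num) (by norm_num) (by simp)) (by rw [mul_assoc, gs_mul, mul_one])
  have h2 : Bd √q (Gs q 0) 1 := fun n => by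
    simp only [Gs, zero_add, expand_one, AlgHom.id_apply, Pe, coeff_mk, one_mul]
    split_ifs with h
    · obtain ⟨k, rfl⟩ := h.two_dvd
      rw [pow_mul, Real.sq_sqrt (by linarith), Nat.mul_div_cancel_left _ two_pos]
    · positivity
  refine Bd.mono (B := 3.464 * (1 - 2⁻¹ ^ (5 + N))) ?_ h0 (mul_le_of_le_one_right (by norm_num) (by simp))
  induction N with
  | zero =>
    simp only [add_zero, prod_range_succ, prod_range_zero, one_mul]
    exact (h1 4 _ _ (by norm_num) (h1 3 _ _ (by norm_num) (h1 2 _ _ (by norm_num) (h1 1 _ _ (by norm_num)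
      (h1 0 _ _ (by norm_num) h2))))).mono h0 (by norm_num)
  | succ N ih =>
    have h3 : (2⁻¹ : ℝ) ^ (5 + N) ≤ 1 := pow_le_one₀ (by norm_num) (by norm_num)
    rw [← add_assoc, prod_range_succ, show 6 + N = 5 + N + 1 by ring]
    rw [show 6 + N = 5 + N + 1 by ring] at ih
    refine (h1 _ _ _ (mul_nonneg (by norm_num) (by linarith)) ih).mono h0 ?_
    rw [← add_assoc, pow_succ, div_le_iff₀ (by linarith)]
    nlinarith [sq_nonneg ((2⁻¹ : ℝ) ^ (5 + N))]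
end Num

variable {F : Type u} [Field F] [Finite F] {P : FParam (RingHom.id F)} {χ : Mo P → ℤˣ} {A B R : Set (Mo P)}
  {f g : ℝ⟦X⟧} {j m : ℕ}

/-- the number of classes in `A` of given dimension and type is bounded by the coefficients of `f` -/
def Cf (χ : Mo P → ℤˣ) (A : Set (Mo P)) (f : ℝ⟦X⟧) : Prop :=
  ∀ n s (T : Finset (Mo P)), (∀ x ∈ T, x ∈ A ∧ dm x.JD = n ∧ χ x = s) → (#T : ℝ) ≤ coeff n f

theorem Cf.nn (h : Cf χ A f) : NN f := fun n => by simpa using h n 1 ∅ (by simp)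

theorem Cf.mono (h : Cf χ A f) (h' : B ⊆ A) : Cf χ B f := fun n s T hT =>
  h n s T fun x hx => ⟨h' (hT x hx).1, (hT x hx).2⟩

theorem Cf.add_nn (h : Cf χ A f) (h' : NN g) : Cf χ A (f + g) := fun n s T hT => by
  rw [map_add]; exact (h n s T hT).trans (le_add_of_nonneg_right (h' n))

theorem Cf.union (h : Cf χ A f) (h' : Cf χ B g) : Cf χ (A ∪ B) (f + g) := fun n s T hT => by
  classical
  rw [← card_filter_add_card_filter_not (· ∈ A), Nat.cast_add, map_add]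
  exact add_le_add (h n s _ fun x hx => ⟨(mem_filter.1 hx).2, (hT x (mem_filter.1 hx).1).2⟩) (h' n s _ fun x hx =>
    ⟨(hT x (mem_filter.1 hx).1).1.resolve_left (mem_filter.1 hx).2, (hT x (mem_filter.1 hx).1).2⟩)

theorem cf_X (h : R.InjOn χ) (h' : ∀ r ∈ R, dm r.JD = m) : Cf χ R (X ^ m) := fun n s T hT => by
  rw [coeff_X_pow]
  split_ifs with e
  · exact_mod_cast card_le_one.2 fun x hx y hy => h (hT x hx).1 (hT y hy).1 ((hT x hx).2.2.trans (hT y hy).2.2.symm)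
  · simp [eq_empty_of_forall_notMem fun x hx => e ((hT x hx).2.1.symm.trans (h' x (hT x hx).1))]

theorem cf_empty : Cf χ ∅ 0 := fun n s T hT => by simp [eq_empty_of_forall_notMem fun x hx => (hT x hx).1]

variable (hχ : ∀ x y, χ (x + y) = χ x * χ y)
include hχ

theorem Cf.mul (h : Cf 1 R g) (h' : Cf χ A f) : Cf χ (R + A) (g * f) := fun n s T hT => by
  classical
  obtain rfl | ⟨x, -⟩ := T.eq_empty_or_nonempty
  · simpa using h.nn.mul h'.nn n
  have : Nonempty (Mo P) := ⟨x⟩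
  choose! φ h1 ψ h2 h3 using fun x hx => (hT x hx).1
  have h4 : ∀ x ∈ T, dm (φ x).JD + dm (ψ x).JD = n := fun x hx => by
    rw [← dm_add, ← Mo.JD_add, show φ x + ψ x = x from h3 x hx, (hT x hx).2.1]
  rw [coeff_mul, card_eq_sum_card_fiberwise (f := fun x => (dm (φ x).JD, dm (ψ x).JD)) (t := antidiagonal n)
    fun x hx => by simpa using h4 x hx, Nat.cast_sum]
  refine sum_le_sum fun p _ => ?_
  rw [card_eq_sum_card_image φ, Nat.cast_sum]
  refine (sum_le_card_nsmul _ _ (coeff p.2 f) fun r _ => ?_).trans ?_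
  · rw [← card_image_of_injOn (f := ψ) fun x hx y hy e => by
      simp only [coe_filter, mem_filter, Set.mem_setOf] at hx hy
      rw [← h3 x hx.1.1, ← h3 y hy.1.1, hx.2, hy.2, e]]
    refine h' _ (χ r * s) _ (forall_mem_image.2 fun x hx => ?_)
    simp only [mem_filter] at hx
    refine ⟨h2 x hx.1.1, congrArg Prod.snd hx.1.2, ?_⟩
    rw [← (hT x hx.1.1).2.2, ← hx.2, ← congrArg χ (h3 x hx.1.1), hχ, ← mul_assoc, Int.units_mul_self, one_mul]
  · rw [nsmul_eq_mul]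
    exact mul_le_mul_of_nonneg_right (h _ 1 _ (forall_mem_image.2 fun x hx => ⟨h1 x (mem_filter.1 hx).1,
      congrArg Prod.fst (mem_filter.1 hx).2, rfl⟩)) (h'.nn _)

theorem Cf.rec' (h : Cf χ B f) (hA : A ⊆ B ∪ (R + A)) (hR : R.Subsingleton) (h' : ∀ r ∈ R, dm r.JD = 2 * (m + 1)) :
    Cf χ A (f * Gs 1 m) := by
  have h1 : ∀ N, Cf χ {x ∈ A | dm x.JD < N} (f * Gs 1 m) := fun N => by
    induction N with
    | zero => simpa using cf_empty.add_nn (h.nn.mul (nn_gs zero_le_one m))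
    | succ N ih =>
      convert (h.union ((cf_X (hR.injOn _) h').mul hχ ih)).mono (B := {x ∈ A | dm x.JD < N + 1})
        fun x hx => (hA hx.1).imp_right ?_ using 1
      · linear_combination f * gs_one m
      rintro ⟨r, hr, y, hy, rfl⟩
      exact ⟨r, hr, y, ⟨hy, by have := hx.2; rw [Mo.JD_add, dm_add, h' r hr] at this; omega⟩, rfl⟩
  exact fun n s T hT => h1 (n + 1) n s T fun x hx => ⟨⟨(hT x hx).1, by simp [(hT x hx).2.1]⟩, (hT x hx).2⟩

variable [CharP F 2] {α : F}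

theorem cf_step (hα : ∀ b, ∃ c, c ^ 2 + c = b ∨ c ^ 2 + c = b + α) {a b p : ℝ⟦X⟧} (ha : Cf χ (Ua P j) a)
    (hb : Cf χ (Ub P j) b) (hW : Cf χ ((Ws P (2 * j) 0 0 ∪ Ws P (2 * j) 1 α) + Ua P j) (X ^ (4 * j + 2) * p))
    (hV : Cf χ ((Vs P j 0 ∪ Vs P j α) + Ua P j) (X ^ (2 * j + 2) * p)) :
    Cf χ (Ua P (j + 1)) ((a + (b + X ^ (4 * j + 2) * p) * Gs 1 (2 * j)) * Gs 1 (2 * j + 1)) ∧
    Cf χ (Ub P (j + 1)) ((X ^ (2 * j + 2) + X ^ (4 * j + 4)) * (p + (b + X ^ (4 * j + 2) * p) * Gs 1 (2 * j)) *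
      Gs 1 (2 * j + 1)) := by
  have hc := (hb.union hW).rec' hχ (uc_sub hα) (Ws.sub (by simp)) (m := 2 * j) fun r hr => Ws.dim hr
  have h0 : Cf 1 (Vs P j 0) _ := cf_X (Vs.sub.injOn _) fun r hr => Vs.dim hr
  have hd := hV.union (h0.mul hχ hc)
  refine ⟨(ha.union hc).rec' hχ ua_sub (Ws.sub (by simp)) fun r hr => Ws.dim hr, ?_⟩
  convert (hd.union (h0.mul hχ hd)).rec' hχ (ub_sub hα) (Ws.sub (by simp)) fun r hr => Ws.dim hr using 2
  ring

omit hχ in
theorem cf_tot {a b : ℕ} (ha : Cf 1 (Ub P 0) a) (hb : Cf 1 (Ua P 0) b) (j : ℕ) :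
    Cf 1 (Ua P j) ((FG (R := ℝ⟦X⟧) (X ^ 2) a b j).2 * ∏ i ∈ range (2 * j), Gs 1 i) ∧
      Cf 1 (Ub P j) ((FG (R := ℝ⟦X⟧) (X ^ 2) a b j).1 * ∏ i ∈ range (2 * j), Gs 1 i) := by
  obtain ⟨α, -, hα⟩ := exists_alpha (F := F)
  induction j with
  | zero => exact ⟨by simpa [FG], by simpa [FG]⟩
  | succ j ih =>
    have h : ∀ {R R' m}, R.Subsingleton → R'.Subsingleton → (∀ r ∈ R, dm r.JD = m) → (∀ r ∈ R', dm r.JD = m) →
        Cf 1 ((R ∪ R') + Ua P j) (X ^ m * (2 * ((FG (R := ℝ⟦X⟧) (X ^ 2) a b j).2 * ∏ i ∈ range (2 * j), Gs 1 i))) :=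
      fun h1 h2 h3 h4 => by
        convert ((cf_X (h1.injOn _) h3).union (cf_X (h2.injOn _) h4)).mul (by simp) ih.1 using 1; ring
    have := gs_one (2 * j)
    convert cf_step (by simp) hα ih.1 ih.2 (h (Ws.sub (by simp)) (Ws.sub (by simp)) (fun r hr => (Ws.dim hr).trans
      (by ring)) fun r hr => (Ws.dim hr).trans (by ring)) (h Vs.sub Vs.sub (fun r => Vs.dim) fun r => Vs.dim)
        using 2 <;> rw [FG, mul_add_one 2, prod_range_succ, prod_range_succ]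
    · linear_combination (FG (R := ℝ⟦X⟧) (X ^ 2) a b j).2 * (∏ i ∈ range (2 * j), Gs 1 i) * Gs 1 (2 * j + 1) * this
    · linear_combination 2 * (X ^ (2 * j + 2) + X ^ (4 * j + 4)) * (FG (R := ℝ⟦X⟧) (X ^ 2) a b j).2 *
        (∏ i ∈ range (2 * j), Gs 1 i) * Gs 1 (2 * j + 1) * this

omit hχ [CharP F 2] in
theorem pal_count (n : ℕ) : Nat.card {p : Polynomial F // Pal (n + 1) p ∧ p.eval 1 ≠ 0} + Nat.card F ^ n ≤
    Nat.card F ^ (n + 1) := by
  have : ∀ n, Finite {p : Polynomial F // Pal n p} := fun n =>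
    Nat.finite_of_card_ne_zero (card_pal (F := F) n ▸ pow_ne_zero _ Nat.card_pos.ne')
  have h : (Polynomial.X - 1 : Polynomial F).Monic := Polynomial.monic_X_sub_C 1
  have : Finite {p : Polynomial F // Pal (n + 1) p ∧ p.eval 1 ≠ 0} :=
    Finite.of_injective _ (Subtype.impEmbedding _ _ fun _ h => h.1).injective
  rw [← card_pal, ← card_pal, ← Nat.card_sum]
  refine Nat.card_le_card_of_injective (Sum.elim (fun p => ⟨p.1, p.2.1⟩) fun p => ⟨(.X - 1) ^ 2 * p.1,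
    (h.pow 2).mul p.2.1, ?_, by simp [p.2.2.2.1, sq], by rw [dualP_mul, dualP_pow, dualP_X_sub_one, p.2.2.2.2]⟩)
    (Function.Injective.sumElim (fun p p' e => Subtype.ext (by simpa using e)) (fun p p' e => Subtype.ext
      (mul_left_cancel₀ (h.pow 2).ne_zero (Subtype.ext_iff.1 e))) fun p p' e => p.2.2 (by
        rw [show p.1 = (.X - 1) ^ 2 * p'.1 from congrArg Subtype.val e]; simp))
  rw [(h.pow 2).natDegree_mul p.2.1, h.natDegree_pow, p.2.2.1, ← Polynomial.C_1, Polynomial.natDegree_X_sub_C]; ring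

omit hχ in
theorem sq_ne_one {z : AC F} (h : z ≠ 1) : z ^ 2 ≠ 1 := by
  have : CharP (AC F) 2 := charP_of_injective_algebraMap (algebraMap F _).injective 2
  simpa [sq_eq_one_iff, CharTwo.neg_eq]

omit hχ in
theorem lb_pe0 : LB (fun M : Multiset (AC F) => El M ∧ 1 ∉ M) (fun _ => 1) (Pe (Nat.card F) * (1 - X ^ 2)) :=
    fun m S hS => by
  have h : ∀ M ∈ S, Even m ∧ M.prod = 1 := fun M hM => (hS M hM).2 ▸ (hS M hM).1.1.2.pair fun z hz =>
    ⟨fun e => (hS M hM).1.1.3 (e ▸ hz), sq_ne_one fun e => (hS M hM).1.2 (e ▸ hz)⟩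
  rw [sum_const, nsmul_one, mul_sub, mul_one, map_sub, coeff_mul_X_pow']
  obtain rfl | ⟨M, hM⟩ := S.eq_empty_or_nonempty
  · obtain _ | _ | m := m
    iterate 2 simp [Pe]
    simpa [pe_two] using le_mul_of_one_le_left (by simpa [Gs] using nn_gs (by simp) 0 m)
      (Nat.one_le_cast.2 Nat.card_pos)
  obtain ⟨n, rfl⟩ := (h M hM).1.two_dvd
  have h1 := fun M hM => (hS M hM).1.1.exists_pal (hS M hM).2 (h M hM).2
  obtain _ | n := n
  · simpa [Pe] using card_le_of_poly S one_ne_zero (card_pal 0) h1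
  have h2 : ∀ M ∈ S, ∃ p : Polynomial F, (Pal (n + 1) p ∧ p.eval 1 ≠ 0) ∧ _ := fun M hM => (h1 M hM).imp fun p h =>
    ⟨⟨h.1, fun e => (hS M hM).1.2 (by
      rw [← Polynomial.roots_multiset_prod_X_sub_C M, ← h.2, Polynomial.mem_roots (h.1.1.map _).ne_zero]
      simpa using Polynomial.IsRoot.map (f := algebraMap F (AC F)) e)⟩, h.2⟩
  have : Finite {p : Polynomial F // Pal (n + 1) p} :=
    Nat.finite_of_card_ne_zero (card_pal (F := F) _ ▸ pow_ne_zero _ Nat.card_pos.ne')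
  have h3 := (Nat.add_le_add_right (card_le_of_poly S (Nat.card_ne_zero.2 ⟨(h2 M hM).elim fun p h => ⟨⟨p, h.1⟩⟩,
    Finite.of_injective _ (Subtype.impEmbedding _ _ fun _ h => h.1).injective⟩) rfl h2) _).trans (pal_count n)
  simp [Pe, mul_add_one, le_sub_iff_add_le, parity_simps]
  exact_mod_cast h3

theorem cf_all {N : ℕ} (h : Cf χ (Ua P N ∪ Ub P N) (f * ∏ i ∈ range (2 * N), Gs 1 i)) :
    Cf χ {x | dm x.JD ≤ 2 * N} (f * ∏ i ∈ range (2 * N), Gs (Nat.card F) i) := by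
  classical
  have h1 : Cf 1 {y : Mo P | dm y.JD ≤ 2 * N ∧ ∀ z ∈ y.JD, z.1 ≠ 1} (∏ i ∈ range (2 * N),
      expand (i + 1) i.succ_ne_zero (Pe (Nat.card F) * (1 - X ^ 2))) := fun n s T hT => by
    obtain rfl | ⟨y, hy⟩ := T.eq_empty_or_nonempty
    · exact Nat.cast_zero.trans_le (nn_prod (fun i n => by
        rw [coeff_expand]; split_ifs; exacts [(lb_pe0 (F := F)).nn _, le_rfl]) n)
    rw [← card_image_of_injOn (f := Mo.JD) fun x hx y _ e => Mo.eq_of_JD e fun z hz =>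
      sq_ne_one ((hT x hx).1.2 z hz)]
    refine le_trans (by simp) (sum_LB _ ((hT y hy).2.1 ▸ (hT y hy).1.1) (ω := fun _ _ => 1) (by simp)
      (forall_mem_image.2 fun x hx => ?_) (E := fun _ M => El M ∧ 1 ∉ M) (forall_mem_image.2 fun x hx i =>
        ⟨x.el i, fun e => (hT x hx).1.2 _ (mem_lev.1 e) rfl⟩) (A := fun _ => Pe (Nat.card F) * (1 - X ^ 2))
        (fun _ => lb_pe0) fun i => by simp [Pe])
    obtain ⟨x⟩ := x
    exact (hT _ hx).2.1 ▸ dm_JD (iE x.g) ▸ JD_mem_Pt _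
  convert (h1.mul hχ h).mono (B := {x | dm x.JD ≤ 2 * N}) fun x (hx : dm x.JD ≤ _) => ?_ using 1
  · rw [mul_left_comm, ← prod_mul_distrib]
    congr 1
    refine prod_congr rfl fun i _ => ?_
    simp only [map_mul, map_sub, map_one, map_pow, expand_X]
    rw [← Gs]
    linear_combination -Gs (Nat.card F) i * gs_one i
  obtain ⟨u, y, rfl, h2, h3⟩ := exists_sz x
  rw [Mo.JD_add, dm_add] at hx
  exact ⟨y, ⟨by omega, h3⟩, u, (em _).imp (fun h => ⟨h2.mono (by omega), h⟩) fun h => ⟨h2.mono (by omega), h⟩,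
    add_comm _ _⟩

omit hχ
variable {V : Type u} [AddCommGroup V] [Module F V] [FiniteDimensional F V]

omit [CharP F 2] in
theorem Cf.classes {S : PForm P V} (hS : S.Nondeg) (h : Cf χ {x | dm x.JD ≤ m} f) (hm : finrank F V ≤ m) {s : ℤˣ}
    (hs : ∀ g, χ (cls hS g) = s) : (Nat.card (ConjClasses S.Isom) : ℝ) ≤ coeff (finrank F V) f := by
  have := finite_isom (S := S)
  obtain ⟨T, h1, h3⟩ := exists_img (fun g : S.Isom => cls hS g) fun _ => True
  rw [← card_classes_true]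
  exact (Nat.cast_le.2 (classes_le_card T _ _ h1 fun g g' _ _ e => isim_iff_isConj.1 ((cls_eq _ _).1 e))).trans
    (h _ s T (h3 fun g _ => ⟨(dm_JD _).trans_le hm, dm_JD _, hs g⟩))

omit [CharP F 2] in
theorem cf_zero (h : ∀ x ∈ A, Sz 0 x) : Cf χ A (1 : ℕ) := by
  simpa using cf_X (m := 0) (fun x hx y hy _ => Mo.eq_of_JD ((h x hx).JD.trans (h y hy).JD.symm)
    (by simp [(h x hx).JD])) fun x hx => by simp [(h x hx).JD]

theorem symp_two_classes {S : PForm (sympP F) V} (hS : S.Nondeg) {n : ℕ} (hV : finrank F V = 2 * n) :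
    5 * Nat.card (ConjClasses S.Isom) ≤ 76 * Nat.card F ^ n := by
  have hq : (2 : ℝ) ≤ Nat.card F := Nat.ofNat_le_cast.2 Finite.one_lt_card
  obtain ⟨h1, h2⟩ := cf_tot (P := sympP F) (cf_zero fun x hx => hx.1) (b := 0) (by
    simpa using cf_empty.mono (B := Ua (sympP F) 0) fun x hx => zero_ne_one ((if_pos ⟨rfl, top_ne_bot⟩).symm.trans
      hx.2.1)) (8 + n)
  have h3 := (cf_all (by simp) (add_mul _ _ (∏ i ∈ _, Gs 1 i) ▸ h1.union h2)).classes hS (by omega) fun _ => rfl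
  obtain ⟨h4, h5⟩ := bd_fg hq (bd_gs hq (10 + 2 * n)) (by norm_num) 1 0 (8 + n)
  have h6 := h5.add h4 (2 * n)
  have := fg_symp n
  rw [← add_mul, ← add_mul, show 6 + (10 + 2 * n) = 2 * (8 + n) by ring, pow_mul, Real.sq_sqrt (by linarith)] at h6
  rw [hV] at h3
  have h7 : (0 : ℝ) ≤ Nat.card F ^ n := by positivity
  exact_mod_cast show 5 * (Nat.card (ConjClasses S.Isom) : ℝ) ≤ 76 * Nat.card F ^ n by
    push_cast at h3 h6; nlinarith

end H11
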