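import Cfsg.Agent.H11.Two2
/-! The type `Mo.ty` of orthogonal classes in characteristic two and the class number bounds
`orth_two_le`, `orth_two_ge` for the even-dimensional orthogonal groups. -/
namespace H11
open Module Finset Pointwise
open PForm hiding X

universe u
variable {F : Type u} [Field F] {j k d : ℕ} {α : F}

section
variable {V : Type*} [AddCommGroup V] [Module F V]

theorem Ky.ker_pow {D : V →ₗ[F] V →ₗ[F] F} {N : End F V} (hK : Ky D N) (hp : N ^ d = 0) {c : V}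
    (h : ∀ v, D c ((N ^ k) v) = 0) (v : V) : D ((N ^ k) c) v = 0 := by
  induction k generalizing c with
  | zero => exact h v
  | succ k ih =>
    have : ∀ v, (N ^ k) (N v) = N ((N ^ k) v) := fun v => (pow_intertwine (φ := N) (fun _ => rfl) k v).symm
    exact ih (Ky.ker (D := D.compl₂ (N ^ k)) (fun u v => by simpa [this] using hK u _) hp h)

variable [FiniteDimensional F V] {S : PForm (orthP F) V}

theorem type_of (hS : S.Nondeg) {n : ℕ} (hV : finrank F V = 2 * n) {U : Submodule F V} (hU : S.TS U) {x y : V}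
    (hx : x ∈ S.perp U) (hy : y ∈ S.perp U) (h : S.h x y = 1) (h' : ∀ v ∈ S.perp U, ∃ s t : F, v - (s • x + t • y) ∈ U) :
    (S.q y = 0 → S.HasTS n) ∧ ((∀ c, c ^ 2 + c ≠ -α) → S.q x = 1 → S.q y = α → ¬ S.HasTS n) := by
  refine ⟨fun h0 => ⟨_, hU.sup_span ((orth_sing _ _).2 h0) hy, ?_⟩, fun hα h1 h2 ⟨X, h3, h4⟩ => ?_⟩
  · have h1 := (hU.sup_span ((orth_sing _ _).2 h0) hy).two_mul_finrank_le hS
    have h2 := hS.finrank_perp (U ⊔ F ∙ y)
    have : finrank F (S.perp (U ⊔ F ∙ y)) ≤ finrank F ↥(U ⊔ F ∙ y) := Submodule.finrank_mono fun v hv => by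
      obtain ⟨s, t, h3⟩ := h' v fun u hu => hv u (Submodule.mem_sup_left hu)
      have h4 := hy _ h3
      have h5 := hv y (Submodule.mem_sup_right (Submodule.mem_span_singleton_self y))
      simp [orth_symm S y v, h5, h, S.h_self, h0] at h4
      exact Submodule.mem_sup.2 ⟨_, h3, t • y, Submodule.smul_mem _ _ (Submodule.mem_span_singleton_self y), by simp [h4]⟩
    omega
  have h5 := hU.finrank_le_of_maximal hS (fun v hv hq => by
    obtain ⟨s, t, h3⟩ := h' v hv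
    have h6 := orth_q_add S (v - (s • x + t • y)) (s • x + t • y)
    rw [sub_add_cancel, (orth_sing _ _).1 hq, orth_ts_iff.1 hU _ h3, (S.perp U).add_mem ((S.perp U).smul_mem s hx)
      ((S.perp U).smul_mem t hy) _ h3, orth_q_add, orth_q_smul, orth_q_smul, h1, h2] at h6
    simp only [map_smul, LinearMap.smul_apply, h, smul_eq_mul, RingHom.id_apply] at h6
    obtain rfl : t = 0 := by_contra fun h0 => hα (s / t) (by field_simp; linear_combination -h6)
    simpa [show s = 0 by simpa using h6.symm] using h3) h3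
  have h6 := hS.finrank_perp U
  have h7 := Submodule.eq_of_le_of_finrank_le hU.le_perp (by omega)
  exact zero_ne_one ((hy x (h7 ▸ hx)).symm.trans h)

variable [CharP F 2] [Finite F]

omit [Finite F] in
theorem two_even (hS : S.Nondeg) : finrank F V = 2 * (finrank F V / 2) :=
  (Nat.two_mul_div_two_of_even (symp_even _ (S := sympS S.h (two_self S)) hS rfl)).symm

omit [FiniteDimensional F V] [CharP F 2] [Finite F] in
@[simp] theorem lam_orth : lam (orthP F) j = 1 := if_neg fun h => h.2 rfl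

omit [FiniteDimensional F V] in
theorem Pv.q_pow {N : End F V} (h : Pv S N) (v : V) : S.q ((N ^ k) v) = qq S N k v := by
  have : ∀ j, qq S N j ((N ^ k) v) = qq S N (j + k) v := by
    induction k with
    | zero => simp
    | succ k ih => intro j; rw [pow_succ', End.mul_apply, h.qq_N, ih, lam_orth, one_mul, add_right_comm, add_assoc]
  simpa [qq] using this 0

theorem Gn.type {N : End F V} {e₁ e₂ : V} {π₁ π₂ : V →ₗ[F] F} (G : Gn N d e₁ e₂ π₁ π₂) (hS : S.Nondeg) (h : Pv S N)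
    (e : j + k = d + 1) (hk : d + 2 ≤ 2 * k) {x y : V} (h1 : S.h ((N ^ j) x) ((N ^ j) y) = 1)
    (h2 : ∀ w, ∃ (s t : F) (u : V), (N ^ j) w = (N ^ j) (s • x + t • y) + (N ^ k) u) :
    (qq S N j y = 0 → S.HasTS (finrank F V / 2)) ∧
      ((∀ c, c ^ 2 + c ≠ α) → qq S N j x = 1 → qq S N j y = α → ¬ S.HasTS (finrank F V / 2)) := by
  have h3 : ∀ x, (N ^ j) x ∈ S.perp (LinearMap.range (N ^ k)) := by
    rintro x _ ⟨y, rfl⟩; exact lv_of_pow h.1 G.pow _ _ _ _ (by omega)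
  simpa only [h.q_pow, CharTwo.neg_eq] using type_of hS (two_even hS) (orth_ts_iff.2 (by
    rintro _ ⟨v, rfl⟩; rw [h.q_pow, h.qq_top G.pow hk])) (h3 x) (h3 y) h1 fun v hv => by
      obtain ⟨w, rfl⟩ := G.ker j k v e (hS _ (h.1.ker_pow G.pow fun u => (two_symm ..).trans (hv _ ⟨u, rfl⟩)))
      obtain ⟨s, t, u, hu⟩ := h2 w
      exact ⟨s, t, u, by simp [hu]⟩
end

open Classical in
/-- the type of the underlying quadratic space -/
noncomputable def Mo.ty : Mo (orthP F) → ℤˣ :=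
  Quotient.lift (fun o => if o.S.HasTS (finrank F o.V / 2) then 1 else -1) fun x y h => by
    simp only [(ISim.eqv h).finrank_eq, (ISim.eqv h).hasTS_iff]

open Classical in
theorem ty_cls {V : Type u} [AddCommGroup V] [Module F V] [FiniteDimensional F V] {S : PForm (orthP F) V}
    (hS : S.Nondeg) (g : S.Isom) : (cls hS g).ty = if S.HasTS (finrank F V / 2) then 1 else -1 := rfl

variable [CharP F 2] [Finite F]

theorem Mo.ty_add (x y : Mo (orthP F)) : (x + y).ty = x.ty * y.ty := by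
  classical
  obtain ⟨⟨x⟩, ⟨y⟩⟩ := x, y
  have h1 := two_even x.nd
  have h2 := two_even y.nd
  have := hasTS_prod x.nd y.nd h1 h2
  rw [show _ + _ = finrank F (x.V × y.V) / 2 by rw [finrank_prod]; omega] at this
  rw [show Quot.mk _ x = cls x.nd x.g from rfl, show Quot.mk _ y = cls y.nd y.g from rfl, cls_add, ty_cls, ty_cls, ty_cls,
    this]
  clear h1 h2 this
  split_ifs <;> simp_all

theorem Ws.ty {r : Mo (orthP F)} {a b : F} (h : r ∈ Ws _ (2 * j) a b) :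
    (b = 0 → r.ty = 1) ∧ ((∀ c, c ^ 2 + c ≠ α) → a = 1 → b = α → r.ty = -1) := by
  obtain ⟨S, hS, k, rfl, e, h1, rfl, rfl⟩ := h
  have h := e ▸ pv_isom k
  rw [show (2 * j + 1) / 2 = j by omega]
  have := gn_two.type (α := α) hS h (j := j) (k := j + 1) (by ring) (by omega)
    ((h.top_even gn_two.pow _ _).trans h1) fun w => by
      obtain ⟨u, hu⟩ := gn_two.dec w
      exact ⟨_, _, u, by rw [pow_succ, End.mul_apply, ← map_add, ← hu]⟩
  exact ⟨fun h => if_pos (this.1 h), fun h1 h2 h3 => if_neg (this.2 h1 h2 h3)⟩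

theorem Vs.ty {r : Mo (orthP F)} {b : F} (h : r ∈ Vs _ j b) :
    (b = 0 → r.ty = 1) ∧ ((∀ c, c ^ 2 + c ≠ α) → b = α → r.ty = -1) := by
  obtain ⟨S, hS, k, rfl, e, h1, rfl⟩ := h
  have h := e ▸ pv_isom k
  have := gn_one.type (α := α) hS h (j := j) (k := j + 2) (by ring) (by omega) (x := shf F _ (gen F _)) (y := gen F _)
    ((two_symm ..).trans h1) fun w => by
      obtain ⟨u, hu⟩ := gn_one.dec w
      obtain ⟨v, hv⟩ := gn_one.dec u
      exact ⟨u (Fin.last _), w (Fin.last _), v, by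
        conv_lhs => rw [hu, hv]
        simp [pow_succ]; abel⟩
  exact ⟨fun h => if_pos (this.1 h), fun h2 h3 => if_neg (this.2 h2 (by rw [h.qq_N, h1, lam_orth, one_mul]) h3)⟩

section
open PowerSeries

theorem cf_fib (j : ℕ) :
    Cf Mo.ty (Ua (orthP F) j) (C 2⁻¹ * ((FG (R := ℝ⟦X⟧) (X ^ 2) (0 : ℕ) (1 : ℕ) j).2 + 1) * ∏ i ∈ range (2 * j), Gs 1 i) ∧
    Cf Mo.ty (Ub (orthP F) j) (C 2⁻¹ * (FG (R := ℝ⟦X⟧) (X ^ 2) (0 : ℕ) (1 : ℕ) j).1 * ∏ i ∈ range (2 * j), Gs 1 i) := by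
  obtain ⟨α, h0, hα⟩ := exists_alpha (F := F)
  have h1 : ∀ χ, Cf χ (Ub (orthP F) 0) 0 := fun χ => cf_empty.mono fun x hx => hx.2 ⟨lam_orth, by
    rintro _ ⟨o, rfl, v, rfl⟩
    rw [show v = 0 from LinearMap.congr_fun hx.1 v, qq_zero]⟩
  have h2 : (C 2⁻¹ * 2 : ℝ⟦X⟧) = 1 := by rw [← map_ofNat (C (R := ℝ)), ← map_mul]; simp
  induction j with
  | zero => exact ⟨by simpa [FG, one_add_one_eq_two, h2] using cf_zero fun x hx => hx.1, by simpa [FG] using h1 _⟩
  | succ j ih =>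
    have h3 := (cf_tot (a := 0) (by simpa using h1 1) (cf_zero fun x hx => hx.1) j).1
    have h : ∀ {R R' m}, R.Subsingleton → R'.Subsingleton → (∀ r ∈ R, dm r.JD = m ∧ r.ty = 1) →
        (∀ r ∈ R', dm r.JD = m ∧ r.ty = -1) → Cf Mo.ty ((R ∪ R') + Ua (orthP F) j) (X ^ m * _) :=
      fun {R R' m} h4 h5 h6 h7 => by
        rw [add_comm, mul_comm]
        refine h3.mul Mo.ty_add (cf_X (fun x hx y hy e => ?_) fun r hr => hr.elim (h6 r · |>.1) (h7 r · |>.1))
        rcases hx with hx | hx <;> rcases hy with hy | hy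
        exacts [h4 hx hy, by simp [h6 x hx, h7 y hy] at e, by simp [h7 x hx, h6 y hy] at e, h5 hx hy]
    have := gs_one (2 * j)
    obtain ⟨h4, h5⟩ := cf_step Mo.ty_add hα ih.1 ih.2 (h (Ws.sub (by simp)) (Ws.sub (by simp))
      (fun r hr => ⟨(Ws.dim hr).trans (by ring), (Ws.ty (α := α) hr).1 rfl⟩)
      fun r hr => ⟨(Ws.dim hr).trans (by ring), (Ws.ty hr).2 h0 rfl rfl⟩) (h Vs.sub Vs.sub
        (fun r hr => ⟨Vs.dim hr, (Vs.ty (α := α) hr).1 rfl⟩) fun r hr => ⟨Vs.dim hr, (Vs.ty hr).2 h0 rfl⟩)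
    have h6 : NN (X ^ (4 * j + 2) * (C 2⁻¹ * ∏ i ∈ range (2 * (j + 1)), Gs 1 i)) := fun n => by
      rw [coeff_X_pow_mul', coeff_C_mul]
      split_ifs
      exacts [mul_nonneg (by simp) (nn_prod (nn_gs zero_le_one) _), le_rfl]
    convert And.intro (h4.add_nn h6) h5 using 2 <;> rw [FG, mul_add_one 2, prod_range_succ, prod_range_succ] <;>
      generalize FG (R := ℝ⟦X⟧) _ _ _ j = z, ∏ i ∈ range (2 * j), Gs 1 i = p, Gs 1 (2 * j + 1) = e
    · linear_combination C 2⁻¹ * (z.2 + 1) * p * e * this + z.2 * X ^ (4 * j + 2) * p * e * Gs 1 (2 * j) * h2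
    · linear_combination (X ^ (2 * j + 2) + X ^ (4 * j + 4)) * z.2 * p * e * (this + Gs 1 (2 * j) * h2)

variable {V : Type u} [AddCommGroup V] [Module F V] [FiniteDimensional F V]

theorem orth_two_le {S : PForm (orthP F) V} (hS : S.Nondeg) {n : ℕ} (hV : finrank F V = 2 * n) :
    Nat.card (ConjClasses S.Isom) ≤ 15 * Nat.card F ^ n := by
  have hq : (2 : ℝ) ≤ Nat.card F := Nat.ofNat_le_cast.2 Finite.one_lt_card
  obtain ⟨h1, h2⟩ := cf_fib (F := F) (8 + n)
  have h3 := (cf_all Mo.ty_add (add_mul _ _ (∏ i ∈ _, Gs 1 i) ▸ h1.union h2)).classes hS (by omega) (ty_cls hS)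
  have h0 := bd_gs hq (10 + 2 * n)
  obtain ⟨h4, h5⟩ := bd_fg hq h0 (by norm_num) 0 1 (8 + n)
  have h6 := (h5.add h0).add h4 (2 * n)
  have := fg_orth n
  rw [show 6 + (10 + 2 * n) = 2 * (8 + n) by ring, pow_mul, Real.sq_sqrt (by linarith)] at h6
  rw [hV, ← mul_add, mul_assoc, coeff_C_mul, add_mul, add_mul, one_mul] at h3
  have h7 : (0 : ℝ) ≤ Nat.card F ^ n := by positivity
  exact_mod_cast show (Nat.card (ConjClasses S.Isom) : ℝ) ≤ 15 * Nat.card F ^ n by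
    push_cast at h3 h6; nlinarith
end

open Polynomial
section
variable {K : Type*} [Field K] {n m : ℕ} {s t : K} {p r : K[X]}

/-- second order expansion at `1` -/
def Rl (n : ℕ) (s : K) (p : K[X]) : Prop :=
  p.eval 1 ≠ 0 ∧ (X - 1) ^ 3 ∣ p - C (p.eval 1) * (X ^ n + C s * (X - 1) ^ 2)

theorem Rl.mul (h : Rl n s p) (h' : Rl m t r) : Rl (n + m) (s + t) (p * r) := by
  obtain ⟨⟨h1, u, hu⟩, h2, v, hv⟩ := And.intro h h'
  obtain ⟨a, ha⟩ := sub_one_dvd_pow_sub_one (X : K[X]) n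
  obtain ⟨b, hb⟩ := sub_one_dvd_pow_sub_one (X : K[X]) m
  refine ⟨by simp [h1, h2], C (p.eval 1) * C (r.eval 1) * (C s * b + C t * a + C s * C t * (X - 1)) + u * r +
    v * C (p.eval 1) * (X ^ n + C s * (X - 1) ^ 2), ?_⟩
  rw [eval_mul, map_mul, map_add, pow_add]
  linear_combination hu * r + hv * C (p.eval 1) * (X ^ n + C s * (X - 1) ^ 2) +
    C (p.eval 1) * C (r.eval 1) * (X - 1) ^ 2 * (C s * hb + C t * ha)

theorem Rl.unique (h : Rl n s p) (h' : Rl n t p) : s = t := by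
  obtain ⟨⟨h1, u, hu⟩, -, v, hv⟩ := And.intro h h'
  have := mul_left_cancel₀ (pow_ne_zero 2 (X_sub_C_ne_zero (1 : K))) (show (X - C 1) ^ 2 * (C (p.eval 1) * (C s - C t)) =
    (X - C 1) ^ 2 * ((X - 1) * (v - u)) by rw [C_1]; linear_combination hv - hu)
  simpa [h1, sub_eq_zero] using congrArg (eval 1) this

theorem Rl.flip (h : Rl (n + 1) s p) (c : K) :
    Rl (n + 1) (s + c) (p + C (c * p.eval 1) * (X ^ n * (X - 1) ^ 2)) := by
  obtain ⟨h1, u, hu⟩ := h
  obtain ⟨a, ha⟩ := sub_one_dvd_pow_sub_one (X : K[X]) n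
  refine ⟨by simpa, u + C c * C (p.eval 1) * a, ?_⟩
  rw [show eval 1 (p + C (c * p.eval 1) * (X ^ n * (X - 1) ^ 2)) = p.eval 1 by simp, map_mul, map_add]
  linear_combination hu + C c * C (p.eval 1) * (X - 1) ^ 2 * ha

theorem rl_one [CharP K 2] {w : K} (h0 : w ≠ 0) (h1 : w ≠ 1) :
    Rl 1 ((1 + w)⁻¹ ^ 2 + (1 + w)⁻¹) ((X - C w) * (X - C w⁻¹)) := by
  have h2 : 1 + w ≠ 0 := by rwa [Ne, CharTwo.add_eq_zero, eq_comm]
  have h3 : (1 - w) * (1 - w⁻¹) * ((1 + w)⁻¹ ^ 2 + (1 + w)⁻¹) = 1 := by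
    simp only [CharTwo.sub_eq_add]; field_simp; grind
  have h4 : C w * C w⁻¹ = 1 := by rw [← map_mul, mul_inv_cancel₀ h0, map_one]
  have h5 := congrArg C h3
  simp only [map_mul, map_sub, map_one] at h5
  exact ⟨by simpa using left_ne_zero_of_mul_eq_one h3, 0, by
    simp only [eval_mul, eval_sub, eval_X, eval_C, map_mul, map_sub, map_one]
    linear_combination (1 - X) * h4 - (X - 1) ^ 2 * h5⟩

/-- the characteristic polynomial of Jordan data -/
noncomputable def pj (J : Multiset (K × ℕ)) : K[X] := (J.map fun x => (X - C x.1) ^ x.2).prod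

theorem pj_add (J J' : Multiset (K × ℕ)) : pj (J + J') = pj J * pj J' := by simp [pj]

theorem Pal.flip {p : K[X]} (hp : Pal (m + 2) p) (c : K) : Pal (m + 2) (p + C c * (X ^ (m + 1) * (X - 1) ^ 2)) := by
  obtain ⟨h6, h7, h8⟩ := pal_iff.1 hp
  have h9 : ∀ i, (X ^ (m + 1) * (X - 1) ^ 2 : K[X]).coeff i = (if i = m + 1 then 1 else 0) -
      2 * (if i = m + 2 then 1 else 0) + if i = m + 3 then 1 else 0 := fun i => by
    rw [show (X ^ (m + 1) * (X - 1) ^ 2 : K[X]) = X ^ (m + 1) - C 2 * X ^ (m + 2) + X ^ (m + 3) by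
      rw [C_ofNat]; ring]
    simp only [coeff_add, coeff_sub, coeff_C_mul, coeff_X_pow]
  refine pal_iff.2 ⟨(natDegree_add_eq_left_of_natDegree_lt (h6 ▸ lt_of_le_of_lt (b := m + 3)
    (by compute_degree) (by omega))).trans h6, by simp [h7], fun i hi => ?_⟩
  simp only [coeff_add, coeff_C_mul, h9, h8 i hi, show 2 * (m + 2) - i = m + 1 ↔ i = m + 3 by omega,
    show 2 * (m + 2) - i = m + 2 ↔ i = m + 2 by omega, show 2 * (m + 2) - i = m + 3 ↔ i = m + 1 by omega]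
  ring
end

variable {w : AC F} {l : ℕ}

instance : CharP (AC F) 2 := charP_of_injective_algebraMap (algebraMap F _).injective 2

omit [CharP F 2] in
theorem add_pow_natCard (a b : AC F) : (a + b) ^ Nat.card F = a ^ Nat.card F + b ^ Nat.card F := by
  have := Fintype.ofFinite F
  simpa [FiniteField.frobeniusAlgHom_apply] using map_add (FiniteField.frobeniusAlgHom F (AC F)) a b

theorem rl_pc (h0 : w ≠ 0) (h : ∀ i < l, w ^ (Nat.card F : ℤ) ^ i ≠ 1) : ∃ μ, Rl l (μ ^ 2 + μ) (pj (pc (Nat.card F) l w 1)) ∧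
    μ ^ Nat.card F = μ + (1 + w)⁻¹ + (1 + w ^ (Nat.card F : ℤ) ^ l)⁻¹ := by
  induction l with
  | zero => exact ⟨0, by simp [Rl, pj, pc, orb], by simp [CharTwo.add_self_eq_zero, Nat.card_pos.ne']⟩
  | succ l ih =>
    obtain ⟨μ, h1, h2⟩ := ih fun i hi => h i (by omega)
    refine ⟨μ + (1 + w ^ (Nat.card F : ℤ) ^ l)⁻¹, ?_, ?_⟩
    · convert h1.mul (rl_one (zpow_ne_zero _ h0) (h l l.lt_succ_self)) using 1
      · rw [CharTwo.add_sq]; ring
      · simp only [pc, orb_add, orb_one, pj_add]; simp [pj]; ring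
    · rw [add_pow_natCard, h2, inv_pow, add_pow_natCard, pow_succ, zpow_mul]; simp; ring

omit [CharP F 2] in
theorem piece_plus (h0 : w ≠ 0) (h : w ^ (Nat.card F : ℤ) ^ l = w) :
    ∃ x : Mo (orthP F), x.JD = pc (Nat.card F) l w 1 ∧ x.ty = 1 := by
  obtain ⟨A, hA⟩ := (gl_JD (ι := Fin l) _).2 ⟨adm_orb h h0 one_pos, by simp, trivial⟩
  exact ⟨cls (sPlus_nondeg l F) (leviO l F A), (JD_leviO A).trans (by rw [hA, orb_map, zpow_neg_one, pc]),
    if_pos (by simpa [← two_mul] using sPlus_hasTS l F)⟩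

theorem piece_minus (hl : 0 < l) (h0 : w ≠ 0) (h : w ^ (Nat.card F : ℤ) ^ l = w⁻¹) :
    ∃ x : Mo (orthP F), x.JD = pc (Nat.card F) l w 1 ∧ x.ty = -1 := by
  have q1 := Nat.one_lt_pow hl.ne' (Finite.one_lt_card (α := F))
  have h1 : ((Nat.card F ^ l + 1 : ℕ) : F) ≠ 0 := by have := Fintype.ofFinite F; simp [hl.ne']
  have : NeZero ((Nat.card F ^ l + 1 : ℕ) : AC F) := ⟨by rwa [← map_natCast (algebraMap F _), _root_.map_ne_zero]⟩
  obtain ⟨η, hη⟩ := HasEnoughRootsOfUnity.exists_primitiveRoot (AC F) (Nat.card F ^ l + 1)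
  obtain ⟨k, hk, rfl⟩ : ∃ k : ℕ, (k : F) ≠ 0 ∧ η ^ k = w := by
    obtain ⟨k, -, rfl⟩ := hη.eq_pow_of_pow_eq_one (show w ^ _ = 1 by
      rw [pow_succ, ← zpow_natCast, Nat.cast_pow, h, inv_mul_cancel₀ h0])
    by_cases hk : (k : F) = 0
    exacts [⟨k + (Nat.card F ^ l + 1), by rwa [Nat.cast_add, hk, zero_add], by rw [pow_add, hη.pow_eq_one, mul_one]⟩, ⟨k, hk, rfl⟩]
  have h2 : ∀ z ∈ pc (Nat.card F) l η 1, IsPrimitiveRoot z.1 (Nat.card F ^ l + 1) ∧ z.2 = 1 := by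
    have : ∀ i, (Nat.card F ^ i).Coprime (Nat.card F ^ l + 1) := fun i => .pow_left _
      ((Nat.coprime_pow_left_iff hl _ _).1 (by simp))
    simp only [pc, Multiset.mem_add, or_imp, forall_and, forall_mem_orb]
    simp only [← Nat.cast_pow, zpow_natCast]
    exact ⟨⟨fun i _ => hη.pow_of_coprime _ (this i), fun i _ => hη.inv.pow_of_coprime _ (this i)⟩, by simp⟩
  obtain ⟨⟨⟨V, T, hT, g⟩⟩, h3⟩ := exists_Mo₀ (orthP F) (adm_pc (t := Nat.card F) (l := l) (.inr (by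
    rw [← Nat.cast_pow, zpow_natCast]; exact eq_inv_of_mul_eq_one_left (pow_succ η _ ▸ hη.pow_eq_one)))
      (hη.ne_zero (by simp)) one_pos) st_pc' fun z hz => (h2 z hz).1.pow_ne_one_of_pos_of_lt two_ne_zero (by omega)
  replace h3 : JD (iE g) = _ := h3
  have h4 : finrank F V = 2 * l := by simp [← dm_JD (iE g), h3, pc, two_mul]
  refine ⟨cls hT (g ^ k), ?_, if_neg fun t => ?_⟩
  · change JD _ = _
    rw [iE_pow, JD_pow (isUnit_iE g) hk, h3]
    simpa using pc_map (t := Nat.card F) (l := l) (e := 1) (w := η) k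
  rw [h4, Nat.mul_div_cancel_left _ two_pos] at t
  have h5 : ∀ m, g ^ m = 1 ∨ ∀ x, (g ^ m).1 x = x → x = 0 := fun m => by
    by_cases hm : Nat.card F ^ l + 1 ∣ m
    · obtain ⟨m, rfl⟩ := hm
      rw [pow_mul, orderOf_dvd_iff_pow_eq_one.1 ((ord_dvd_of_JD 2 (g := g) (Nat.succ_ne_zero _)).2 (h3 ▸ fun z hz =>
        ⟨(h2 z hz).1.pow_eq_one, (h2 z hz).2 ▸ Nat.ordProj_pos _ _⟩)), one_pow]; simp
    · refine .inr (isUnit_sub_one_iff_fix.1 (show IsUnit (iE (g ^ m) - 1) from ?_))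
      simpa [iE_pow] using (isUnit_aeval_iff_JD (f := iE g) (Q := X ^ m - C 1) (X_pow_sub_C_ne_zero
        (Nat.pos_of_ne_zero (by rintro rfl; simp at hm)) _)).2 (h3 ▸ fun z hz => by
          simpa [sub_eq_zero, (h2 z hz).1.pow_eq_one_iff_dvd] using hm)
  have := finite_isom (S := T)
  let _ : MulAction (Subgroup.zpowers g) {x // T.q x = 1} :=
    { smul k x := ⟨k.1.1 x.1, by simpa using x.2⟩, one_smul _ := rfl, mul_smul _ _ _ := rfl }
  have h6 := Nat.card_congr (MulAction.selfEquivOrbitsQuotientProd (G := Subgroup.zpowers g) (X := {x // T.q x = 1})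
    fun x => (Subgroup.eq_bot_iff_forall _).2 fun k hk => by
      obtain ⟨k, hk'⟩ := k
      obtain ⟨m, rfl⟩ := (mem_powers_iff_mem_zpowers).2 hk'
      exact Subtype.ext ((h5 m).resolve_right fun h => by
        simpa [h x.1 (congrArg Subtype.val hk), orth_q_zero] using x.2))
  have h7 : Nat.card F ^ l + 1 ∣ orderOf g := (h2 (η, 1) (by simp [pc, mem_orb]; exact .inl ⟨0, hl, by simp⟩)).1.dvd_of_pow_eq_one _
    (((ord_dvd_of_JD 2 (orderOf_pos g).ne').1 dvd_rfl _ (by rw [h3]; simp [pc, mem_orb]; exact .inl ⟨0, hl, by simp⟩)).1)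
  obtain ⟨c, hc⟩ := h7
  have h8 := orth_cnt_even 1 _ hT h4
  rw [orth_cnt_def, h6, Nat.card_prod, Nat.card_zpowers, hc, if_pos t, if_neg one_ne_zero] at h8
  generalize Nat.card (Quotient _) = k at h8
  rw [two_mul, pow_add, ← Nat.cast_pow] at h8
  have h7 : ((Nat.card F ^ l + 1 : ℕ) : ℤ) ∣ ((Nat.card F ^ l : ℕ) - 1) * (Nat.card F ^ l : ℕ) := ⟨Nat.card F * k * c, by
    push_cast at h8 ⊢; linear_combination -h8⟩
  have := Int.le_of_dvd (by omega) (IsCoprime.dvd_of_dvd_mul_right ⟨1, -1, by push_cast; ring⟩ h7)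
  omega

theorem exists_ty {J : Multiset (AC F × ℕ)} (h : Adm (Nat.card F) J) (h' : St (-1) J) (h1 : ∀ z ∈ J, z.1 ≠ 1 ∧ z.2 = 1) :
    ∃ x : Mo (orthP F), x.JD = J ∧ ∃ μ n, dm J = 2 * n ∧ Rl n (μ ^ 2 + μ) (pj J) ∧
      μ ^ Nat.card F = μ + if x.ty = 1 then 0 else 1 := by
  induction J using Multiset.strongInductionOn with | _ J ih =>
  rcases J.empty_or_exists_mem with rfl | ⟨⟨w, e⟩, hz⟩
  · obtain ⟨x, h2, h3⟩ := piece_plus (F := F) (l := 0) one_ne_zero (by simp)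
    exact ⟨x, h2, 0, 0, rfl, by simp [Rl, pj], by simp [h3, Nat.card_pos.ne']⟩
  obtain ⟨J, l, rfl, hl, h2⟩ := exists_pc h h' hz (sq_ne_one (h1 _ hz).1)
  obtain ⟨h3, rfl : e = 1⟩ := h1 _ hz
  have h0 := (h.ne _ hz).1
  obtain ⟨y, rfl, μ, n, h4, h5, h6⟩ := ih J (Multiset.lt_iff_cons_le.2 ⟨(w, 1), by
      rw [← Multiset.singleton_add]; gcongr; simp [pc, mem_orb]; exact .inl ⟨0, hl, by simp⟩⟩)
    ⟨h.st.of_add (adm_pc h2 h0 one_pos).st, fun z hz => h.ne z (by simp [hz])⟩ (h'.of_add st_pc')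
    fun z hz => h1 z (by simp [hz])
  obtain ⟨ν, h7, h8⟩ := rl_pc (l := l) h0 fun i hi => (h1 (_, 1) (by simp [pc, mem_orb]; exact .inl (.inl ⟨i, hi, rfl⟩))).1
  obtain ⟨x, h9, h10⟩ : ∃ x : Mo (orthP F), x.JD = pc (Nat.card F) l w 1 ∧ ν ^ Nat.card F = ν + if x.ty = 1 then 0 else 1 := by
    rcases h2 with h2 | h2
    · exact (piece_plus h0 h2).imp fun x h => ⟨h.1, by simp [h8, h2, h.2, add_assoc, CharTwo.add_self_eq_zero]⟩
    refine (piece_minus hl h0 h2).imp fun x h => ⟨h.1, ?_⟩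
    have h2' : w ^ (Nat.card F : ℤ) ^ l = w⁻¹ := h2
    have : 1 + w ≠ 0 := by rwa [Ne, CharTwo.add_eq_zero, eq_comm]
    have : w + 1 ≠ 0 := by rwa [add_comm]
    rw [h8, h2', h.2, if_neg (by decide), add_assoc]; congr 1; field_simp; ring
  refine ⟨x + y, by rw [Mo.JD_add, h9], ν + μ, l + n, by simp [pc, h4]; ring, ?_, ?_⟩
  · convert h7.mul h5 using 1
    · rw [CharTwo.add_sq]; ring
    · exact pj_add ..
  · rw [add_pow_natCard, h10, h6, Mo.ty_add, add_add_add_comm]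
    rcases Int.units_eq_one_or x.ty with h | h <;> rcases Int.units_eq_one_or y.ty with h' | h' <;>
      simp [h, h', CharTwo.add_self_eq_zero]

omit [CharP F 2] in
theorem JD_one {V : Type*} [AddCommGroup V] [Module F V] [FiniteDimensional F V] :
    JD (1 : End F V) = .replicate (finrank F V) (1, 1) := by
  obtain ⟨p, _⟩ := CharP.exists F
  have := Fact.mk (CharP.char_is_prime F p)
  have h := Multiset.eq_replicate_card.2 fun x (hx : x ∈ JD (1 : End F V)) => show x = (1, 1) from by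
    have := (pow_eq_one_iff_JD p (f := (1 : End F V)) one_ne_zero).1 (one_pow _) x hx
    exact Prod.ext (by simpa using this.1) (le_antisymm (by simpa using this.2) (JD_pos hx))
  rw [← dm_JD 1, h]; simp

omit [CharP F 2] in
theorem exists_one_ty (a : ℕ) (s : ℤˣ) : ∃ x : Mo (orthP F), x.JD = .replicate (2 * (a + 1)) (1, 1) ∧ x.ty = s := by
  obtain ⟨c, hc⟩ := exists_aniso_poly (F := F)
  rcases Int.units_eq_one_or s with rfl | rfl
  · exact ⟨cls (sPlus_nondeg (a + 1) F) 1, JD_one.trans (by rw [finrank_sum_fun]),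
      if_pos (by simpa [← two_mul] using sPlus_hasTS (a + 1) F)⟩
  · exact ⟨cls (sMinus_nondeg a (aniso_of_poly hc)) 1, JD_one.trans (by rw [finrank_minus_fun]), if_neg (by
      rw [finrank_minus_fun, Nat.mul_div_cancel_left _ two_pos]; exact sMinus_not_hasTS a (aniso_of_poly hc))⟩

theorem pal_ty {n : ℕ} {p : F[X]} (h : Pal n p) : (∀ s, ∃ x : Ob (orthP F), (iE x.g).charpoly = p ∧ Mo.ty ⟦x⟧ = s) ∨
    ∃ x : Ob (orthP F), (iE x.g).charpoly = p ∧ ∃ μ, Rl n (μ ^ 2 + μ) (p.map (algebraMap F (AC F))) ∧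
      μ ^ Nat.card F = μ + if Mo.ty ⟦x⟧ = 1 then 0 else 1 := by
  obtain ⟨a, b, N, h1, h3, ha, hb, h4⟩ := exists_el (P := orthP F) h
  have h2 := (h1.of_add (.inl rfl)).of_add (.inr rfl)
  obtain ⟨y, hy, μ, m, h5, h6, h7⟩ := exists_ty (J := N.map (·, 1))
    ⟨h2.1.st 1, by simpa using fun a ha (e : a = 0) => h2.3 (e ▸ ha)⟩ (h2.2.st 1)
    (by simpa using fun a ha (e : a = 1) => h3 a ha (by simp [e]))
  rw [CharTwo.neg_eq, ← add_assoc, ← Multiset.replicate_add] at h4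
  obtain ⟨_ | c, hc⟩ := (ha.add hb).two_dvd
  · obtain ⟨y⟩ := y
    obtain ⟨-, rfl⟩ := h4 y (hy.trans (by simp [hc]))
    obtain rfl : m = n := by
      have := h.2.1; rw [LinearMap.charpoly_natDegree, ← dm_JD (iE y.g), show JD _ = _ from hy] at this; omega
    exact .inr ⟨y, rfl, μ, by rwa [← JD_charpoly, show JD _ = _ from hy], h7⟩
  refine .inl fun s => ?_
  obtain ⟨x, h8, h9⟩ := exists_one_ty (F := F) c (s * y.ty)
  obtain ⟨z, hz⟩ := (x + y).exists_rep
  exact ⟨z, (h4 z ((congrArg Mo.JD hz).trans (by simp [Mo.JD_add, h8, hy, hc]))).2, by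
    rw [hz, Mo.ty_add, h9, mul_assoc, Int.units_mul_self, mul_one]⟩

theorem orth_two_ge {V : Type u} [AddCommGroup V] [Module F V] [FiniteDimensional F V] {S : PForm (orthP F) V}
    (hS : S.Nondeg) {n : ℕ} (hn : 2 ≤ n) (hV : finrank F V = 2 * n) :
    Nat.card F ^ n ≤ 2 * Nat.card (ConjClasses S.Isom) := by
  classical
  have := finite_isom (S := S)
  obtain ⟨α, h0, -⟩ := exists_alpha (F := F)
  obtain ⟨m, rfl⟩ := Nat.exists_eq_add_of_le' hn
  obtain ⟨h1, h3⟩ := card_le_classes (fun g : S.Isom => (iE g).charpoly)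
    (fun _ _ h => (sim_of_isConj h).charpoly) _ fun _ h => h
  let φ : F[X] → F[X] := fun p => p + C (α * p.eval 1) * (X ^ (m + 1) * (X - 1) ^ 2)
  have h7 : ∀ {p}, Pal (m + 2) p → ∀ x : Ob (orthP F), (iE x.g).charpoly = p → Mo.ty ⟦x⟧ = (cls hS 1).ty →
      ∃ g : S.Isom, (iE g).charpoly = p := by
    rintro _ hp x rfl e
    have h4 : finrank F x.V = 2 * (m + 2) := by rw [← hp.2.1, LinearMap.charpoly_natDegree]
    rw [show ⟦x⟧ = cls x.nd x.g from rfl, ty_cls, ty_cls, h4, hV, Nat.mul_div_cancel_left _ two_pos] at e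
    exact ((orth_eqv_even _ x.nd hS h4 hV (by split_ifs at e <;> simp_all)).exists_isim x.g).imp
      fun _ h => h.sim.charpoly.symm
  have h8 : ∀ p, Pal (m + 2) p → (¬ ∃ g : S.Isom, (iE g).charpoly = p) → ∃ g : S.Isom, (iE g).charpoly = φ p :=
      fun p hp h => by
    obtain ⟨x, hx, μ, h4, h5⟩ := (pal_ty hp).resolve_left fun h' => (h' _).elim fun x h' => h (h7 hp x h'.1 h'.2)
    refine (pal_ty (hp.flip _)).elim (fun h' => (h' _).elim fun x h' => h7 (hp.flip _) x h'.1 h'.2)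
      fun ⟨y, hy, ν, h9, h10⟩ => h7 (hp.flip _) y hy (by_contra fun e => ?_)
    have h11 : Mo.ty ⟦x⟧ = Mo.ty ⟦y⟧ := by
      have := mt (h7 hp x hx) h
      revert e this
      generalize Mo.ty ⟦x⟧ = a, Mo.ty ⟦y⟧ = b, (cls hS 1).ty = c
      revert a b c; decide
    obtain ⟨c, hc⟩ := mem_range_of_pow (show (μ + ν) ^ Nat.card F = μ + ν by
      rw [add_pow_natCard, h5, h10, h11, add_add_add_comm, CharTwo.add_self_eq_zero, add_zero])
    have := h9.unique (by simpa [-eval_map_algebraMap, eval_one_map] using h4.flip (algebraMap F _ α))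
    exact h0 c ((algebraMap F (AC F)).injective (by rw [map_add, map_pow, hc]; grind))
  rw [← card_pal]
  refine le_trans ?_ (Nat.mul_le_mul_left 2 h3)
  rw [two_mul, ← Nat.card_sum]
  refine Nat.card_le_card_of_injective (fun p => if h : ∃ g : S.Isom, (iE g).charpoly = p.1 then .inl ⟨_, h⟩
    else .inr ⟨φ p.1, h8 _ p.2 h⟩) fun p p' e => ?_
  simp only at e
  split_ifs at e <;> simp only [Sum.inl.injEq, Sum.inr.injEq, Subtype.mk.injEq] at e
  · exact Subtype.ext e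
  · exact Subtype.ext (by simpa [φ, show p.1.eval 1 = p'.1.eval 1 by simpa [φ] using congrArg (eval 1) e] using e)

end H11
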